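import Mathlib
import Cfsg.Agent.H584.NC.Basic
import Cfsg.Agent.H161.L2Sub
import Cfsg.Agent.Lib.MinNormal
import Cfsg.Agent.Lib.SubnormalJoin
import Cfsg.Agent.Transfer.PGroupNormal
import Cfsg.Agent.SolvableStructure.MinimalNormal
import Cfsg.Agent.PLocal.ThompsonFrattini
import Cfsg.Agent.SylowL5.TypeAGen

/-!
# A non-solvable group with a maximal subgroup which is a 2-group, with trivial core and order at most 32

Task 1105 (S3574): reduction to a simple normal subgroup.
-/

set_option autoImplicit false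
set_option linter.unusedSectionVars false
set_option linter.deprecated false

namespace Cfsg.Agent.H456.PrimTwo

open Subgroup Cfsg.Agent.H584.NC

universe u

/-- a maximal subgroup with trivial core which is a 2-group, in a non-solvable group -/
structure Sit {G : Type u} [Group G] (A : Subgroup G) : Prop where
  sol : ¬ Group.IsSolvable G
  max : IsCoatom A
  core : A.normalCore = ⊥
  two : IsPGroup 2 A

/-- the hypotheses on the simple group: the centralizer of a central involution of a Sylow 2-subgroup `Q` is `Q`,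
`N(Q) = Q` and `64` does not divide the order -/
structure CT (S : Type u) [Group S] : Prop where
  simple : IsSimpleGroup S
  nonsol : ¬ Group.IsSolvable S
  card : ¬ 64 ∣ Nat.card S
  ex : ∃ (z : S) (Q : Sylow 2 S), orderOf z = 2 ∧ centralizer ({z} : Set S) = Q ∧
    normalizer ((Q : Subgroup S) : Set S) = Q

namespace Sit

variable {G : Type u} [Group G] [Finite G] {A : Subgroup G}

theorem norm_eq (h : Sit A) {X : Subgroup G} (hXA : X ≤ A) (hX : X ≠ ⊥) (hA : A ≤ normalizer (X : Set G)) :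
    normalizer (X : Set G) = A := by
  rcases eq_or_lt_of_le hA with h1 | h1
  · exact h1.symm
  · exfalso
    have h2 := h.max.2 _ h1
    have hn : X.Normal := normalizer_eq_top_iff.1 h2
    have h3 : X ≤ A.normalCore := Subgroup.normal_le_normalCore.2 hXA
    rw [h.core] at h3
    exact hX (le_bot_iff.1 h3)

theorem solv_of_two {X : Type u} [Group X] [Finite X] (h : IsPGroup 2 X) : Group.IsSolvable X := by
  have := h.isNilpotent
  infer_instance

theorem exists_sylow (h : Sit A) : ∃ P : Sylow 2 G, (P : Subgroup G) = A := by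
  obtain ⟨P, hP⟩ := h.two.exists_le_sylow
  refine ⟨P, ?_⟩
  rcases eq_or_lt_of_le hP with h1 | h1
  · exact h1.symm
  · exfalso
    have h2 := h.max.2 _ h1
    apply h.sol
    have h3 : IsPGroup 2 (⊤ : Subgroup G) := h2 ▸ P.isPGroup'
    exact solv_of_two (h3.of_equiv topEquiv)

theorem sup_eq (h : Sit A) {N : Subgroup G} [N.Normal] (hN : N ≠ ⊥) : N ⊔ A = ⊤ :=
  Cfsg.Agent.SolvableStructure.MinimalNormal.sup_eq_top_of_normalCore_eq_bot A h.max h.core N hN

/-- nontrivial normal subgroups are not solvable -/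
theorem not_sol (h : Sit A) {N : Subgroup G} [hn : N.Normal] (hN : N ≠ ⊥) : ¬ Group.IsSolvable N := by
  intro hs
  apply h.sol
  have h1 : (A.map (QuotientGroup.mk' N)) = ⊤ := by
    have h2 : (N ⊔ A).map (QuotientGroup.mk' N) = ⊤ := by
      rw [h.sup_eq hN, ← MonoidHom.range_eq_map, MonoidHom.range_eq_top]
      exact QuotientGroup.mk'_surjective N
    rw [Subgroup.map_sup, QuotientGroup.map_mk'_self, bot_sup_eq] at h2
    exact h2
  have h3 : IsPGroup 2 (G ⧸ N) := by
    have h4 : IsPGroup 2 (A.map (QuotientGroup.mk' N)) := h.two.map _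
    rw [h1] at h4
    exact h4.of_equiv topEquiv
  have h5 : Group.IsSolvable (G ⧸ N) := solv_of_two h3
  have h6 : Group.IsSolvable (QuotientGroup.mk' N).range :=
    solvable_of_solvable_injective (Subgroup.subtype_injective _)
  exact solvable_of_ker_le_range N.subtype (QuotientGroup.mk' N) (by rw [QuotientGroup.ker_mk', Subgroup.range_subtype])

/-- the involution -/
theorem exists_z (h : Sit A) {N : Subgroup G} [hn : N.Normal] (hN : N ≠ ⊥) :
    ∃ z ∈ N, z ∈ A ∧ orderOf z = 2 ∧ centralizer ({z} : Set G) = A := by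
  obtain ⟨P, hP⟩ := h.exists_sylow
  obtain ⟨Q, hQ⟩ := Cfsg.Agent.PLocal.ThompsonFrattini.exists_sylow_subgroupOf P N
  have h2 : 2 ∣ Nat.card N := two_dvd_of_nonsol (h.not_sol hN)
  have hQ1 : (Q : Subgroup N) ≠ ⊥ := by
    intro h1
    have h3 : 2 ∣ Nat.card (Q : Subgroup N) := Q.dvd_card_of_dvd_card h2
    rw [h1, Subgroup.card_bot] at h3
    omega
  have hne : N.subgroupOf A ≠ ⊥ := by
    intro h1
    apply hQ1
    rw [hQ, hP, eq_bot_iff]
    intro x hx
    rw [mem_subgroupOf] at hx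
    have h4 : (⟨(x : G), hx⟩ : A) ∈ N.subgroupOf A := by rw [mem_subgroupOf]; exact x.2
    rw [h1, mem_bot] at h4
    rw [mem_bot]
    exact Subtype.ext (congrArg (Subtype.val : A → G) h4)
  obtain ⟨z, hz, hzc, hz2⟩ := Cfsg.Agent.Transfer.PGroupNormal.exists_mem_inf_center_orderOf h.two (N.subgroupOf A) hne
  have hz2' : orderOf (z : G) = 2 := by rw [Subgroup.orderOf_coe, hz2]
  refine ⟨z, hz, z.2, hz2', ?_⟩
  rw [← normalizer_zpowers_of_two hz2']
  refine h.norm_eq ?_ ?_ ?_
  · rw [zpowers_le]; exact z.2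
  · rw [Ne, zpowers_eq_bot]
    intro h1
    rw [h1, orderOf_one] at hz2'
    omega
  · rw [normalizer_zpowers_of_two hz2']
    intro a ha
    rw [mem_centralizer_singleton_iff]
    exact congrArg Subtype.val (mem_center_iff.1 hzc ⟨a, ha⟩)

/-- `C(N) = 1` for `N` normal -/
theorem cent_eq_bot (h : Sit A) {N : Subgroup G} [hn : N.Normal] (hN : N ≠ ⊥) : centralizer (N : Set G) = ⊥ := by
  by_contra hcon
  obtain ⟨z, hz, -, -, hzc⟩ := h.exists_z hN
  apply h.not_sol hcon
  have h1 : centralizer (N : Set G) ≤ A := by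
    rw [← hzc]
    exact centralizer_le (Set.singleton_subset_iff.2 hz)
  exact solv_of_two (h.two.to_le h1)

/-- the normalizer in `N` of the Sylow 2-subgroup `Q` of `N` -/
theorem exists_Q (h : Sit A) {N : Subgroup G} [hn : N.Normal] (hN : N ≠ ⊥) :
    ∃ Q : Sylow 2 N, (Q : Subgroup N) = A.subgroupOf N ∧ normalizer ((Q : Subgroup N) : Set N) = Q := by
  obtain ⟨P, hP⟩ := h.exists_sylow
  obtain ⟨Q, hQ⟩ := Cfsg.Agent.PLocal.ThompsonFrattini.exists_sylow_subgroupOf P N
  rw [hP] at hQ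
  refine ⟨Q, hQ, le_antisymm ?_ le_normalizer⟩
  obtain ⟨z, hz, hzA, hz2, -⟩ := h.exists_z hN
  have h1 : normalizer ((A ⊓ N : Subgroup G) : Set G) = A := by
    refine h.norm_eq inf_le_left ?_ ?_
    · intro h1
      have h2 : z ∈ A ⊓ N := ⟨hzA, hz⟩
      rw [h1, mem_bot] at h2
      rw [h2, orderOf_one] at hz2
      omega
    · intro a ha
      rw [mem_normalizer_iff]
      intro x
      constructor
      · rintro ⟨hx1, hx2⟩
        exact ⟨A.mul_mem (A.mul_mem ha hx1) (A.inv_mem ha), hn.conj_mem _ hx2 _⟩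
      · rintro ⟨hx1, hx2⟩
        have h3 := A.mul_mem (A.mul_mem (A.inv_mem ha) hx1) ha
        have h4 := hn.conj_mem _ hx2 a⁻¹
        have e : a⁻¹ * (a * x * a⁻¹) * a = x := by group
        rw [e] at h3
        have e' : a⁻¹ * (a * x * a⁻¹) * a⁻¹⁻¹ = x := by group
        rw [e'] at h4
        exact ⟨h3, h4⟩
  intro x hx
  rw [hQ, mem_subgroupOf]
  rw [← h1, mem_normalizer_iff]
  intro y
  constructor
  · rintro ⟨hy1, hy2⟩
    have h3 : (⟨y, hy2⟩ : N) ∈ (Q : Subgroup N) := by rw [hQ, mem_subgroupOf]; exact hy1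
    have h4 := (mem_normalizer_iff.1 hx _).1 h3
    rw [hQ, mem_subgroupOf] at h4
    exact ⟨h4, hn.conj_mem _ hy2 _⟩
  · rintro ⟨hy1, hy2⟩
    have hyN : y ∈ N := by
      have h4 := hn.conj_mem _ hy2 (x : G)⁻¹
      have e' : (x : G)⁻¹ * (x * y * (x : G)⁻¹) * (x : G)⁻¹⁻¹ = y := by group
      rwa [e'] at h4
    have h3 : x * (⟨y, hyN⟩ : N) * x⁻¹ ∈ (Q : Subgroup N) := by rw [hQ, mem_subgroupOf]; exact hy1
    have h4 := (mem_normalizer_iff.1 hx _).2 h3
    rw [hQ, mem_subgroupOf] at h4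
    exact ⟨h4, hyN⟩

/-- a minimal normal subgroup is simple -/
theorem simple (h : Sit A) (h64 : ¬ 64 ∣ Nat.card G) {N : Subgroup G} [hn : N.Normal] (hN : N ≠ ⊥)
    (hmin : ∀ M : Subgroup G, M.Normal → M ≤ N → M = ⊥ ∨ M = N) : IsSimpleGroup N := by
  obtain ⟨T, m, -, hT, hm, ⟨e⟩⟩ := Cfsg.Agent.Lib.MinNormal.exists_mulEquiv_pi N hN hmin
  have hns := h.not_sol hN
  have hTs : ¬ Group.IsSolvable T := by
    intro hs
    apply hns
    have h1 : IsMulCommutative T := ⟨⟨IsSimpleGroup.comm_iff_isSolvable.2 hs⟩⟩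
    have h2 : ∀ x y : N, x * y = y * x := by
      intro x y
      apply e.injective
      rw [map_mul, map_mul]
      funext i
      exact h1.1.1 _ _
    let _ : CommGroup N := { (inferInstance : Group N) with mul_comm := h2 }
    infer_instance
  by_cases hm1 : m = 1
  · subst hm1
    let e1 : N ≃* T := e.trans (MulEquiv.funUnique (Fin 1) T)
    have : Nontrivial N := e1.toEquiv.nontrivial
    exact e1.isSimpleGroup
  exfalso
  have hcard : Nat.card N = Nat.card T ^ m := by
    rw [Nat.card_congr e.toEquiv, Nat.card_pi, Finset.prod_const, Finset.card_univ, Fintype.card_fin]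
  have h4 : 4 ∣ Nat.card T := by
    by_contra hcon
    exact hTs (Cfsg.Agent.SylowL5.TypeAGen.isSolvable_of_not_four_dvd hcon)
  have hNG : Nat.card N ∣ Nat.card G := N.card_subgroup_dvd_card
  have h8 : ¬ 8 ∣ Nat.card T := by
    intro h8
    apply h64
    refine dvd_trans ?_ hNG
    rw [hcard]
    calc 64 = 8 ^ 2 := by norm_num
      _ ∣ Nat.card T ^ 2 := pow_dvd_pow_of_dvd h8 2
      _ ∣ Nat.card T ^ m := pow_dvd_pow _ (by omega)
  -- the Sylow subgroup of `N` is abelian
  obtain ⟨Q, hQ, hQn⟩ := h.exists_Q hN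
  have hab : ∀ x ∈ (Q : Subgroup N), ∀ y ∈ (Q : Subgroup N), x * y = y * x := by
    intro x hx y hy
    apply e.injective
    rw [map_mul, map_mul]
    funext i
    change (e x i) * (e y i) = (e y i) * (e x i)
    let f : N →* T := (Pi.evalMonoidHom (fun _ : Fin m => (T : Type u)) i).comp e.toMonoidHom
    have hp : IsPGroup 2 ((Q : Subgroup N).map f) := Q.isPGroup'.map f
    obtain ⟨P, hP⟩ := hp.exists_le_sylow
    have hPc : Nat.card P = 2 ^ 2 := by
      rw [P.card_eq_multiplicity]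
      congr 1
      have hpos : Nat.card T ≠ 0 := Nat.card_pos.ne'
      apply le_antisymm
      · by_contra hcon
        have h3 : 2 ^ 3 ∣ Nat.card T := (Nat.prime_two.pow_dvd_iff_le_factorization hpos).2 (by omega)
        exact h8 h3
      · exact (Nat.prime_two.pow_dvd_iff_le_factorization hpos).1 h4
    have h3 : IsMulCommutative P := IsPGroup.isMulCommutative_of_card_eq_prime_sq hPc
    have hx' : f x ∈ (P : Subgroup T) := hP ⟨x, hx, rfl⟩
    have hy' : f y ∈ (P : Subgroup T) := hP ⟨y, hy, rfl⟩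
    exact congrArg Subtype.val (h3.1.1 (⟨f x, hx'⟩ : P) ⟨f y, hy'⟩)
  apply hns
  apply NC.solvable
  refine Cfsg.Agent.H161.L2Sub.nc_of_abelian Q hab ?_
  apply NC_of_isPGroup
  change IsPGroup 2 (normalizer ((Q : Subgroup N) : Set N))
  rw [hQn]
  exact Q.isPGroup'

/-- **Reduction** to a simple normal subgroup. -/
theorem exists_T (h : Sit A) (h64 : ¬ 64 ∣ Nat.card G) :
    ∃ T : Subgroup G, T.Normal ∧ T ⊔ A = ⊤ ∧ centralizer (T : Set G) = ⊥ ∧ CT T ∧
      ∃ z : G, z ∈ T ∧ z ∈ A ∧ orderOf z = 2 ∧ centralizer ({z} : Set G) = A := by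
  have hnt : Nontrivial G := by
    by_contra hcon
    rw [not_nontrivial_iff_subsingleton] at hcon
    apply h.sol
    infer_instance
  obtain ⟨T, hTn, hT, hmin⟩ := Cfsg.Agent.Lib.SubnormalJoin.exists_minimal_normal G
  obtain ⟨z, hz, hzA, hz2, hzc⟩ := h.exists_z hT
  refine ⟨T, hTn, h.sup_eq hT, h.cent_eq_bot hT, ⟨h.simple h64 hT hmin, h.not_sol hT, ?_, ?_⟩, z, hz, hzA, hz2, hzc⟩
  · intro h1
    exact h64 (h1.trans T.card_subgroup_dvd_card)
  · obtain ⟨Q, hQ, hQn⟩ := h.exists_Q hT
    refine ⟨⟨z, hz⟩, Q, ?_, ?_, hQn⟩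
    · rw [Subgroup.orderOf_mk, hz2]
    · rw [hQ]
      ext x
      rw [mem_centralizer_singleton_iff, mem_subgroupOf, ← hzc, mem_centralizer_singleton_iff]
      constructor
      · intro h1
        exact congrArg Subtype.val h1
      · intro h1
        exact Subtype.ext h1

end Sit

end Cfsg.Agent.H456.PrimTwo
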