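import Mathlib
import Cfsg.Agent.H399.Defs2
import Cfsg.Agent.H456.PrimTwoA
import Cfsg.Agent.BpRee.PslOdd
import Cfsg.Agent.Lib.PSL2Torus
import Cfsg.Agent.Lib.Cores
import Cfsg.Agent.H688.TransAut
import Cfsg.Agent.S0483

/-!
# Task 1107 (S3574): case I with `|A| = 36`
-/

set_option autoImplicit false
set_option linter.unusedSectionVars false
set_option linter.deprecated false

namespace Cfsg.Agent.H456.Case36

open Subgroup Cfsg Cfsg.Agent.H584.NC Cfsg.Agent.Lib.PSL2Torus
open Matrix
open Cfsg.Agent.ClassicalGeometry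
open Cfsg.Agent.ClassicalGeometry.AutPSL.Root
open Cfsg.Agent.ClassicalGeometry.AutPSL.Auto
open Cfsg.Agent.Walter.FieldPSL
open Pointwise

universe u

/-! ### fixed points of automorphisms of order three of `PSL(2, q)` -/

/-- a non-inner automorphism of order 3 of `PSL(2, F)`, `|F|` odd: the fixed points contain `PSL(2, F₀)`, `|F| = |F₀|³` -/
theorem exists_fix {F : Type*} [Field F] [Fintype F] (h2 : (2 : F) ≠ 0)
    {α : MulAut (Matrix.ProjectiveSpecialLinearGroup (Fin 2) F)} (hα : α ^ 3 = 1)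
    (hni : ¬ ∃ g, α = MulAut.conj g) :
    ∃ (F₀ : Subfield F) (f : Matrix.ProjectiveSpecialLinearGroup (Fin 2) F₀ →*
        Matrix.ProjectiveSpecialLinearGroup (Fin 2) F),
      Nat.card F = Nat.card F₀ ^ 3 ∧ Function.Injective f ∧ ∀ x, α (f x) = f x := by
  have hodd : Odd 3 := by decide
  obtain ⟨A, σ, rfl⟩ := CpAut.Psl.exists_of_odd le_rfl hodd hα
  have hσ1 : σ ≠ 1 := by
    intro hσ1
    apply hni
    subst hσ1
    have h5 : lift (cj A * fld (1 : F ≃+* F)) = lift (cj (A ^ 2 * A ^ 2)) := by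
      have e1 : lift (cj A * fld (1 : F ≃+* F)) = lift (cj A) := by rw [map_one fld, mul_one]
      rw [e1] at hα ⊢
      rw [← pow_add, map_pow, map_pow, show 2 + 2 = 3 + 1 by omega, pow_succ, hα, one_mul]
    rw [h5]
    refine CpAutRee.PslThree.lift_cj_inner (c := ((A ^ 2 : GL (Fin 2) F) : Matrix (Fin 2) (Fin 2) F).det) ?_
    rw [Units.val_mul, Matrix.det_mul]
    exact (sq _).symm
  obtain ⟨hord, B, hform⟩ := CpAut.Psl.exists_conj Nat.prime_three hα hσ1
  have hσp : σ ^ 3 = 1 := by rw [← hord]; exact pow_orderOf_eq_one σ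
  have hrel : ∀ y, lift (cj A * fld σ) (lift (cj B) y) = lift (cj B) (lift (fld σ) y) := by
    intro y
    rw [hform, map_mul, map_mul, map_inv, MulAut.mul_apply, MulAut.mul_apply]
    congr 2
    rw [← MulAut.mul_apply, inv_mul_cancel, MulAut.one_apply]
  refine ⟨Fix σ, (lift (cj B)).toMonoidHom.comp (pincl (Fix σ)), ?_, ?_, ?_⟩
  · rw [← hord]
    exact card_eq_Fix_pow σ
  · exact (lift (cj B)).injective.comp (pincl_injective _)
  · intro x
    change lift (cj A * fld σ) (lift (cj B) (pincl (Fix σ) x)) = lift (cj B) (pincl (Fix σ) x)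
    rw [hrel, (mem_range_pincl_iff h2 hodd hσp _).1 ⟨x, rfl⟩]

/-! ### the group -/

theorem solv_of_card_nine {X : Type u} [Group X] [Finite X] {n : ℕ} (h : Nat.card X = 3 ^ n) : Group.IsSolvable X := by
  have : Fact (Nat.Prime 3) := ⟨Nat.prime_three⟩
  have := (IsPGroup.of_card h).isNilpotent
  infer_instance

/-- solvable normal subgroup with solvable quotient, for a subgroup `N` normal in `A` -/
theorem solv_ext {X : Type u} [Group X] (N : Subgroup X) [N.Normal] (h1 : Group.IsSolvable N)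
    (h2 : Group.IsSolvable (X ⧸ N)) : Group.IsSolvable X := by
  have h6 : Group.IsSolvable (QuotientGroup.mk' N).range :=
    solvable_of_solvable_injective (Subgroup.subtype_injective _)
  exact solvable_of_ker_le_range N.subtype (QuotientGroup.mk' N) (by rw [QuotientGroup.ker_mk', Subgroup.range_subtype])

section

variable {G : Type u} [Group G] [Finite G] {A V R : Subgroup G} {g : G}

open Cfsg.Agent.H399

theorem V_le (h : CaseI A V R g) : V ≤ A := by
  rw [← h.normV]; exact le_normalizer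

theorem R_le (h : CaseI A V R g) : R ≤ A := by
  rw [← h.normR]; exact le_normalizer

theorem V_sylow (h : CaseI A V R g) (hA : Nat.card A = 36) : ∃ P : Sylow 2 G, (P : Subgroup G) = V := by
  have hf : Fact (Nat.Prime 2) := ⟨Nat.prime_two⟩
  have hV : IsPGroup 2 V := IsPGroup.of_card (n := 2) (by rw [h.cardV]; norm_num)
  obtain ⟨P, hP⟩ := hV.exists_le_sylow
  refine ⟨P, ?_⟩
  by_contra hcon
  have hlt : V < (P : Subgroup G) := lt_of_le_of_ne hP (Ne.symm hcon)
  have hnil : Group.IsNilpotent (P : Subgroup G) := P.isPGroup'.isNilpotent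
  have h1 : V.subgroupOf P < ⊤ := by
    rw [lt_top_iff_ne_top, Ne, subgroupOf_eq_top]
    exact fun h2 => hcon (le_antisymm h2 hP)
  have h2 := normalizerCondition_of_isNilpotent (V.subgroupOf (P : Subgroup G)) h1
  obtain ⟨x, hx, hxV⟩ := SetLike.exists_of_lt h2
  have h3 : (x : G) ∈ normalizer (V : Set G) := by
    rw [mem_normalizer_iff]
    intro y
    rw [mem_normalizer_iff] at hx
    constructor
    · intro hy
      have h4 := (hx ⟨y, hP hy⟩).1 (by rw [mem_subgroupOf]; exact hy)
      rw [mem_subgroupOf] at h4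
      exact h4
    · intro hy
      have hyP : y ∈ (P : Subgroup G) := by
        have h5 := hP hy
        have h6 := P.mul_mem (P.mul_mem (P.inv_mem x.2) h5) x.2
        have e : (x : G)⁻¹ * (x * y * (x : G)⁻¹) * x = y := by group
        rwa [e] at h6
      have h4 := (hx ⟨y, hyP⟩).2 (by rw [mem_subgroupOf]; exact hy)
      rw [mem_subgroupOf] at h4
      exact h4
  rw [h.normV] at h3
  -- `⟨V, x⟩` is a 2-group in `A`, of order divisible by 8
  have h4 : V ⊔ zpowers (x : G) ≤ A := sup_le (V_le h) (by rw [zpowers_le]; exact h3)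
  have h5 : V ⊔ zpowers (x : G) ≤ (P : Subgroup G) := sup_le hP (by rw [zpowers_le]; exact x.2)
  obtain ⟨n, hn⟩ := IsPGroup.iff_card.1 (P.isPGroup'.to_le h5)
  have h6 := Subgroup.card_dvd_of_le h4
  have h7 : Nat.card V ∣ Nat.card (V ⊔ zpowers (x : G) : Subgroup G) := Subgroup.card_dvd_of_le le_sup_left
  have h8 : Nat.card V ≠ Nat.card (V ⊔ zpowers (x : G) : Subgroup G) := by
    intro h9
    apply hxV
    rw [mem_subgroupOf]
    have h10 := Subgroup.eq_of_le_of_card_ge (le_sup_left : V ≤ V ⊔ zpowers (x : G)) h9.ge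
    rw [h10]
    exact mem_sup_right (mem_zpowers _)
  rw [hA, hn] at h6
  rw [h.cardV, hn] at h7 h8
  have hn3 : 3 ≤ n := by
    by_contra hcon
    interval_cases n <;> omega
  have h9 : 2 ^ 3 ∣ 36 := (pow_dvd_pow 2 hn3).trans h6
  norm_num at h9

theorem A_solv (h : CaseI A V R g) (hA : Nat.card A = 36) : Group.IsSolvable A := by
  have hn : (V.subgroupOf A).Normal := by
    rw [← h.normV]; infer_instance
  refine solv_ext (V.subgroupOf A) ?_ ?_
  · have hf : Fact (Nat.Prime 2) := ⟨Nat.prime_two⟩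
    have hV : IsPGroup 2 (V.subgroupOf A) := IsPGroup.of_card (n := 2) (by
      rw [Nat.card_congr (subgroupOfEquivOfLe (V_le h)).toEquiv, h.cardV]; norm_num)
    have := hV.isNilpotent
    infer_instance
  · refine solv_of_card_nine (n := 2) ?_
    have h1 := Subgroup.card_eq_card_quotient_mul_card_subgroup (V.subgroupOf A)
    rw [Nat.card_congr (subgroupOfEquivOfLe (V_le h)).toEquiv, h.cardV, hA] at h1
    omega

theorem sup_eq (h : CaseI A V R g) {N : Subgroup G} [N.Normal] (hN : N ≠ ⊥) : N ⊔ A = ⊤ :=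
  Cfsg.Agent.SolvableStructure.MinimalNormal.sup_eq_top_of_normalCore_eq_bot A h.max h.core N hN

theorem not_sol (h : CaseI A V R g) (hA : Nat.card A = 36) {N : Subgroup G} [hn : N.Normal] (hN : N ≠ ⊥) :
    ¬ Group.IsSolvable N := by
  intro hs
  apply h.sol
  refine solv_ext N hs ?_
  have h1 : (A.map (QuotientGroup.mk' N)) = ⊤ := by
    have h2 : (N ⊔ A).map (QuotientGroup.mk' N) = ⊤ := by
      rw [sup_eq h hN, ← MonoidHom.range_eq_map, MonoidHom.range_eq_top]
      exact QuotientGroup.mk'_surjective N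
    rw [Subgroup.map_sup, QuotientGroup.map_mk'_self, bot_sup_eq] at h2
    exact h2
  have hAs := A_solv h hA
  have h3 : Group.IsSolvable (A.map (QuotientGroup.mk' N)) :=
    solvable_of_surjective (f := (QuotientGroup.mk' N).subgroupMap A) ((QuotientGroup.mk' N).subgroupMap_surjective A)
  rw [h1] at h3
  exact solvable_of_surjective (f := (topEquiv : (⊤ : Subgroup (G ⧸ N)) ≃* (G ⧸ N)).toMonoidHom)
    (topEquiv : (⊤ : Subgroup (G ⧸ N)) ≃* (G ⧸ N)).surjective

theorem V_le_normal (h : CaseI A V R g) (hA : Nat.card A = 36) {N : Subgroup G} [hn : N.Normal] (hN : N ≠ ⊥) :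
    V ≤ N := by
  have hf : Fact (Nat.Prime 2) := ⟨Nat.prime_two⟩
  obtain ⟨P, hP⟩ := V_sylow h hA
  obtain ⟨Q, hQ⟩ := Cfsg.Agent.PLocal.ThompsonFrattini.exists_sylow_subgroupOf P N
  rw [hP] at hQ
  have h4 : 4 ∣ Nat.card N := by
    by_contra hcon
    exact not_sol h hA hN (Cfsg.Agent.SylowL5.TypeAGen.isSolvable_of_not_four_dvd hcon)
  have h5 : 2 ^ 2 ∣ Nat.card (Q : Subgroup N) := by
    rw [Q.card_eq_multiplicity]
    exact pow_dvd_pow _ ((Nat.prime_two.pow_dvd_iff_le_factorization Nat.card_pos.ne').1 h4)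
  rw [hQ] at h5
  have h6 : Nat.card (V.subgroupOf N) = Nat.card (V ⊓ N : Subgroup G) := by
    rw [← inf_subgroupOf_right V N, Nat.card_congr (subgroupOfEquivOfLe (inf_le_right : V ⊓ N ≤ N)).toEquiv]
  have h7 := Nat.le_of_dvd Nat.card_pos h5
  rw [h6] at h7
  have h8 : V ⊓ N = V := Subgroup.eq_of_le_of_card_ge inf_le_left (by rw [h.cardV]; exact h7)
  exact inf_eq_left.1 h8

theorem cent_eq_bot (h : CaseI A V R g) (hA : Nat.card A = 36) {N : Subgroup G} [hn : N.Normal] (hN : N ≠ ⊥) :
    centralizer (N : Set G) = ⊥ := by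
  by_contra hcon
  have h1 := V_le_normal h hA hN
  have h2 := V_le_normal h hA hcon
  have h3 : N ⊓ centralizer (N : Set G) ≠ ⊥ := by
    intro h4
    have h5 : V ≤ ⊥ := by rw [← h4]; exact le_inf h1 h2
    have h6 := h.cardV
    rw [le_bot_iff.1 h5, card_bot] at h6
    omega
  refine not_sol h hA h3 ?_
  let _ : CommGroup (N ⊓ centralizer (N : Set G) : Subgroup G) :=
    { (inferInstance : Group (N ⊓ centralizer (N : Set G) : Subgroup G)) with
      mul_comm := fun a b => Subtype.ext (mem_centralizer_iff.1 b.2.2 a a.2.1) }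
  infer_instance

theorem simple (h : CaseI A V R g) (hA : Nat.card A = 36) {N : Subgroup G} [hn : N.Normal] (hN : N ≠ ⊥)
    (hmin : ∀ M : Subgroup G, M.Normal → M ≤ N → M = ⊥ ∨ M = N) : IsSimpleGroup N := by
  obtain ⟨T, m, -, hT, hm, ⟨e⟩⟩ := Cfsg.Agent.Lib.MinNormal.exists_mulEquiv_pi N hN hmin
  have hns := not_sol h hA hN
  have hTs : ¬ Group.IsSolvable T := by
    intro hs
    apply hns
    have h1 : IsMulCommutative T := ⟨⟨IsSimpleGroup.comm_iff_isSolvable.2 hs⟩⟩
    have h2 : ∀ x y : N, x * y = y * x := by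
      intro x y
      apply e.injective
      rw [map_mul, map_mul]
      funext i
      exact h1.1.1 _ _
    let _ : CommGroup N := { (inferInstance : Group N) with mul_comm := h2 }
    infer_instance
  by_cases hm1 : m = 1
  · subst hm1
    let e1 : N ≃* T := e.trans (MulEquiv.funUnique (Fin 1) T)
    have : Nontrivial N := e1.toEquiv.nontrivial
    exact e1.isSimpleGroup
  exfalso
  have hcard : Nat.card N = Nat.card T ^ m := by
    rw [Nat.card_congr e.toEquiv, Nat.card_pi, Finset.prod_const, Finset.card_univ, Fintype.card_fin]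
  have h4 : 4 ∣ Nat.card T := by
    by_contra hcon
    exact hTs (Cfsg.Agent.SylowL5.TypeAGen.isSolvable_of_not_four_dvd hcon)
  have h16 : 2 ^ 4 ∣ Nat.card G := by
    refine dvd_trans ?_ N.card_subgroup_dvd_card
    rw [hcard]
    calc 2 ^ 4 = 4 ^ 2 := by norm_num
      _ ∣ Nat.card T ^ 2 := pow_dvd_pow_of_dvd h4 2
      _ ∣ Nat.card T ^ m := pow_dvd_pow _ (by omega)
  obtain ⟨P, hP⟩ := V_sylow h hA
  have h5 : 2 ^ 4 ∣ Nat.card (P : Subgroup G) := by
    have h3 := P.card_eq_multiplicity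
    rw [h3]
    exact pow_dvd_pow _ ((Nat.prime_two.pow_dvd_iff_le_factorization Nat.card_pos.ne').1 h16)
  rw [hP, h.cardV] at h5
  norm_num at h5

/-- the centralizer of `R` is `A` -/
theorem cent_R (h : CaseI A V R g) (hA : Nat.card A = 36) (hCR : Nat.card (Subgroup.centralizer (R : Set G)) = 36) :
    centralizer (R : Set G) = A := by
  apply Subgroup.eq_of_le_of_card_ge
  · rw [← h.normR]
    exact centralizer_le_normalizer _
  · rw [hA, hCR]

/-- `V = {1, u, v, u v}` -/
theorem V_elem (h : CaseI A V R g) : ∃ u ∈ V, ∃ v ∈ V, u ≠ 1 ∧ v ≠ 1 ∧ u ≠ v := by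
  have h1 : ¬ ((V : Set G) ⊆ {1}) := by
    intro h2
    have h3 := Set.ncard_le_ncard h2 (Set.toFinite _)
    rw [Set.ncard_singleton] at h3
    have h4 : (V : Set G).ncard = Nat.card V := rfl
    rw [h4, h.cardV] at h3
    omega
  obtain ⟨u, hu, hu1⟩ := Set.not_subset.1 h1
  have h2 : ¬ ((V : Set G) ⊆ {1, u}) := by
    intro h2
    have h3 := Set.ncard_le_ncard h2 (Set.toFinite _)
    have h5 : ({1, u} : Set G).ncard ≤ 2 := (Set.ncard_insert_le _ _).trans (by rw [Set.ncard_singleton])
    have h4 : (V : Set G).ncard = Nat.card V := rfl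
    rw [h4, h.cardV] at h3
    omega
  obtain ⟨v, hv, hv1⟩ := Set.not_subset.1 h2
  simp only [Set.mem_insert_iff, Set.mem_singleton_iff, not_or] at hu1 hv1
  exact ⟨u, hu, v, hv, hu1, hv1.1, fun h3 => hv1.2 h3.symm⟩

theorem case_one_36 (h : CaseI A V R g)
    (hA : Nat.card A = 36) (hCR : Nat.card (Subgroup.centralizer (R : Set G)) = 36) :
    Nat.card G ∈ ({29484} : Set ℕ) := by
  have hf : Fact (Nat.Prime 2) := ⟨Nat.prime_two⟩
  have hnt : Nontrivial G := by
    by_contra hcon
    rw [not_nontrivial_iff_subsingleton] at hcon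
    apply h.sol
    infer_instance
  obtain ⟨T, hTn, hT, hmin⟩ := Cfsg.Agent.Lib.SubnormalJoin.exists_minimal_normal G
  have hs := simple h hA hT hmin
  have hns := not_sol h hA hT
  have hVT := V_le_normal h hA hT
  have hTc := cent_eq_bot h hA hT
  obtain ⟨P, hP⟩ := V_sylow h hA
  obtain ⟨Q, hQ⟩ := Cfsg.Agent.PLocal.ThompsonFrattini.exists_sylow_subgroupOf P T
  rw [hP] at hQ
  have hQ4 : Nat.card (Q : Subgroup T) = 4 := by
    rw [hQ, Nat.card_congr (subgroupOfEquivOfLe hVT).toEquiv, h.cardV]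
  -- `T ≅ PSL(2, F)`
  have hperf : Group.IsPerfect T := by
    rw [Group.isPerfect_def]
    rcases (inferInstance : (commutator T).Normal).eq_bot_or_eq_top with h1 | h1
    · exfalso
      apply hns
      have h2 : ∀ a b : T, a * b = b * a := by
        intro a b
        have h3 : a * b * a⁻¹ * b⁻¹ ∈ commutator T := commutator_mem_commutator (mem_top a) (mem_top b)
        rw [h1, mem_bot] at h3
        calc a * b = (a * b * a⁻¹ * b⁻¹) * (b * a) := by group
          _ = b * a := by rw [h3, one_mul]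
      let _ : CommGroup T := { (inferInstance : Group T) with mul_comm := h2 }
      infer_instance
    · exact h1
  have hkl : IsKleinFour (Q : Subgroup T) := by
    refine ⟨hQ4, ?_⟩
    have h1 : ∀ x : (Q : Subgroup T), x ^ 2 = 1 := by
      intro x
      have h2 : (x : T) ∈ V.subgroupOf T := by rw [← hQ]; exact x.2
      rw [mem_subgroupOf] at h2
      apply Subtype.ext
      apply Subtype.ext
      rw [pow_two]
      exact h.expV _ h2
    have h2 : Monoid.exponent (Q : Subgroup T) ∣ 2 := Monoid.exponent_dvd_of_forall_pow_eq_one h1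
    rcases (Nat.dvd_prime Nat.prime_two).1 h2 with h3 | h3
    · exfalso
      have h4 : Subsingleton (Q : Subgroup T) := Monoid.exp_eq_one_iff.1 h3
      have h5 := Nat.card_eq_one_iff_unique.2 ⟨h4, ⟨1⟩⟩
      omega
    · exact h3
  have hdih : Nonempty ((Q : Subgroup T) ≃* DihedralGroup 2) := by
    obtain ⟨e0⟩ : Nonempty ((Q : Subgroup T) ≃ DihedralGroup 2) := by
      rw [← Finite.card_eq, hQ4, DihedralGroup.nat_card]
    let e1 : (Q : Subgroup T) ≃ DihedralGroup 2 := e0.trans (Equiv.swap (e0 1) 1)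
    exact ⟨IsKleinFour.mulEquiv e1 (by simp [e1])⟩
  have hcore : oddCore T = ⊥ := by
    rcases (inferInstance : (oddCore T).Normal).eq_bot_or_eq_top with h1 | h1
    · exact h1
    · exfalso
      have h2 := Cfsg.Agent.Lib.Cores.pPrimeCore_coprime (G := T) 2
      have h3 : (oddCore T : Subgroup T) = pPrimeCore 2 T := rfl
      rw [← h3, h1, card_top] at h2
      have h4 : 2 ∣ Nat.card T := (by rw [hQ4]; norm_num : 2 ∣ Nat.card (Q : Subgroup T)).trans
        (Subgroup.card_subgroup_dvd_card _)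
      exact (Nat.Prime.coprime_iff_not_dvd Nat.prime_two).1 h2.symm h4
  have equo : T ⧸ oddCore T ≃* T :=
    (QuotientGroup.quotientMulEquivOfEq hcore).trans QuotientGroup.quotientBot
  obtain ⟨F, i1, i2, hodd, h3F, ⟨e⟩⟩ : ∃ (F : Type) (_ : Field F) (_ : Fintype F), Odd (Fintype.card F) ∧
      3 < Fintype.card F ∧ Nonempty (T ≃* Matrix.ProjectiveSpecialLinearGroup (Fin 2) F) := by
    rcases Cfsg.Agent.S0483.result Q 2 le_rfl hdih with ⟨F, i1, i2, h1, h2, ⟨e⟩⟩ | ⟨⟨e⟩⟩
    · exact ⟨F, i1, i2, h1, h2, ⟨equo.symm.trans e⟩⟩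
    · exfalso
      have h1 : 2 * Nat.card T = Nat.factorial 7 := by
        rw [Nat.card_congr (equo.symm.trans e).toEquiv, two_mul_nat_card_alternatingGroup, Nat.card_perm, Nat.card_fin]
      have h2 : Nat.factorial 7 = 5040 := by decide
      rw [h2] at h1
      have h3 : 2 ^ 3 ∣ Nat.card T := ⟨315, by omega⟩
      have h4 : 2 ^ 3 ∣ Nat.card (Q : Subgroup T) := by
        rw [Q.card_eq_multiplicity]
        exact pow_dvd_pow _ ((Nat.prime_two.pow_dvd_iff_le_factorization Nat.card_pos.ne').1 h3)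
      rw [hQ4] at h4
      norm_num at h4
  have h2 : (2 : F) ≠ 0 := (PSL2Basic.two_ne_zero_iff_odd F).2 hodd
  -- `R ⊓ T = 1`
  have hRcomm : ∀ x ∈ A, ∀ y ∈ R, x * y = y * x := by
    intro x hx y hy
    have h1 := cent_R h hA hCR
    rw [← h1, mem_centralizer_iff] at hx
    exact (hx y hy).symm
  have hRT : R ⊓ T = ⊥ := by
    rw [eq_bot_iff]
    rintro x ⟨hxR, hxT⟩
    rw [mem_bot]
    have hx3 : x ^ 3 = 1 := by
      have h1 : (⟨x, hxR⟩ : R) ^ Nat.card R = 1 := pow_card_eq_one'
      rw [h.cardR] at h1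
      exact congrArg Subtype.val h1
    obtain ⟨u, hu, v, hv, hu1, hv1, huv⟩ := V_elem h
    have hne : (⟨u, hVT hu⟩ : T) ≠ 1 := fun h4 => hu1 (congrArg Subtype.val h4)
    obtain ⟨T0, m, hT0, -⟩ := exists_torus h2 e (t := ⟨u, hVT hu⟩) hne (Subtype.ext (h.expV u hu))
    have hVcomm : v * u = u * v := by
      have h4 := h.expV _ (V.mul_mem hu hv)
      have h5 := h.expV _ hu
      have h6 := h.expV _ hv
      calc v * u = (u * u) * (v * u) * (v * v) := by rw [h5, h6, one_mul, mul_one]
        _ = u * ((u * v) * (u * v)) * v := by simp only [mul_assoc]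
        _ = u * v := by rw [h4, mul_one]
    have h4 := hT0.centralizer_four (u := ⟨v, hVT hv⟩) (x := ⟨x, hxT⟩)
      (fun h4 => hv1 (congrArg Subtype.val h4)) (Subtype.ext (h.expV v hv))
      (fun h4 => huv (congrArg Subtype.val h4).symm) (Subtype.ext hVcomm)
      (Subtype.ext (h.centVR u hu x hxR).symm) (Subtype.ext (h.centVR v hv x hxR).symm)
    have hxV : x ∈ V := by
      rcases h4 with h5 | h5 | h5 | h5
      · rw [show x = 1 from congrArg Subtype.val h5]; exact V.one_mem
      · rw [show x = u from congrArg Subtype.val h5]; exact hu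
      · rw [show x = v from congrArg Subtype.val h5]; exact hv
      · rw [show x = u * v from congrArg Subtype.val h5]; exact V.mul_mem hu hv
    have h6 := h.expV x hxV
    calc x = x ^ 3 * (x * x)⁻¹ := by group
      _ = 1 := by rw [hx3, h6, inv_one, mul_one]
  -- products with `R`
  have hprod : ∀ K : Subgroup G, K ≤ T → K ≤ A → Nat.card K * 3 ≤ 36 := by
    intro K hKT hKA
    rw [← h.cardR, ← hA, ← Nat.card_prod]
    refine Nat.card_le_card_of_injective (fun x : K × R => (⟨x.1 * x.2, A.mul_mem (hKA x.1.2) (R_le h x.2.2)⟩ : A)) ?_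
    rintro ⟨a, b⟩ ⟨c, d⟩ hab
    have h1 : (a : G) * b = c * d := congrArg Subtype.val hab
    have h3 : (c : G)⁻¹ * a = d * (b : G)⁻¹ := by
      rw [inv_mul_eq_iff_eq_mul, ← mul_assoc, ← h1, mul_inv_cancel_right]
    have h4 : (c : G)⁻¹ * a ∈ R ⊓ T := by
      refine ⟨?_, T.mul_mem (T.inv_mem (hKT c.2)) (hKT a.2)⟩
      rw [h3]
      exact R.mul_mem d.2 (R.inv_mem b.2)
    rw [hRT, mem_bot] at h4
    have h5 : (a : G) = c := (inv_mul_eq_one.1 h4).symm
    rw [h4] at h3
    have h6 : (b : G) = d := (mul_inv_eq_one.1 h3.symm).symm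
    exact Prod.ext (Subtype.ext h5) (Subtype.ext h6)
  -- the automorphism
  have hR1 : R ≠ ⊥ := by
    intro h1
    have h3 := h.cardR
    rw [h1, card_bot] at h3
    omega
  obtain ⟨⟨ρ, hρ⟩, hρ1'⟩ := Subgroup.ne_bot_iff_exists_ne_one.1 hR1
  have hρ1 : ρ ≠ 1 := fun h6 => hρ1' (Subtype.ext h6)
  have hρ3 : ρ ^ 3 = 1 := by
    have h1 : (⟨ρ, hρ⟩ : R) ^ Nat.card R = 1 := pow_card_eq_one'
    rw [h.cardR] at h1
    exact congrArg Subtype.val h1
  have hρT : ρ ∉ T := by
    intro h1
    have h3 : ρ ∈ R ⊓ T := ⟨hρ, h1⟩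
    rw [hRT, mem_bot] at h3
    exact hρ1 h3
  set α : MulAut T := MulAut.conjNormal ρ with hα
  have hαx : ∀ x : T, ((α x : T) : G) = ρ * x * ρ⁻¹ := fun x => MulAut.conjNormal_apply ρ x
  set β : MulAut (Matrix.ProjectiveSpecialLinearGroup (Fin 2) F) := MulAut.congr e α with hβ
  have hβx : ∀ y, β y = e (α (e.symm y)) := fun y => rfl
  have hβ3 : β ^ 3 = 1 := by
    rw [hβ, ← map_pow, hα, ← map_pow, hρ3, map_one, map_one]
  have hni : ¬ ∃ g, β = MulAut.conj g := by
    rintro ⟨x, hx⟩
    have h3 : ∀ t : T, α t = e.symm x * t * (e.symm x)⁻¹ := by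
      intro t
      apply e.injective
      have h4 := congrArg (fun f : MulAut (Matrix.ProjectiveSpecialLinearGroup (Fin 2) F) => f (e t)) hx
      simp only [hβx, e.symm_apply_apply, MulAut.conj_apply] at h4
      rw [h4, map_mul, map_mul, map_inv, e.apply_symm_apply]
    have h4 : ((e.symm x : T) : G)⁻¹ * ρ ∈ centralizer (T : Set G) := by
      rw [mem_centralizer_iff]
      intro t ht
      have h5 : ρ * t * ρ⁻¹ = (e.symm x : T) * t * ((e.symm x : T) : G)⁻¹ := by
        have := congrArg Subtype.val (h3 ⟨t, ht⟩)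
        rwa [hαx] at this
      have h6 : ρ * t = (e.symm x : T) * t * ((e.symm x : T) : G)⁻¹ * ρ := by
        rw [← h5]; group
      rw [mul_assoc, h6]
      group
    rw [hTc, mem_bot, inv_mul_eq_one] at h4
    apply hρT
    rw [← h4]
    exact (e.symm x).2
  obtain ⟨F₀, f, hF₀, hfi, hfix⟩ := exists_fix h2 hβ3 hni
  -- the order of `F₀`
  have hfin0 : Finite F₀ := inferInstance
  let _ : Fintype F₀ := Fintype.ofFinite F₀
  have hodd0 : Odd (Fintype.card F₀) := by
    rw [← PSL2Basic.two_ne_zero_iff_odd]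
    intro h1
    apply h2
    have h3 := congrArg (Subtype.val : F₀ → F) h1
    exact h3
  have hc0 := PSL2Basic.card_PSL2_odd F₀ hodd0
  have hcK : Nat.card (Matrix.ProjectiveSpecialLinearGroup (Fin 2) F₀) * 3 ≤ 36 := by
    let φ : Matrix.ProjectiveSpecialLinearGroup (Fin 2) F₀ →* G := T.subtype.comp (e.symm.toMonoidHom.comp f)
    have hφi : Function.Injective φ := T.subtype_injective.comp (e.symm.injective.comp hfi)
    have hK : Nat.card φ.range = Nat.card (Matrix.ProjectiveSpecialLinearGroup (Fin 2) F₀) :=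
      (Nat.card_congr (MonoidHom.ofInjective hφi).toEquiv).symm
    rw [← hK]
    apply hprod
    · rintro _ ⟨x, rfl⟩
      exact (e.symm (f x)).2
    · rintro _ ⟨x, rfl⟩
      have h1 : α (e.symm (f x)) = e.symm (f x) := by
        have h3 := hfix x
        rw [hβx] at h3
        rw [← e.symm_apply_apply (α (e.symm (f x))), h3]
      have h3 := congrArg Subtype.val h1
      rw [hαx, mul_inv_eq_iff_eq_mul] at h3
      have h4 : φ x = ((e.symm (f x) : T) : G) := rfl
      rw [h4, ← h.normR]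
      -- the element commutes with `R = ⟨ρ⟩`
      have hRz : zpowers ρ = R := by
        apply Subgroup.eq_of_le_of_card_ge (zpowers_le.2 hρ)
        rw [h.cardR, Nat.card_zpowers]
        have : Fact (Nat.Prime 3) := ⟨Nat.prime_three⟩
        rw [orderOf_eq_prime hρ3 hρ1]
      apply centralizer_le_normalizer
      rw [← hRz, mem_centralizer_iff]
      rintro y hy
      obtain ⟨k, rfl⟩ := mem_zpowers_iff.1 hy
      exact (Commute.zpow_left (show Commute ρ ((e.symm (f x) : T) : G) from h3) k).eq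
  have hq0 : Fintype.card F₀ = 3 := by
    have h1 : 1 < Fintype.card F₀ := Fintype.one_lt_card
    obtain ⟨k, hk⟩ := hodd0
    by_contra hcon
    have h5 : 5 ≤ Fintype.card F₀ := by omega
    have h6 : 5 ^ 2 ≤ Fintype.card F₀ ^ 2 := Nat.pow_le_pow_left h5 2
    have h7 : 5 * 24 ≤ Fintype.card F₀ * (Fintype.card F₀ ^ 2 - 1) := Nat.mul_le_mul h5 (by omega)
    omega
  have hq : Fintype.card F = 27 := by
    rw [Nat.card_eq_fintype_card, Nat.card_eq_fintype_card, hq0] at hF₀
    rw [hF₀]; norm_num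
  have hcT : Nat.card T = 9828 := by
    have h1 := PSL2Basic.card_PSL2_odd F hodd
    rw [← Nat.card_congr e.toEquiv, hq] at h1
    omega
  -- the index
  have hTA : T.relIndex A = T.index := by
    rw [← relIndex_sup_right A T, sup_comm, sup_eq h hT, relIndex_top_right]
  have hK : Nat.card (T ⊓ A : Subgroup G) * T.index = 36 := by
    have h3 := (T.subgroupOf A).card_mul_index
    rw [← inf_subgroupOf_right T A, Nat.card_congr (subgroupOfEquivOfLe (inf_le_right : T ⊓ A ≤ A)).toEquiv,
      inf_subgroupOf_right T A, hA] at h3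
    rw [← hTA]
    exact h3
  have h12 := hprod (T ⊓ A) inf_le_left inf_le_right
  have h4 : 4 ∣ Nat.card (T ⊓ A : Subgroup G) := by
    rw [← h.cardV]
    exact Subgroup.card_dvd_of_le (le_inf hVT (V_le h))
  have hne4 : Nat.card (T ⊓ A : Subgroup G) ≠ 4 := by
    intro h5
    have h6 : V = T ⊓ A := Subgroup.eq_of_le_of_card_ge (le_inf hVT (V_le h)) (by rw [h5, h.cardV])
    apply hns
    apply NC.solvable
    refine Cfsg.Agent.H161.L2Sub.nc_of_abelian Q ?_ (NC_of_isPGroup ?_)
    · intro x hx y hy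
      have h7 := hkl.isMulCommutative
      exact congrArg Subtype.val (h7.1.1 (⟨x, hx⟩ : (Q : Subgroup T)) ⟨y, hy⟩)
    · change IsPGroup 2 (normalizer ((Q : Subgroup T) : Set T))
      have h7 : normalizer ((Q : Subgroup T) : Set T) ≤ Q := by
        intro x hx
        have h8 : (x : G) ∈ T ⊓ A := by
          refine ⟨x.2, ?_⟩
          change (x : G) ∈ A
          rw [← h.normV, mem_normalizer_iff]
          intro y
          constructor
          · intro hy
            have h9 := (mem_normalizer_iff.1 hx ⟨y, hVT hy⟩).1 (by rw [hQ, mem_subgroupOf]; exact hy)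
            rw [hQ, mem_subgroupOf] at h9
            exact h9
          · intro hy
            have hyT : y ∈ T := by
              have h10 := hTn.conj_mem _ (hVT hy) (x : G)⁻¹
              have e' : (x : G)⁻¹ * (x * y * (x : G)⁻¹) * (x : G)⁻¹⁻¹ = y := by group
              rwa [e'] at h10
            have h9 := (mem_normalizer_iff.1 hx ⟨y, hyT⟩).2 (by rw [hQ, mem_subgroupOf]; exact hy)
            rw [hQ, mem_subgroupOf] at h9
            exact h9
        rw [← h6] at h8
        rw [hQ, mem_subgroupOf]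
        exact h8
      exact Q.isPGroup'.to_le h7
  have hidx : T.index = 3 := by
    obtain ⟨k, hk⟩ := h4
    rw [hk] at hK h12 hne4
    have hk3 : k ≤ 3 := by omega
    have hk1 : k ≠ 1 := by omega
    have hk0 : k ≠ 0 := by
      rintro rfl
      omega
    have hk23 : k = 2 ∨ k = 3 := by omega
    rcases hk23 with rfl | rfl
    · omega
    · omega
  have hcG : Nat.card T * T.index = Nat.card G := T.card_mul_index
  rw [hcT, hidx] at hcG
  rw [Set.mem_singleton_iff, ← hcG]

end

end Cfsg.Agent.H456.Case36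

namespace Cfsg.Agent.H456

open Cfsg.Agent.H399

universe v

/-- **Task 1107.** -/
theorem case_one_36 {G : Type v} [Group G] [Finite G] {A V R : Subgroup G} {g : G} (h : CaseI A V R g)
    (hA : Nat.card A = 36) (hCR : Nat.card (Subgroup.centralizer (R : Set G)) = 36)
    (_hCV : Nat.card (Subgroup.centralizer (V : Set G)) = 12) : Nat.card G ∈ ({29484} : Set ℕ) :=
  Case36.case_one_36 h hA hCR

end Cfsg.Agent.H456
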