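import Mathlib

/-!
# Coprime action of one automorphism, given as an endomorphism `x` with `x ^ p = 1`

`DD x K = [K, x]`, `cl x h = [h, x]`, `Fx x = C_H(x)`.
-/

set_option autoImplicit false

namespace Cfsg.Agent.H456

open Subgroup

variable {H : Type*} [Group H]

/-- `K` is invariant under the endomorphism `x`. -/
def Inv (x : Monoid.End H) (K : Subgroup H) : Prop := ∀ k ∈ K, x k ∈ K

/-- `[h, x]`, the subgroup generated by the elements `h⁻¹ xⁱ(h)`. -/
def cl (x : Monoid.End H) (h : H) : Subgroup H :=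
  closure {c : H | ∃ i : ℕ, c = h⁻¹ * (x ^ i) h}

/-- `[K, x]`, the subgroup generated by the elements `h⁻¹ xⁱ(h)`, `h ∈ K`. -/
def DD (x : Monoid.End H) (K : Subgroup H) : Subgroup H :=
  closure {c : H | ∃ h ∈ K, ∃ i : ℕ, c = h⁻¹ * (x ^ i) h}

/-- The fixed points of `x`. -/
def Fx (x : Monoid.End H) : Subgroup H := MonoidHom.eqLocus (x : H →* H) (MonoidHom.id H)

/-- The subgroup generated by the fixed points of `x` in the `[h, x]`, `h ∈ K`. -/
def WW (x : Monoid.End H) (K : Subgroup H) : Subgroup H := ⨆ h : K, cl x (h : H) ⊓ Fx x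

theorem mem_Fx {x : Monoid.End H} {h : H} : h ∈ Fx x ↔ x h = h := Iff.rfl

theorem pow_succ_apply (x : Monoid.End H) (i : ℕ) (h : H) : (x ^ (i + 1)) h = x ((x ^ i) h) := by
  rw [pow_succ']; rfl

theorem pow_add_apply (x : Monoid.End H) (i j : ℕ) (h : H) :
    (x ^ (i + j)) h = (x ^ i) ((x ^ j) h) := by
  rw [pow_add]; rfl

theorem pow_zero_apply (x : Monoid.End H) (h : H) : (x ^ 0) h = h := by
  rw [pow_zero]; rfl

theorem pow_one_apply (x : Monoid.End H) (h : H) : (x ^ 1) h = x h := by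
  rw [pow_one]

theorem Inv.pow {x : Monoid.End H} {K : Subgroup H} (hK : Inv x K) (i : ℕ) {k : H} (hk : k ∈ K) :
    (x ^ i) k ∈ K := by
  induction i with
  | zero => rwa [pow_zero_apply]
  | succ n ih => rw [pow_succ_apply]; exact hK _ ih

theorem pow_apply_of_fixed {x : Monoid.End H} {h : H} (hh : x h = h) (i : ℕ) : (x ^ i) h = h := by
  induction i with
  | zero => rw [pow_zero_apply]
  | succ n ih => rw [pow_succ_apply, ih, hh]

theorem inv_top (x : Monoid.End H) : Inv x (⊤ : Subgroup H) := fun _ _ => mem_top _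

theorem Inv.inf {x : Monoid.End H} {K L : Subgroup H} (hK : Inv x K) (hL : Inv x L) :
    Inv x (K ⊓ L) := fun k hk => ⟨hK k hk.1, hL k hk.2⟩

theorem inv_iff_le_comap {x : Monoid.End H} {K : Subgroup H} :
    Inv x K ↔ K ≤ K.comap (x : H →* H) := Iff.rfl

theorem Inv.sup {x : Monoid.End H} {K L : Subgroup H} (hK : Inv x K) (hL : Inv x L) :
    Inv x (K ⊔ L) := by
  rw [inv_iff_le_comap]
  refine sup_le (fun k hk => ?_) (fun k hk => ?_)
  · exact (le_sup_left : K ≤ K ⊔ L) (hK k hk)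
  · exact (le_sup_right : L ≤ K ⊔ L) (hL k hk)

theorem Inv.iSup {x : Monoid.End H} {ι : Sort*} {K : ι → Subgroup H} (hK : ∀ i, Inv x (K i)) :
    Inv x (⨆ i, K i) := by
  rw [inv_iff_le_comap]
  refine iSup_le (fun i k hk => ?_)
  exact (le_iSup K i) (hK i k hk)

theorem inv_Fx (x : Monoid.End H) : Inv x (Fx x) := by
  intro k hk
  rw [mem_Fx] at hk ⊢
  rw [hk, hk]

theorem Inv.closure {x : Monoid.End H} {S : Set H} (hS : ∀ s ∈ S, x s ∈ closure S) :
    Inv x (closure S) := by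
  rw [inv_iff_le_comap, closure_le]
  exact hS

theorem mem_cl (x : Monoid.End H) (h : H) (i : ℕ) : h⁻¹ * (x ^ i) h ∈ cl x h :=
  subset_closure ⟨i, rfl⟩

theorem mem_cl_one (x : Monoid.End H) (h : H) : h⁻¹ * x h ∈ cl x h := by
  have := mem_cl x h 1
  rwa [pow_one_apply] at this

theorem mem_DD (x : Monoid.End H) {K : Subgroup H} {h : H} (hh : h ∈ K) (i : ℕ) :
    h⁻¹ * (x ^ i) h ∈ DD x K :=
  subset_closure ⟨h, hh, i, rfl⟩

theorem mem_DD_one (x : Monoid.End H) {K : Subgroup H} {h : H} (hh : h ∈ K) :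
    h⁻¹ * x h ∈ DD x K := by
  have := mem_DD x hh 1
  rwa [pow_one_apply] at this

theorem cl_le_DD (x : Monoid.End H) {K : Subgroup H} {h : H} (hh : h ∈ K) : cl x h ≤ DD x K := by
  refine (closure_le _).2 ?_
  rintro c ⟨i, rfl⟩
  exact mem_DD x hh i

theorem DD_le {x : Monoid.End H} {K L : Subgroup H} (h : ∀ k ∈ K, cl x k ≤ L) : DD x K ≤ L := by
  refine (closure_le _).2 ?_
  rintro c ⟨k, hk, i, rfl⟩
  exact h k hk (mem_cl x k i)

theorem DD_mono {x : Monoid.End H} {K L : Subgroup H} (h : K ≤ L) : DD x K ≤ DD x L :=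
  DD_le fun _ hk => cl_le_DD x (h hk)

/-- It suffices to have the commutators with `x` itself, if `L` is invariant. -/
theorem cl_le_of_inv {x : Monoid.End H} {L : Subgroup H} (hL : Inv x L) {k : H}
    (hk : k⁻¹ * x k ∈ L) : cl x k ≤ L := by
  refine (closure_le _).2 ?_
  rintro c ⟨i, rfl⟩
  induction i with
  | zero => rw [pow_zero_apply, inv_mul_cancel]; exact one_mem _
  | succ n ih =>
    have h1 : x (k⁻¹ * (x ^ n) k) ∈ L := hL _ ih
    have h2 : k⁻¹ * (x ^ (n + 1)) k = (k⁻¹ * x k) * x (k⁻¹ * (x ^ n) k) := by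
      rw [pow_succ_apply, map_mul, map_inv]; group
    show k⁻¹ * (x ^ (n + 1)) k ∈ L
    rw [h2]; exact mul_mem hk h1

theorem DD_le_self {x : Monoid.End H} {K : Subgroup H} (hK : Inv x K) : DD x K ≤ K := by
  refine DD_le fun k hk => cl_le_of_inv hK ?_
  exact mul_mem (inv_mem hk) (hK k hk)

theorem cl_le_self {x : Monoid.End H} {K : Subgroup H} (hK : Inv x K) {k : H} (hk : k ∈ K) :
    cl x k ≤ K := (cl_le_DD x hk).trans (DD_le_self hK)

theorem inv_cl (x : Monoid.End H) (h : H) : Inv x (cl x h) := by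
  refine Inv.closure ?_
  rintro s ⟨i, rfl⟩
  have h2 : x (h⁻¹ * (x ^ i) h) = (h⁻¹ * (x ^ 1) h)⁻¹ * (h⁻¹ * (x ^ (i + 1)) h) := by
    rw [pow_succ_apply x i h, map_mul, map_inv, pow_one_apply]; group
  rw [h2]
  exact mul_mem (inv_mem (mem_cl x h 1)) (mem_cl x h (i + 1))

theorem inv_DD (x : Monoid.End H) (K : Subgroup H) : Inv x (DD x K) := by
  refine Inv.closure ?_
  rintro s ⟨h, hh, i, rfl⟩
  have h2 : x (h⁻¹ * (x ^ i) h) = (h⁻¹ * (x ^ 1) h)⁻¹ * (h⁻¹ * (x ^ (i + 1)) h) := by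
    rw [pow_succ_apply x i h, map_mul, map_inv, pow_one_apply]; group
  rw [h2]
  exact mul_mem (inv_mem (mem_DD x hh 1)) (mem_DD x hh (i + 1))

/-- `K` normalizes `[K, x]`. -/
theorem conj_mem_DD {x : Monoid.End H} {K : Subgroup H} {g : H} (hg : g ∈ K) {d : H}
    (hd : d ∈ DD x K) : g⁻¹ * d * g ∈ DD x K := by
  have : DD x K ≤ (DD x K).comap (MulAut.conj g⁻¹).toMonoidHom := by
    refine (closure_le _).2 ?_
    rintro c ⟨h, hh, i, rfl⟩
    show (MulAut.conj g⁻¹).toMonoidHom (h⁻¹ * (x ^ i) h) ∈ DD x K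
    have h2 : (MulAut.conj g⁻¹).toMonoidHom (h⁻¹ * (x ^ i) h)
        = ((h * g)⁻¹ * (x ^ i) (h * g)) * (g⁻¹ * (x ^ i) g)⁻¹ := by
      simp only [MulEquiv.toMonoidHom_eq_coe, MonoidHom.coe_coe, MulAut.conj_apply, map_mul]
      group
    rw [h2]
    exact mul_mem (mem_DD x (mul_mem hh hg) i) (inv_mem (mem_DD x hg i))
  have h3 := this hd
  simpa [MulAut.conj_apply] using h3

theorem conj_mem_DD' {x : Monoid.End H} {K : Subgroup H} {g : H} (hg : g ∈ K) {d : H}
    (hd : d ∈ DD x K) : g * d * g⁻¹ ∈ DD x K := by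
  have := conj_mem_DD (inv_mem hg) hd
  rwa [inv_inv] at this

/-- A fixed point normalizing `K` normalizes `[K, x]`. -/
theorem conj_mem_DD_of_fixed {x : Monoid.End H} {K : Subgroup H} {c : H} (hc : x c = c)
    (hcK : ∀ k ∈ K, c * k * c⁻¹ ∈ K) {d : H} (hd : d ∈ DD x K) : c * d * c⁻¹ ∈ DD x K := by
  have : DD x K ≤ (DD x K).comap (MulAut.conj c).toMonoidHom := by
    refine (closure_le _).2 ?_
    rintro e ⟨h, hh, i, rfl⟩
    show (MulAut.conj c).toMonoidHom (h⁻¹ * (x ^ i) h) ∈ DD x K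
    have h2 : (MulAut.conj c).toMonoidHom (h⁻¹ * (x ^ i) h)
        = (c * h * c⁻¹)⁻¹ * (x ^ i) (c * h * c⁻¹) := by
      simp only [MulEquiv.toMonoidHom_eq_coe, MonoidHom.coe_coe, MulAut.conj_apply, map_mul, map_inv,
        pow_apply_of_fixed hc, mul_inv_rev, inv_inv]
    rw [h2]
    exact mem_DD x (hcK h hh) i
  have h3 := this hd
  simpa [MulAut.conj_apply] using h3

theorem map_conj_cl {x : Monoid.End H} {c : H} (hc : x c = c) (h : H) {d : H} (hd : d ∈ cl x h) :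
    c * d * c⁻¹ ∈ cl x (c * h * c⁻¹) := by
  have : cl x h ≤ (cl x (c * h * c⁻¹)).comap (MulAut.conj c).toMonoidHom := by
    refine (closure_le _).2 ?_
    rintro e ⟨i, rfl⟩
    show (MulAut.conj c).toMonoidHom (h⁻¹ * (x ^ i) h) ∈ cl x (c * h * c⁻¹)
    have h2 : (MulAut.conj c).toMonoidHom (h⁻¹ * (x ^ i) h)
        = (c * h * c⁻¹)⁻¹ * (x ^ i) (c * h * c⁻¹) := by
      simp only [MulEquiv.toMonoidHom_eq_coe, MonoidHom.coe_coe, MulAut.conj_apply, map_mul, map_inv,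
        pow_apply_of_fixed hc, mul_inv_rev, inv_inv]
    rw [h2]
    exact mem_cl x _ i
  have h3 := this hd
  simpa [MulAut.conj_apply] using h3

/-! ### `W` -/

theorem inf_le_WW (x : Monoid.End H) {K : Subgroup H} {h : H} (hh : h ∈ K) :
    cl x h ⊓ Fx x ≤ WW x K := le_iSup (fun h : K => cl x (h : H) ⊓ Fx x) ⟨h, hh⟩

theorem WW_le_Fx (x : Monoid.End H) (K : Subgroup H) : WW x K ≤ Fx x :=
  iSup_le fun _ => inf_le_right

theorem WW_le_DD (x : Monoid.End H) (K : Subgroup H) : WW x K ≤ DD x K :=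
  iSup_le fun h => inf_le_left.trans (cl_le_DD x h.2)

theorem WW_mono {x : Monoid.End H} {K L : Subgroup H} (h : K ≤ L) : WW x K ≤ WW x L :=
  iSup_le fun k => inf_le_WW x (h k.2)

/-- `C_H(x)` normalizes `W`. -/
theorem conj_mem_WW {x : Monoid.End H} {c : H} (hc : x c = c) {w : H} (hw : w ∈ WW x ⊤) :
    c * w * c⁻¹ ∈ WW x (⊤ : Subgroup H) := by
  have : WW x ⊤ ≤ (WW x ⊤).comap (MulAut.conj c).toMonoidHom := by
    refine iSup_le fun h => ?_
    rintro d ⟨hd1, hd2⟩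
    show (MulAut.conj c).toMonoidHom d ∈ WW x ⊤
    refine inf_le_WW x (mem_top (c * h * c⁻¹)) ⟨?_, ?_⟩
    · have := map_conj_cl hc _ hd1
      simpa [MulAut.conj_apply] using this
    · have hd3 : x d = d := hd2
      show x _ = _
      simp [MulAut.conj_apply, hc, hd3]
  have h3 := this hw
  simpa [MulAut.conj_apply] using h3

/-! ### fixed points -/

section Fixed

variable [Finite H] {p : ℕ} [hp : Fact p.Prime]

/-- Fixed points in invariant cosets. -/
theorem exists_fixed_coset {x : Monoid.End H} (hx : x ^ p = 1) {N : Subgroup H} (hN : Inv x N)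
    (hpN : ¬ p ∣ Nat.card N) {h : H} (hh : h⁻¹ * x h ∈ N) :
    ∃ c : H, x c = c ∧ h⁻¹ * c ∈ N := by
  classical
  let α := {g : H // h⁻¹ * g ∈ N}
  have hstep : ∀ g : α, h⁻¹ * x g.1 ∈ N := by
    intro g
    have h1 : x (h⁻¹ * g.1) ∈ N := hN _ g.2
    have h2 : h⁻¹ * x g.1 = (h⁻¹ * x h) * x (h⁻¹ * g.1) := by
      rw [map_mul, map_inv]; group
    rw [h2]; exact mul_mem hh h1
  let f : Function.End α := fun g => ⟨x g.1, hstep g⟩
  have hf : ∀ n : ℕ, ∀ g : α, ((f ^ n) g).1 = (x ^ n) g.1 := by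
    intro n
    induction n with
    | zero => intro g; rw [pow_zero_apply]; rfl
    | succ n ih =>
      intro g
      rw [pow_succ_apply, ← ih, pow_succ']
      rfl
  have hfp : f ^ p ^ 1 = 1 := by
    funext g
    apply Subtype.ext
    rw [hf, pow_one, hx]
    rfl
  have hcard : Nat.card α = Nat.card N := by
    refine Nat.card_congr ⟨fun g => ⟨h⁻¹ * g.1, g.2⟩, fun n => ⟨h * n.1, by simp⟩, ?_, ?_⟩
    · intro g; simp
    · intro n; simp
  have : Fintype α := Fintype.ofFinite α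
  have h1 := Equiv.Perm.card_fixedPoints_modEq hfp
  rw [← Nat.card_eq_fintype_card, hcard] at h1
  have h2 : Nonempty (Function.fixedPoints f) := by
    by_contra hne
    rw [not_nonempty_iff] at hne
    rw [Fintype.card_eq_zero] at h1
    exact hpN ((Nat.modEq_zero_iff_dvd).1 h1)
  obtain ⟨g, hg⟩ := h2
  refine ⟨g.1, ?_, g.2⟩
  exact congrArg Subtype.val hg

omit [Finite H] hp in
theorem not_dvd_of_le {K : Subgroup H} (h : ¬ p ∣ Nat.card H) : ¬ p ∣ Nat.card K :=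
  fun hd => h (hd.trans (Subgroup.card_subgroup_dvd_card K))

variable (hpH : ¬ p ∣ Nat.card H)
include hpH

/-- `K = C_K(x) [K, x]`. -/
theorem exists_fixed_mul {x : Monoid.End H} (hx : x ^ p = 1) {K : Subgroup H} (hK : Inv x K) {k : H}
    (hk : k ∈ K) : ∃ c ∈ K ⊓ Fx x, ∃ d ∈ DD x K, k = c * d := by
  obtain ⟨c, hc, hc2⟩ := exists_fixed_coset hx (inv_DD x K) (not_dvd_of_le hpH) (mem_DD_one x hk)
  have h3 : c ∈ K := by
    have : k * (k⁻¹ * c) ∈ K := mul_mem hk (DD_le_self hK hc2)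
    simpa using this
  exact ⟨c, ⟨h3, hc⟩, c⁻¹ * k, by simpa using inv_mem hc2, by group⟩

/-- `h ∈ C_H(x) [h, x]`. -/
theorem exists_fixed_cl {x : Monoid.End H} (hx : x ^ p = 1) (h : H) :
    ∃ c, x c = c ∧ ∃ d ∈ cl x h, h = c * d := by
  obtain ⟨c, hc, hc2⟩ := exists_fixed_coset hx (inv_cl x h) (not_dvd_of_le hpH) (mem_cl_one x h)
  exact ⟨c, hc, c⁻¹ * h, by simpa using inv_mem hc2, by group⟩

/-- `[K, x, x] = [K, x]`. -/
theorem DD_DD {x : Monoid.End H} (hx : x ^ p = 1) {K : Subgroup H} (hK : Inv x K) :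
    DD x (DD x K) = DD x K := by
  refine le_antisymm (DD_le_self (inv_DD x K)) ?_
  refine (closure_le _).2 ?_
  rintro e ⟨k, hk, i, rfl⟩
  obtain ⟨c, hc, d, hd, rfl⟩ := exists_fixed_mul hpH hx hK hk
  have h2 : (c * d)⁻¹ * (x ^ i) (c * d) = d⁻¹ * (x ^ i) d := by
    rw [map_mul, pow_apply_of_fixed hc.2]; group
  show (c * d)⁻¹ * (x ^ i) (c * d) ∈ _
  rw [h2]
  exact mem_DD x hd i

end Fixed

end Cfsg.Agent.H456
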