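import Cfsg.Agent.H456.CoprimeEnd

/-!
# Coprime action of one automorphism: abelian groups, restriction, quotients, Sylow subgroups
-/

set_option autoImplicit false

namespace Cfsg.Agent.H456

open Subgroup

variable {H : Type*} [Group H]

/-! ### abelian invariant subgroups -/

theorem exists_of_mem_DD_comm {x : Monoid.End H} {K : Subgroup H} (hK : Inv x K)
    (hcomm : ∀ a ∈ K, ∀ b ∈ K, a * b = b * a) {d : H} (hd : d ∈ DD x K) :
    ∃ k ∈ K, d = k⁻¹ * x k := by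
  have key : ∀ d ∈ DD x K, d ∈ K ∧ ∃ k ∈ K, d = k⁻¹ * x k := by
    intro d hd
    refine Subgroup.closure_induction (p := fun d _ => d ∈ K ∧ ∃ k ∈ K, d = k⁻¹ * x k)
      ?_ ?_ ?_ ?_ hd
    · rintro c ⟨h, hh, i, rfl⟩
      refine ⟨mul_mem (inv_mem hh) (hK.pow i hh), ?_⟩
      induction i with
      | zero => exact ⟨1, one_mem _, by rw [pow_zero_apply, map_one]; group⟩
      | succ n ih =>
        obtain ⟨k, hk, hk2⟩ := ih
        refine ⟨h * x k, mul_mem hh (hK _ hk), ?_⟩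
        have h1 : h⁻¹ * (x ^ (n + 1)) h = (h⁻¹ * x h) * x (h⁻¹ * (x ^ n) h) := by
          rw [pow_succ_apply, map_mul, map_inv]; group
        rw [h1, hk2, map_mul, map_mul, map_inv, mul_inv_rev]
        have e1 := hK _ hh
        have e2 := hK _ hk
        have e3 := hK _ e2
        have c1 : (h⁻¹ * x h) * (x k)⁻¹ = (x k)⁻¹ * (h⁻¹ * x h) :=
          hcomm _ (mul_mem (inv_mem hh) e1) _ (inv_mem e2)
        calc (h⁻¹ * x h) * ((x k)⁻¹ * x (x k)) = ((h⁻¹ * x h) * (x k)⁻¹) * x (x k) := by group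
          _ = ((x k)⁻¹ * (h⁻¹ * x h)) * x (x k) := by rw [c1]
          _ = (x k)⁻¹ * h⁻¹ * (x h * x (x k)) := by group
    · exact ⟨one_mem _, 1, one_mem _, by rw [map_one]; group⟩
    · rintro a b - - ⟨ha, k, hk, rfl⟩ ⟨hb, l, hl, rfl⟩
      refine ⟨mul_mem ha hb, k * l, mul_mem hk hl, ?_⟩
      have c1 : (k⁻¹ * x k) * l⁻¹ = l⁻¹ * (k⁻¹ * x k) := hcomm _ ha _ (inv_mem hl)
      calc k⁻¹ * x k * (l⁻¹ * x l) = ((k⁻¹ * x k) * l⁻¹) * x l := by group
        _ = (l⁻¹ * (k⁻¹ * x k)) * x l := by rw [c1]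
        _ = (k * l)⁻¹ * x (k * l) := by rw [map_mul]; group
    · rintro a - ⟨ha, k, hk, rfl⟩
      refine ⟨inv_mem ha, k⁻¹, inv_mem hk, ?_⟩
      have c1 : (x k)⁻¹ * k = k * (x k)⁻¹ := hcomm _ (inv_mem (hK _ hk)) _ hk
      rw [mul_inv_rev, inv_inv, c1, map_inv]
  exact (key d hd).2

/-- For an abelian invariant `K` of order prime to `p`: `[K, x] ∩ C_K(x) = 1`. -/
theorem DD_inf_Fx_of_comm [Finite H] {p : ℕ} [hp : Fact p.Prime] {x : Monoid.End H}
    (hx : x ^ p = 1) {K : Subgroup H} (hpK : ¬ p ∣ Nat.card K) (hK : Inv x K)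
    (hcomm : ∀ a ∈ K, ∀ b ∈ K, a * b = b * a) {c : H} (hc : c ∈ DD x K) (hcx : x c = c) :
    c = 1 := by
  obtain ⟨k, hk, hk2⟩ := exists_of_mem_DD_comm hK hcomm hc
  have h1 : x k = k * c := by rw [hk2]; group
  have h2 : ∀ i : ℕ, (x ^ i) k = k * c ^ i := by
    intro i
    induction i with
    | zero => rw [pow_zero_apply]; simp
    | succ n ih => rw [pow_succ_apply, ih, map_mul, map_pow, hcx, h1, pow_succ']; group
  have h3 := h2 p
  rw [hx] at h3
  have h4 : c ^ p = 1 := by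
    have : k = k * c ^ p := h3
    exact (mul_eq_left (a := k)).1 this.symm
  have h5 : c ∈ K := DD_le_self hK hc
  have h6 : orderOf c ∣ p := orderOf_dvd_of_pow_eq_one h4
  have h7 : orderOf c ∣ Nat.card K := by
    have := orderOf_dvd_natCard (⟨c, h5⟩ : K)
    rwa [Subgroup.orderOf_mk] at this
  rcases (Nat.dvd_prime hp.out).1 h6 with h8 | h8
  · exact orderOf_eq_one_iff.1 h8
  · rw [h8] at h7; exact absurd h7 hpK

/-- Projection to the fixed points in an abelian group. -/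
theorem inf_Fx_le_of_le_sup [Finite H] {p : ℕ} [hp : Fact p.Prime] {x : Monoid.End H}
    (hx : x ^ p = 1) {V C : Subgroup H} (hpV : ¬ p ∣ Nat.card V) (hV : Inv x V)
    (hcomm : ∀ a ∈ V, ∀ b ∈ V, a * b = b * a) (hC : C ≤ Fx x) (hCV : C ≤ V)
    (hle : V ≤ C ⊔ DD x V) : V ⊓ Fx x ≤ C := by
  rintro v ⟨hv, hvx⟩
  have hvx' : x v = v := hvx
  have h1 : ∃ c ∈ C, ∃ d ∈ DD x V, v = c * d := by
    let S : Subgroup H :=
      { carrier := {g | ∃ c ∈ C, ∃ d ∈ DD x V, g = c * d}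
        mul_mem' := by
          rintro a b ⟨c, hc, d, hd, rfl⟩ ⟨c', hc', d', hd', rfl⟩
          refine ⟨c * c', mul_mem hc hc', d * d', mul_mem hd hd', ?_⟩
          have := hcomm d (DD_le_self hV hd) c' (hCV hc')
          calc c * d * (c' * d') = c * (d * c') * d' := by group
            _ = c * (c' * d) * d' := by rw [this]
            _ = c * c' * (d * d') := by group
        one_mem' := ⟨1, one_mem _, 1, one_mem _, by simp⟩
        inv_mem' := by
          rintro a ⟨c, hc, d, hd, rfl⟩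
          refine ⟨c⁻¹, inv_mem hc, d⁻¹, inv_mem hd, ?_⟩
          have := hcomm (d⁻¹) (inv_mem (DD_le_self hV hd)) (c⁻¹) (inv_mem (hCV hc))
          rw [mul_inv_rev, this] }
    have hS : C ⊔ DD x V ≤ S := by
      refine sup_le ?_ ?_
      · intro c hc; exact ⟨c, hc, 1, one_mem _, by simp⟩
      · intro d hd; exact ⟨1, one_mem _, d, hd, by simp⟩
    exact hS (hle hv)
  obtain ⟨c, hc, d, hd, rfl⟩ := h1
  have h2 : x c = c := hC hc
  have h3 : x d = d := by
    rw [map_mul, h2] at hvx'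
    exact mul_left_cancel hvx'
  have h4 := DD_inf_Fx_of_comm hx hpV hV hcomm hd h3
  rw [h4, mul_one]; exact hc

/-! ### restriction to an invariant subgroup -/

/-- The restriction of `x` to an invariant subgroup. -/
def res (x : Monoid.End H) (K : Subgroup H) (hK : Inv x K) : Monoid.End K :=
  MonoidHom.codRestrict ((x : H →* H).comp K.subtype) K (fun k => hK k k.2)

theorem res_pow_apply (x : Monoid.End H) (K : Subgroup H) (hK : Inv x K) (i : ℕ) (k : K) :
    (((res x K hK) ^ i) k : H) = (x ^ i) (k : H) := by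
  induction i with
  | zero => rw [pow_zero_apply, pow_zero_apply]
  | succ n ih => rw [pow_succ_apply, pow_succ_apply, ← ih]; rfl

theorem res_pow_eq_one {x : Monoid.End H} {K : Subgroup H} (hK : Inv x K) {p : ℕ}
    (hx : x ^ p = 1) : (res x K hK) ^ p = 1 := by
  ext k
  rw [res_pow_apply, hx]
  rfl

theorem map_cl_res (x : Monoid.End H) (K : Subgroup H) (hK : Inv x K) (k : K) :
    (cl (res x K hK) k).map K.subtype = cl x (k : H) := by
  rw [cl, MonoidHom.map_closure, cl]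
  congr 1
  ext c
  constructor
  · rintro ⟨_, ⟨i, rfl⟩, rfl⟩
    refine ⟨i, ?_⟩
    rw [← res_pow_apply x K hK]; rfl
  · rintro ⟨i, rfl⟩
    refine ⟨_, ⟨i, rfl⟩, ?_⟩
    rw [← res_pow_apply x K hK]; rfl

theorem map_DD_res (x : Monoid.End H) (K : Subgroup H) (hK : Inv x K) :
    (DD (res x K hK) ⊤).map K.subtype = DD x K := by
  rw [DD, MonoidHom.map_closure, DD]
  congr 1
  ext c
  constructor
  · rintro ⟨_, ⟨k, -, i, rfl⟩, rfl⟩
    refine ⟨k, k.2, i, ?_⟩
    rw [← res_pow_apply x K hK]; rfl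
  · rintro ⟨k, hk, i, rfl⟩
    refine ⟨_, ⟨⟨k, hk⟩, mem_top _, i, rfl⟩, ?_⟩
    show k⁻¹ * ((((res x K hK) ^ i) ⟨k, hk⟩ : K) : H) = _
    rw [res_pow_apply]

theorem map_WW_res_le (x : Monoid.End H) (K : Subgroup H) (hK : Inv x K) :
    (WW (res x K hK) ⊤).map K.subtype ≤ WW x K := by
  rw [WW, Subgroup.map_iSup]
  refine iSup_le fun k => ?_
  rintro _ ⟨c, ⟨hc1, hc2⟩, rfl⟩
  refine inf_le_WW x k.1.2 ⟨?_, ?_⟩
  · rw [← map_cl_res x K hK]
    exact ⟨c, hc1, rfl⟩
  · have h1 : (res x K hK) c = c := hc2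
    show x (K.subtype c) = K.subtype c
    have := congrArg Subtype.val h1
    exact this

/-- Transfer of the statement from the type `K` to the subgroup `K`. -/
theorem inf_le_of_res {x : Monoid.End H} {K : Subgroup H} (hK : Inv x K)
    (h : DD (res x K hK) ⊤ ⊓ Fx (res x K hK) ≤ WW (res x K hK) ⊤) : DD x K ⊓ Fx x ≤ WW x K := by
  rintro c ⟨hc1, hc2⟩
  have hcK : c ∈ K := DD_le_self hK hc1
  rw [← map_DD_res x K hK] at hc1
  obtain ⟨c', hc', rfl⟩ := hc1
  refine map_WW_res_le x K hK ⟨c', h ⟨hc', ?_⟩, rfl⟩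
  show (res x K hK) c' = c'
  exact Subtype.ext hc2

/-! ### quotients -/

section Quot

variable (x : Monoid.End H) (V : Subgroup H) [V.Normal] (hV : Inv x V)

/-- The endomorphism induced on the quotient. -/
def quo : Monoid.End (H ⧸ V) := QuotientGroup.map V V (x : H →* H) hV

theorem quo_mk (h : H) : quo x V hV (h : H ⧸ V) = ((x h : H) : H ⧸ V) := rfl

theorem quo_pow_mk (i : ℕ) (h : H) : ((quo x V hV) ^ i) (h : H ⧸ V) = (((x ^ i) h : H) : H ⧸ V) := by
  induction i with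
  | zero => rw [pow_zero_apply, pow_zero_apply]
  | succ n ih => rw [pow_succ_apply, pow_succ_apply, ih, quo_mk]

theorem quo_pow_eq_one {p : ℕ} (hx : x ^ p = 1) : (quo x V hV) ^ p = 1 := by
  ext q
  obtain ⟨h, rfl⟩ := QuotientGroup.mk_surjective q
  rw [quo_pow_mk, hx]
  rfl

theorem map_cl_quo (h : H) :
    (cl x h).map (QuotientGroup.mk' V) = cl (quo x V hV) (h : H ⧸ V) := by
  rw [cl, MonoidHom.map_closure, cl]
  congr 1
  ext c
  constructor
  · rintro ⟨_, ⟨i, rfl⟩, rfl⟩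
    exact ⟨i, by rw [quo_pow_mk]; rfl⟩
  · rintro ⟨i, rfl⟩
    exact ⟨_, ⟨i, rfl⟩, by rw [quo_pow_mk]; rfl⟩

theorem map_DD_quo : (DD x ⊤).map (QuotientGroup.mk' V) = DD (quo x V hV) ⊤ := by
  rw [DD, MonoidHom.map_closure, DD]
  congr 1
  ext c
  constructor
  · rintro ⟨_, ⟨h, -, i, rfl⟩, rfl⟩
    exact ⟨(h : H ⧸ V), mem_top _, i, by rw [quo_pow_mk]; rfl⟩
  · rintro ⟨q, -, i, rfl⟩
    obtain ⟨h, rfl⟩ := QuotientGroup.mk_surjective q
    exact ⟨_, ⟨h, mem_top _, i, rfl⟩, by rw [quo_pow_mk]; rfl⟩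

theorem WW_quo_le [Finite H] {p : ℕ} [Fact p.Prime] (hpH : ¬ p ∣ Nat.card H) (hx : x ^ p = 1) :
    WW (quo x V hV) ⊤ ≤ (WW x ⊤).map (QuotientGroup.mk' V) := by
  refine iSup_le fun q => ?_
  obtain ⟨h, hh⟩ := QuotientGroup.mk_surjective (q : H ⧸ V)
  rw [← hh]
  rintro q' ⟨hq1, hq2⟩
  rw [← map_cl_quo x V hV] at hq1
  obtain ⟨d, hd, rfl⟩ := hq1
  have hd : d ∈ cl x h := hd
  have h1 : ((x d : H) : H ⧸ V) = (d : H ⧸ V) := hq2
  have h2 : d⁻¹ * x d ∈ V := QuotientGroup.eq.1 h1.symm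
  have h3 : d⁻¹ * x d ∈ cl x h ⊓ V :=
    Subgroup.mem_inf.2 ⟨mul_mem (inv_mem hd) (inv_cl x h d hd), h2⟩
  obtain ⟨c, hc, hc2⟩ := exists_fixed_coset hx ((inv_cl x h).inf hV)
    (not_dvd_of_le hpH) h3
  have h4 : c ∈ cl x h := by
    have := mul_mem hd hc2.1
    simpa using this
  refine ⟨c, inf_le_WW x (mem_top h) ⟨h4, hc⟩, ?_⟩
  exact (QuotientGroup.eq.2 hc2.2).symm

/-- If `[H, x] = H` and the statement holds for `H / V` then `C_H(x) ≤ W V`. -/
theorem Fx_le_of_quo [Finite H] {p : ℕ} [Fact p.Prime] (hpH : ¬ p ∣ Nat.card H) (hx : x ^ p = 1)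
    (htop : DD x ⊤ = ⊤)
    (h : DD (quo x V hV) ⊤ ⊓ Fx (quo x V hV) ≤ WW (quo x V hV) ⊤) : Fx x ≤ WW x ⊤ ⊔ V := by
  intro c hc
  have hc' : x c = c := hc
  have h1 : (c : H ⧸ V) ∈ DD (quo x V hV) ⊤ ⊓ Fx (quo x V hV) := by
    refine ⟨?_, ?_⟩
    · rw [← map_DD_quo x V hV, htop]
      exact ⟨c, mem_top _, rfl⟩
    · show quo x V hV (c : H ⧸ V) = (c : H ⧸ V)
      rw [quo_mk, hc']
  obtain ⟨w, hw, hw2⟩ := WW_quo_le x V hV hpH hx (h h1)
  have h3 : w⁻¹ * c ∈ V := QuotientGroup.eq.1 hw2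
  have h4 : c = w * (w⁻¹ * c) := by group
  rw [h4]
  exact mul_mem ((le_sup_left : WW x ⊤ ≤ _) hw) ((le_sup_right : V ≤ _) h3)

end Quot

/-! ### invariant Sylow subgroups -/

theorem exists_inv_sylow [Finite H] {p : ℕ} [hp : Fact p.Prime] (hpH : ¬ p ∣ Nat.card H)
    {x : Monoid.End H} (hx : x ^ p = 1) (t : ℕ) [Fact t.Prime] :
    ∃ S : Sylow t H, Inv x (S : Subgroup H) := by
  classical
  have hbij : Function.Bijective x := by
    have hpos := hp.out.pos
    have h1 : ∀ h : H, (x ^ (p - 1)) (x h) = h := by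
      intro h
      have := pow_add_apply x (p - 1) 1 h
      rw [pow_one_apply] at this
      rw [← this, Nat.sub_add_cancel hpos, hx]; rfl
    have h2 : ∀ h : H, x ((x ^ (p - 1)) h) = h := by
      intro h
      rw [← pow_succ_apply, Nat.sub_add_cancel hpos, hx]; rfl
    exact ⟨fun a b hab => by rw [← h1 a, hab, h1 b], fun b => ⟨_, h2 b⟩⟩
  let e : H ≃* H := MulEquiv.ofBijective (x : H →* H) hbij
  let f : Function.End (Sylow t H) := fun S => (e : MulAut H) • S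
  have hf : ∀ n : ℕ, ∀ S : Sylow t H, (f ^ n) S = ((e : MulAut H) ^ n) • S := by
    intro n
    induction n with
    | zero => intro S; rw [pow_zero, pow_zero, one_smul]; rfl
    | succ n ih =>
      intro S
      rw [pow_succ', pow_succ', mul_smul, ← ih]
      rfl
  have hep : (e : MulAut H) ^ p = 1 := by
    have h3 : ∀ n : ℕ, ∀ h : H, ((e : MulAut H) ^ n) h = (x ^ n) h := by
      intro n
      induction n with
      | zero => intro h; rw [pow_zero, pow_zero_apply]; rfl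
      | succ n ih => intro h; rw [pow_succ', pow_succ_apply, MulAut.mul_apply, ih]; rfl
    ext h
    rw [h3, hx]; rfl
  have hfp : f ^ p ^ 1 = 1 := by
    funext S
    rw [pow_one, hf, hep, one_smul]
    rfl
  have : Fintype (Sylow t H) := Fintype.ofFinite _
  have h1 := Equiv.Perm.card_fixedPoints_modEq hfp
  have h2 : Nonempty (Function.fixedPoints f) := by
    by_contra hne
    rw [not_nonempty_iff] at hne
    have h0 : Fintype.card (Function.fixedPoints f) = 0 := Fintype.card_eq_zero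
    rw [h0] at h1
    have h3 := (Nat.modEq_zero_iff_dvd).1 h1
    rw [← Nat.card_eq_fintype_card] at h3
    obtain ⟨S⟩ : Nonempty (Sylow t H) := inferInstance
    exact hpH (h3.trans ((Sylow.card_dvd_index S).trans (Subgroup.index_dvd_card _)))
  obtain ⟨S, hS⟩ := h2
  refine ⟨S, fun s hs => ?_⟩
  have h4 : (e : MulAut H) • S = S := hS
  have h5 : s ∈ S := hs
  have h6 : (e : MulAut H) s ∈ (e : MulAut H) • S := ⟨s, h5, rfl⟩
  rw [h4] at h6
  exact h6

end Cfsg.Agent.H456
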