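import Cfsg.Agent.H456.CoprimeEnd2
import Cfsg.Agent.Transfer.PGroupNormal

/-!
# `C_{[H, x]}(x)` is generated by the `C_{[h, x]}(x)`: the case of a `t`-group
-/

set_option autoImplicit false

namespace Cfsg.Agent.H456

open Subgroup

variable {H : Type*} [Group H]

/-- The situation in a minimal counterexample. -/
structure Ctx (p : ℕ) (x : Monoid.End H) : Prop where
  hx : x ^ p = 1
  hpH : ¬ p ∣ Nat.card H
  htop : DD x ⊤ = ⊤
  ih1 : ∀ K : Subgroup H, Inv x K → K ≠ ⊤ → DD x K ⊓ Fx x ≤ WW x ⊤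
  ih2 : ∀ V : Subgroup H, V.Normal → Inv x V → V ≠ ⊥ → Fx x ≤ WW x ⊤ ⊔ V

theorem surj_of_pow {p : ℕ} (hp : 0 < p) {x : Monoid.End H} (hx : x ^ p = 1) (h : H) :
    ∃ g, x g = h := by
  refine ⟨(x ^ (p - 1)) h, ?_⟩
  rw [← pow_succ_apply, Nat.sub_add_cancel hp, hx]; rfl

theorem inj_of_pow {p : ℕ} (hp : 0 < p) {x : Monoid.End H} (hx : x ^ p = 1) {a b : H}
    (h : x a = x b) : a = b := by
  have h1 : ∀ h : H, (x ^ (p - 1)) (x h) = h := by
    intro h
    have := pow_add_apply x (p - 1) 1 h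
    rw [pow_one_apply] at this
    rw [← this, Nat.sub_add_cancel hp, hx]; rfl
  rw [← h1 a, h, h1 b]

/-- An element all of whose commutators with `h` are fixed and central ... : the basic step:
if `b h b⁻¹ = z h` and `b x(h) b⁻¹ = z x(h)` then `b` commutes with `h⁻¹ x(h)`. -/
theorem commute_of_eq {b h k z : H} (hz : ∀ g : H, z * g = g * z) (h1 : b * h * b⁻¹ = z * h)
    (h2 : b * k * b⁻¹ = z * k) : b * (h⁻¹ * k) = (h⁻¹ * k) * b := by
  have h3 : b * (h⁻¹ * k) * b⁻¹ = (b * h * b⁻¹)⁻¹ * (b * k * b⁻¹) := by group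
  rw [h1, h2] at h3
  have h4 : (z * h)⁻¹ * (z * k) = h⁻¹ * k := by group
  rw [h4] at h3
  calc b * (h⁻¹ * k) = (b * (h⁻¹ * k) * b⁻¹) * b := by group
    _ = (h⁻¹ * k) * b := by rw [h3]

namespace Ctx

variable {p : ℕ} {x : Monoid.End H} (C : Ctx p x)
include C

/-- A normal subgroup of `H` contained in `C_H(x)` is central. -/
theorem central_of_le_Fx {V : Subgroup H} [hV : V.Normal] (hVx : V ≤ Fx x) {v : H} (hv : v ∈ V)
    (h : H) : v * h = h * v := by
  have hle : DD x ⊤ ≤ centralizer {v} := by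
    refine (closure_le _).2 ?_
    rintro c ⟨h, -, i, rfl⟩
    show h⁻¹ * (x ^ i) h ∈ centralizer {v}
    rw [mem_centralizer_singleton_iff]
    have h1 : h * v * h⁻¹ ∈ V := hV.conj_mem v hv h
    have h2 : (x ^ i) (h * v * h⁻¹) = h * v * h⁻¹ := pow_apply_of_fixed (hVx h1) i
    rw [map_mul, map_mul, map_inv, pow_apply_of_fixed (hVx hv)] at h2
    calc h⁻¹ * (x ^ i) h * v = h⁻¹ * ((x ^ i) h * v * ((x ^ i) h)⁻¹) * (x ^ i) h := by group
      _ = h⁻¹ * (h * v * h⁻¹) * (x ^ i) h := by rw [h2]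
      _ = v * (h⁻¹ * (x ^ i) h) := by group
  rw [C.htop] at hle
  have := hle (mem_top h)
  rw [mem_centralizer_singleton_iff] at this
  exact this.symm

theorem exists_decomp {V : Subgroup H} (hV : V.Normal) (hVi : Inv x V) (hV1 : V ≠ ⊥) {c : H}
    (hc : c ∈ Fx x) : ∃ w ∈ WW x ⊤, ∃ v ∈ V ⊓ Fx x, c = w * v := by
  have h1 := C.ih2 V hV hVi hV1 hc
  rw [← SetLike.mem_coe, Subgroup.mul_normal] at h1
  obtain ⟨w, hw, v, hv, rfl⟩ := h1
  refine ⟨w, hw, v, ⟨hv, ?_⟩, rfl⟩
  have := mul_mem (inv_mem (WW_le_Fx x ⊤ hw)) hc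
  simpa using this

theorem Fx_le_of_inf_le {V : Subgroup H} (hV : V.Normal) (hVi : Inv x V) (hV1 : V ≠ ⊥)
    (h : V ⊓ Fx x ≤ WW x ⊤) : Fx x ≤ WW x ⊤ := by
  intro c hc
  obtain ⟨w, hw, v, hv, rfl⟩ := C.exists_decomp hV hVi hV1 hc
  exact mul_mem hw (h hv)

variable [Finite H] [hp : Fact p.Prime]

theorem inv_center : Inv x (center H) := by
  intro z hz
  rw [mem_center_iff] at hz ⊢
  intro g
  obtain ⟨g, rfl⟩ := surj_of_pow hp.out.pos C.hx g
  rw [← map_mul, ← map_mul, hz g]

/-- The case of a group of prime power order. -/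
theorem pgroup_case (hodd : p ≠ 2) {t : ℕ} [ht : Fact t.Prime] (hH : IsPGroup t H) :
    Fx x ≤ WW x ⊤ := by
  classical
  by_contra hne
  have hx := C.hx
  have hpH := C.hpH
  have hntr : Nontrivial H := by
    by_contra hnt
    rw [not_nontrivial_iff_subsingleton] at hnt
    exact hne (fun c _ => by rw [Subsingleton.elim c 1]; exact one_mem _)
  -- every invariant normal subgroup `≠ 1` has nontrivial fixed points
  have hfix : ∀ V : Subgroup H, V.Normal → Inv x V → V ≠ ⊥ → V ⊓ Fx x ≠ ⊥ := by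
    intro V hV hVi hV1 h0
    exact hne (C.Fx_le_of_inf_le hV hVi hV1 (by rw [h0]; exact bot_le))
  set Z : Subgroup H := center H with hZdef
  have hZi : Inv x Z := C.inv_center
  have hZc : ∀ z ∈ Z, ∀ g : H, z * g = g * z := fun z hz g => (mem_center_iff.1 hz g).symm
  have hZF : Z ≤ Fx x := by
    have h1 : DD x Z = ⊥ := by
      by_contra h2
      have hn : (DD x Z).Normal := by
        constructor
        intro n hn g
        have : n ∈ Z := DD_le_self hZi hn
        rw [← hZc n this g]; simpa using hn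
      have h3 := hfix _ hn (inv_DD x Z) h2
      apply h3
      rw [eq_bot_iff]
      rintro c ⟨hc1, hc2⟩
      exact DD_inf_Fx_of_comm hx (not_dvd_of_le hpH) hZi (fun a ha b _ => hZc a ha b) hc1 hc2
    intro z hz
    have h2 : z⁻¹ * x z ∈ DD x Z := mem_DD_one x hz
    rw [h1, mem_bot, inv_mul_eq_one] at h2
    exact h2.symm
  have hWZ : WW x ⊤ ⊓ Z = ⊥ := by
    by_contra h2
    have hn : (WW x ⊤ ⊓ Z).Normal := by
      constructor
      intro n hn g
      rw [← hZc n hn.2 g]; simpa using hn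
    have hi : Inv x (WW x ⊤ ⊓ Z) := by
      intro k hk
      have : x k = k := hZF hk.2
      rw [this]; exact hk
    have := C.ih2 _ hn hi h2
    apply hne
    refine this.trans (sup_le le_rfl inf_le_left)
  have hWZ' : ∀ g, g ∈ WW x ⊤ → g ∈ Z → g = 1 := by
    intro g h1 h2
    have : g ∈ WW x ⊤ ⊓ Z := ⟨h1, h2⟩
    rwa [hWZ, mem_bot] at this
  have hZtop : Z ≠ ⊤ := by
    intro h1
    apply hne
    intro c hc
    have h2 : c ∈ DD x (⊤ : Subgroup H) := by rw [C.htop]; exact mem_top c
    rw [DD_inf_Fx_of_comm hx (not_dvd_of_le hpH) (inv_top x)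
      (fun a _ b _ => hZc a (h1 ▸ mem_top a) b) h2 hc]
    exact one_mem _
  -- the second centre
  let B : Subgroup H := (center (H ⧸ Z)).comap (QuotientGroup.mk' Z)
  have hB : ∀ b, b ∈ B ↔ ∀ h : H, b * h * b⁻¹ * h⁻¹ ∈ Z := by
    intro b
    show ((b : H ⧸ Z) ∈ center (H ⧸ Z)) ↔ _
    rw [mem_center_iff]
    constructor
    · intro h1 h
      have h2 := h1 (h : H ⧸ Z)
      rw [← QuotientGroup.mk_mul, ← QuotientGroup.mk_mul, QuotientGroup.eq] at h2
      have h3 : (h * b)⁻¹ * (b * h) ∈ Z := h2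
      have h4 := (inferInstance : Z.Normal).conj_mem _ h3 (h * b)
      have h5 : (h * b) * ((h * b)⁻¹ * (b * h)) * (h * b)⁻¹ = b * h * b⁻¹ * h⁻¹ := by group
      rwa [h5] at h4
    · intro h1 q
      obtain ⟨h, rfl⟩ := QuotientGroup.mk_surjective q
      rw [← QuotientGroup.mk_mul, ← QuotientGroup.mk_mul, QuotientGroup.eq]
      have h4 := (inferInstance : Z.Normal).conj_mem _ (h1 h) (h * b)⁻¹
      have h5 : (h * b)⁻¹ * (b * h * b⁻¹ * h⁻¹) * (h * b)⁻¹⁻¹ = (h * b)⁻¹ * (b * h) := by group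
      rwa [h5] at h4
  have hBn : B.Normal := inferInstance
  have hZB : Z ≤ B := by
    intro z hz
    rw [hB]
    intro h
    have : z * h * z⁻¹ * h⁻¹ = 1 := by rw [hZc z hz h]; group
    rw [this]; exact one_mem _
  have hBi : Inv x B := by
    intro b hb
    rw [hB] at hb ⊢
    intro h
    obtain ⟨h, rfl⟩ := surj_of_pow hp.out.pos hx h
    have := hZi _ (hb h)
    rwa [map_mul, map_mul, map_mul, map_inv, map_inv] at this
  -- the commutator is fixed by `x`
  have hcomm : ∀ b ∈ B, ∀ h : H, ∀ i : ℕ, (x ^ i) b * (x ^ i) h * ((x ^ i) b)⁻¹ * ((x ^ i) h)⁻¹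
      = b * h * b⁻¹ * h⁻¹ := by
    intro b hb h i
    have h1 := pow_apply_of_fixed (hZF ((hB b).1 hb h)) i
    rwa [map_mul, map_mul, map_mul, map_inv, map_inv] at h1
  -- fixed points centralize `[B, x]`
  have hFB : ∀ c, x c = c → ∀ a ∈ DD x B, c * a = a * c := by
    intro c hc a ha
    have hle : DD x B ≤ centralizer {c} := by
      refine (closure_le _).2 ?_
      rintro _ ⟨b, hb, i, rfl⟩
      show b⁻¹ * (x ^ i) b ∈ centralizer {c}
      rw [mem_centralizer_singleton_iff]
      have h1 := hcomm b hb c i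
      rw [pow_apply_of_fixed hc] at h1
      set z := b * c * b⁻¹ * c⁻¹ with hz
      have hzZ : z ∈ Z := (hB b).1 hb c
      have h2 : b * c * b⁻¹ = z * c := by rw [hz]; group
      have h3 : (x ^ i) b * c * ((x ^ i) b)⁻¹ = z * c := by rw [← h1]; group
      have h4 : c = z * (b⁻¹ * c * b) := by
        have : z * (b⁻¹ * c * b) = b⁻¹ * (z * c) * b := by
          rw [← mul_assoc, ← mul_assoc, hZc z hzZ b⁻¹]; group
        rw [this, ← h2]; group
      calc b⁻¹ * (x ^ i) b * c = b⁻¹ * ((x ^ i) b * c * ((x ^ i) b)⁻¹) * (x ^ i) b := by group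
        _ = b⁻¹ * (z * c) * (x ^ i) b := by rw [h3]
        _ = (z * (b⁻¹ * c * b)) * (b⁻¹ * (x ^ i) b) := by
          rw [← mul_assoc b⁻¹ z c, ← hZc z hzZ b⁻¹]; group
        _ = c * (b⁻¹ * (x ^ i) b) := by rw [← h4]
    have := hle ha
    rw [mem_centralizer_singleton_iff] at this
    exact this.symm
  -- fixed points in `B` are central
  have hBF : ∀ b ∈ B, x b = b → b ∈ Z := by
    intro b hb hbx
    have hle : DD x ⊤ ≤ centralizer {b} := by
      refine (closure_le _).2 ?_
      rintro _ ⟨h, -, i, rfl⟩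
      show h⁻¹ * (x ^ i) h ∈ centralizer {b}
      rw [mem_centralizer_singleton_iff]
      have h1 := hcomm b hb h i
      rw [pow_apply_of_fixed hbx] at h1
      refine (commute_of_eq (z := b * h * b⁻¹ * h⁻¹) (hZc _ ((hB b).1 hb h)) ?_ ?_).symm
      · group
      · rw [← h1]; group
    rw [C.htop] at hle
    rw [hZdef, mem_center_iff]
    intro g
    have := hle (mem_top g)
    rwa [mem_centralizer_singleton_iff] at this
  by_cases hBtop : B = ⊤
  · -- class two
    have hBt : ∀ a b : H, a * b * a⁻¹ * b⁻¹ ∈ Z := fun a b => (hB a).1 (hBtop ▸ mem_top a) b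
    -- `[h, x]` is abelian
    have hab : ∀ h : H, ∀ i j : ℕ, (h⁻¹ * (x ^ i) h) * (h⁻¹ * (x ^ j) h)
        = (h⁻¹ * (x ^ j) h) * (h⁻¹ * (x ^ i) h) := by
      intro h i j
      have h1 := mem_cl x h i
      have h2 := mem_cl x h j
      have h3 := hBt (h⁻¹ * (x ^ i) h) (h⁻¹ * (x ^ j) h)
      have h4 : (h⁻¹ * (x ^ i) h) * (h⁻¹ * (x ^ j) h) * (h⁻¹ * (x ^ i) h)⁻¹
          * (h⁻¹ * (x ^ j) h)⁻¹ ∈ cl x h :=
        mul_mem (mul_mem (mul_mem h1 h2) (inv_mem h1)) (inv_mem h2)
      have h5 := hWZ' _ (inf_le_WW x (mem_top h) ⟨h4, hZF h3⟩) h3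
      rwa [mul_inv_eq_one, mul_inv_eq_iff_eq_mul] at h5
    -- the bilinear form
    let β : H → H → H := fun a b => a * b * a⁻¹ * b⁻¹
    have hβZ : ∀ a b, β a b ∈ Z := hBt
    have hβc : ∀ a b g, β a b * g = g * β a b := fun a b g => hZc _ (hβZ a b) g
    have β_mul_left : ∀ a b c, β (a * b) c = β a c * β b c := by
      intro a b c
      have h1 : β (a * b) c = a * β b c * (c * a⁻¹ * c⁻¹) := by simp only [β]; group
      rw [h1, ← hβc b c a, mul_assoc, hβc b c]
      congr 1
      simp only [β]; group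
    have β_mul_right : ∀ a b c, β a (b * c) = β a b * β a c := by
      intro a b c
      have h1 : β a (b * c) = β a b * (b * β a c * b⁻¹) := by simp only [β]; group
      rw [h1, ← hβc a c b]; group
    have β_inv : ∀ a b, β b a = (β a b)⁻¹ := by
      intro a b; simp only [β]; group
    have β_one_left : ∀ b, β 1 b = 1 := by intro b; simp only [β]; group
    have β_one_right : ∀ b, β b 1 = 1 := by intro b; simp only [β]; group
    have β_inv_left : ∀ a b, β a⁻¹ b = (β a b)⁻¹ := by
      intro a b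
      have := β_mul_left a⁻¹ a b
      rw [inv_mul_cancel, β_one_left] at this
      rw [eq_inv_iff_mul_eq_one]; exact this.symm
    have β_inv_right : ∀ a b, β a b⁻¹ = (β a b)⁻¹ := by
      intro a b
      have := β_mul_right a b⁻¹ b
      rw [inv_mul_cancel, β_one_right] at this
      rw [eq_inv_iff_mul_eq_one]; exact this.symm
    have β_x : ∀ a b (i : ℕ), β ((x ^ i) a) ((x ^ i) b) = β a b := by
      intro a b i
      exact hcomm a (hBtop ▸ mem_top a) b i
    have β_self : ∀ a, β a a = 1 := by intro a; simp only [β]; group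
    -- additivity
    have hadd : ∀ h : H, ∀ i j : ℕ, β h ((x ^ (i + j)) h) = β h ((x ^ i) h) * β h ((x ^ j) h) := by
      intro h i j
      have h1 := hab h i (i + j)
      have h2 : β (h⁻¹ * (x ^ i) h) (h⁻¹ * (x ^ (i + j)) h) = 1 := by
        simp only [β]; rw [h1]; group
      rw [β_mul_left, β_mul_right, β_mul_right, β_inv_left, β_inv_right, β_self, β_inv_left,
        β_inv_right, pow_add_apply, β_x, β_inv h ((x ^ i) h)] at h2
      simp only [inv_one, one_mul, inv_inv] at h2
      rw [inv_mul_eq_one] at h2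
      rw [pow_add_apply]; exact h2
    have hzero : ∀ h : H, ∀ i : ℕ, β h ((x ^ i) h) = 1 := by
      intro h i
      have h1 : ∀ n : ℕ, β h ((x ^ (n * i)) h) = (β h ((x ^ i) h)) ^ n := by
        intro n
        induction n with
        | zero => rw [zero_mul, pow_zero_apply, β_self, pow_zero]
        | succ n ih => rw [Nat.succ_mul, hadd, ih, pow_succ]
      have h2 := h1 p
      rw [pow_mul, hx, one_pow] at h2
      have h3 : (β h ((x ^ i) h)) ^ p = 1 := by
        rw [← h2]; exact β_self h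
      have h6 : orderOf (β h ((x ^ i) h)) ∣ p := orderOf_dvd_of_pow_eq_one h3
      have h7 : orderOf (β h ((x ^ i) h)) ∣ Nat.card H := orderOf_dvd_natCard _
      rcases (Nat.dvd_prime hp.out).1 h6 with h8 | h8
      · exact orderOf_eq_one_iff.1 h8
      · rw [h8] at h7; exact absurd h7 hpH
    -- polarisation
    have hpol : ∀ g h : H, ∀ i : ℕ, β h ((x ^ i) g) * β g ((x ^ i) h) = 1 := by
      intro g h i
      have h1 := hzero (h * g) i
      rw [map_mul, β_mul_left, β_mul_right, β_mul_right, hzero, hzero] at h1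
      simpa using h1
    -- `x²` acts trivially modulo `Z`
    have hsq : ∀ g : H, g⁻¹ * (x ^ 2) g ∈ Z := by
      intro g
      rw [hZdef, mem_center_iff]
      intro h
      obtain ⟨h, rfl⟩ := surj_of_pow hp.out.pos hx h
      have key : β (x h) (g⁻¹ * (x ^ 2) g) = 1 := by
        have e1 : β (x h) ((x ^ 2) g) = β h (x g) := by
          have := β_x h (x g) 1
          rw [pow_one_apply, pow_one_apply] at this
          have e : (x ^ 2) g = x (x g) := by rw [pow_succ_apply, pow_one_apply]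
          rw [e]; exact this
        have e2 : β h (x g) * β g (x h) = 1 := by
          have := hpol g h 1
          rwa [pow_one_apply, pow_one_apply] at this
        rw [β_mul_right, β_inv_right, e1]
        have e3 : β (x h) g = (β g (x h))⁻¹ := β_inv _ _
        rw [e3, inv_inv, hβc]; exact e2
      have key2 : x h * (g⁻¹ * (x ^ 2) g) * (x h)⁻¹ * (g⁻¹ * (x ^ 2) g)⁻¹ = 1 := key
      rwa [mul_inv_eq_one, mul_inv_eq_iff_eq_mul] at key2
    have hsqn : ∀ (n : ℕ) (g : H), g⁻¹ * (x ^ (2 * n)) g ∈ Z := by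
      intro n g
      induction n with
      | zero => rw [mul_zero, pow_zero_apply, inv_mul_cancel]; exact one_mem _
      | succ n ih =>
        have e1 : g⁻¹ * (x ^ (2 * (n + 1))) g
            = (g⁻¹ * (x ^ 2) g) * (x ^ 2) (g⁻¹ * (x ^ (2 * n)) g) := by
          rw [show 2 * (n + 1) = 2 + 2 * n by ring, pow_add_apply, map_mul, map_inv]; group
        rw [e1]
        exact mul_mem (hsq g) (hZi.pow 2 ih)
    have hx1 : ∀ g : H, g⁻¹ * x g ∈ Z := by
      intro g
      have hpodd : Odd p := hp.out.odd_of_ne_two hodd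
      obtain ⟨m, hm⟩ := hpodd
      have h1 := hsqn (m + 1) g
      rw [show 2 * (m + 1) = 1 + p by omega, pow_add_apply, hx, pow_one_apply] at h1
      exact h1
    apply hZtop
    rw [eq_top_iff, ← C.htop]
    exact DD_le fun k _ => cl_le_of_inv hZi (hx1 k)
  · -- `B = Z₂(H)` is proper
    set A : Subgroup H := DD x B with hAdef
    have hAi : Inv x A := inv_DD x B
    have hAB : A ≤ B := DD_le_self hBi
    have hAF : ∀ a ∈ A, x a = a → a = 1 := by
      intro a ha hax
      exact hWZ' a (C.ih1 B hBi hBtop ⟨ha, hax⟩) (hBF a (hAB ha) hax)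
    have hAab : ∀ a ∈ A, ∀ b ∈ A, a * b = b * a := by
      intro a ha b hb
      have h1 : a * b * a⁻¹ * b⁻¹ ∈ Z := (hB a).1 (hAB ha) b
      have h2 : a * b * a⁻¹ * b⁻¹ ∈ A :=
        mul_mem (mul_mem (mul_mem ha hb) (inv_mem ha)) (inv_mem hb)
      have h3 := hAF _ h2 (hZF h1)
      rwa [mul_inv_eq_one, mul_inv_eq_iff_eq_mul] at h3
    have hAne : A ≠ ⊥ := by
      intro h0
      have h1 : B ≤ Z := by
        intro b hb
        refine hBF b hb ?_
        have h2 : b⁻¹ * x b ∈ A := mem_DD_one x hb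
        rw [h0, mem_bot, inv_mul_eq_one] at h2
        exact h2.symm
      -- then the centre of `H / Z` is trivial
      have h2 : center (H ⧸ Z) = ⊥ := by
        rw [eq_bot_iff]
        intro q hq
        obtain ⟨h, rfl⟩ := QuotientGroup.mk_surjective q
        have : h ∈ Z := h1 hq
        rw [mem_bot]
        exact (QuotientGroup.eq_one_iff h).2 this
      have h3 : Nontrivial (H ⧸ Z) := by
        rw [← not_subsingleton_iff_nontrivial, QuotientGroup.subsingleton_iff]
        exact hZtop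
      have h4 : IsPGroup t (H ⧸ Z) := hH.to_quotient Z
      have h5 := h4.center_nontrivial
      rw [h2] at h5
      exact (not_nontrivial_iff_subsingleton.2 inferInstance) h5
    have hADD : DD x A = A := DD_DD hpH hx hBi
    -- a minimal invariant subgroup not centralizing `A`
    have hex : ∃ Y : Subgroup H, (Inv x Y ∧ ¬ Y ≤ centralizer (A : Set H)) ∧
        ∀ Y' : Subgroup H, (Inv x Y' ∧ ¬ Y' ≤ centralizer (A : Set H)) →
          Nat.card Y ≤ Nat.card Y' := by
      have hne' : {Y : Subgroup H | Inv x Y ∧ ¬ Y ≤ centralizer (A : Set H)}.Nonempty := by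
        refine ⟨⊤, inv_top x, ?_⟩
        intro h1
        apply hAne
        rw [eq_bot_iff]
        intro a ha
        have h2 : a ∈ Z := by
          rw [hZdef, mem_center_iff]
          intro g
          exact (mem_centralizer_iff.1 (h1 (mem_top g)) a ha).symm
        rw [mem_bot]
        exact hAF a ha (hZF h2)
      obtain ⟨Y, hY, hYmin⟩ := Set.exists_min_image _ (fun Y : Subgroup H => Nat.card Y)
        (Set.toFinite _) hne'
      exact ⟨Y, hY, hYmin⟩
    obtain ⟨Y, ⟨hYi, hYA⟩, hYmin⟩ := hex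
    have hYmin' : ∀ Y' : Subgroup H, Inv x Y' → Y' ≤ Y → Y' ≠ Y → Y' ≤ centralizer (A : Set H) := by
      intro Y' h1 h2 h3
      by_contra h4
      have h5 := hYmin Y' ⟨h1, h4⟩
      exact h3 (Subgroup.eq_of_le_of_card_ge h2 h5)
    have hFA : Fx x ≤ centralizer (A : Set H) := by
      intro c hc
      rw [mem_centralizer_iff]
      intro a ha
      exact (hFB c hc a ha).symm
    have hYDD : DD x Y = Y := by
      by_contra h1
      have h2 := hYmin' _ (inv_DD x Y) (DD_le_self hYi) h1
      apply hYA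
      intro y hy
      obtain ⟨c, hc, d, hd, rfl⟩ := exists_fixed_mul hpH hx hYi hy
      exact mul_mem (hFA hc.2) (h2 hd)
    have hYtop : Y ≠ ⊤ := by
      intro h0
      subst h0
      obtain ⟨h, -, hh⟩ := SetLike.not_le_iff_exists.1 hYA
      by_cases h1 : cl x h = ⊤
      · apply hne
        intro c hc
        exact inf_le_WW x (mem_top h) ⟨h1 ▸ mem_top c, hc⟩
      · have h2 := hYmin' _ (inv_cl x h) le_top h1
        obtain ⟨c, hc, d, hd, h3⟩ := exists_fixed_cl hpH hx h
        apply hh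
        rw [h3]
        exact mul_mem (hFA hc) (h2 hd)
    -- `[Y, A]` is not trivial, in `Z`
    have hcen : ∀ a ∈ A, ∀ h : H, a * h * a⁻¹ * h⁻¹ ∈ Z := fun a ha => (hB a).1 (hAB ha)
    by_cases hG1 : Y ⊔ A = ⊤
    · -- `C_Y(A)` is normal in `H`
      set N : Subgroup H := Y ⊓ centralizer (A : Set H) with hN
      have hNn : N.Normal := by
        rw [← Subgroup.normalizer_eq_top_iff, eq_top_iff, ← hG1]
        refine sup_le ?_ ?_
        · intro y hy
          rw [Subgroup.mem_normalizer_iff]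
          have key : ∀ y ∈ Y, ∀ n ∈ N, y * n * y⁻¹ ∈ N := by
            intro y hy n hn
            refine Subgroup.mem_inf.2 ⟨mul_mem (mul_mem hy hn.1) (inv_mem hy), ?_⟩
            rw [mem_centralizer_iff]
            intro a ha
            -- `y⁻¹ a y = a z`
            have h1 := hcen a ha y⁻¹
            have h2 := mem_centralizer_iff.1 hn.2 a ha
            have h3 : y⁻¹ * a * y = (a * y⁻¹ * a⁻¹ * y⁻¹⁻¹)⁻¹ * a := by group
            set z := (a * y⁻¹ * a⁻¹ * y⁻¹⁻¹)⁻¹ with hz
            have hzZ : z ∈ Z := inv_mem h1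
            calc a * (y * n * y⁻¹) = y * ((y⁻¹ * a * y) * n) * y⁻¹ := by group
              _ = y * (z * a * n) * y⁻¹ := by rw [h3]
              _ = y * (z * (a * n)) * y⁻¹ := by group
              _ = y * (z * (n * a)) * y⁻¹ := by rw [h2]
              _ = y * ((z * n) * a) * y⁻¹ := by group
              _ = y * ((n * z) * a) * y⁻¹ := by rw [hZc z hzZ n]
              _ = y * (n * (z * a)) * y⁻¹ := by group
              _ = y * (n * (y⁻¹ * a * y)) * y⁻¹ := by rw [h3]
              _ = y * n * y⁻¹ * a := by group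
          intro n
          constructor
          · exact key y hy n
          · intro h1
            have := key y⁻¹ (inv_mem hy) _ h1
            have e : y⁻¹ * (y * n * y⁻¹) * y⁻¹⁻¹ = n := by group
            rwa [e] at this
        · intro a ha
          rw [Subgroup.mem_normalizer_iff]
          intro n
          constructor
          · intro hn
            have h2 := mem_centralizer_iff.1 hn.2 a ha
            rw [h2]; simpa using hn
          · intro hn
            have h2 := mem_centralizer_iff.1 hn.2 a ha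
            have h3 : a * n * a⁻¹ = n := by
              have : a * (a * n * a⁻¹) * a⁻¹ = a * n * a⁻¹ := by rw [h2]; group
              have h4 : a⁻¹ * (a * (a * n * a⁻¹) * a⁻¹) * a = a⁻¹ * (a * n * a⁻¹) * a := by rw [this]
              have h5 : a⁻¹ * (a * (a * n * a⁻¹) * a⁻¹) * a = a * n * a⁻¹ := by group
              have h6 : a⁻¹ * (a * n * a⁻¹) * a = n := by group
              rw [h5, h6] at h4; exact h4
            rwa [h3] at hn
      have hN1 : N = ⊥ := by
        by_contra h0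
        obtain ⟨z, hzN, hzZ, hzo⟩ :=
          Cfsg.Agent.Transfer.PGroupNormal.exists_mem_inf_center_orderOf hH N h0
        have hz3 : z ∈ DD x Y ⊓ Fx x := Subgroup.mem_inf.2 ⟨by rw [hYDD]; exact hzN.1, hZF hzZ⟩
        have hz4 := hWZ' z (C.ih1 Y hYi hYtop hz3) hzZ
        rw [hz4, orderOf_one] at hzo
        exact ht.out.one_lt.ne hzo
      -- hence `Y` is abelian and `H` has class two
      have hYab : ∀ a ∈ Y, ∀ b ∈ Y, a * b = b * a := by
        intro y1 h1 y2 h2
        have h3 : y1 * y2 * y1⁻¹ * y2⁻¹ ∈ N := by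
          refine Subgroup.mem_inf.2
            ⟨mul_mem (mul_mem (mul_mem h1 h2) (inv_mem h1)) (inv_mem h2), ?_⟩
          rw [mem_centralizer_iff]
          intro a ha
          -- `y a y⁻¹ = z_y a`
          have hyz : ∀ y : H, ∃ z ∈ Z, y * a * y⁻¹ = z * a := by
            intro y
            refine ⟨(a * y * a⁻¹ * y⁻¹)⁻¹, inv_mem (hcen a ha y), by group⟩
          obtain ⟨z1, hz1, e1⟩ := hyz y1
          obtain ⟨z2, hz2, e2⟩ := hyz y2
          obtain ⟨z3, hz3, e3⟩ := hyz y1⁻¹
          obtain ⟨z4, hz4, e4⟩ := hyz y2⁻¹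
          have f1 : z3 * z1 = 1 := by
            have : y1⁻¹ * (y1 * a * y1⁻¹) * y1⁻¹⁻¹ = a := by group
            rw [e1, ← mul_assoc, ← hZc z1 hz1 y1⁻¹, mul_assoc, mul_assoc, ← mul_assoc y1⁻¹, e3,
              ← mul_assoc, hZc z1 hz1 z3] at this
            exact mul_eq_right.1 this
          have f2 : z4 * z2 = 1 := by
            have : y2⁻¹ * (y2 * a * y2⁻¹) * y2⁻¹⁻¹ = a := by group
            rw [e2, ← mul_assoc, ← hZc z2 hz2 y2⁻¹, mul_assoc, mul_assoc, ← mul_assoc y2⁻¹, e4,
              ← mul_assoc, hZc z2 hz2 z4] at this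
            exact mul_eq_right.1 this
          have f3 : (y1 * y2 * y1⁻¹ * y2⁻¹) * a * (y1 * y2 * y1⁻¹ * y2⁻¹)⁻¹ = a := by
            calc (y1 * y2 * y1⁻¹ * y2⁻¹) * a * (y1 * y2 * y1⁻¹ * y2⁻¹)⁻¹
                = y1 * (y2 * (y1⁻¹ * (y2⁻¹ * a * y2⁻¹⁻¹) * y1⁻¹⁻¹) * y2⁻¹) * y1⁻¹ := by group
              _ = y1 * (y2 * (y1⁻¹ * (z4 * a) * y1⁻¹⁻¹) * y2⁻¹) * y1⁻¹ := by rw [e4]
              _ = y1 * (y2 * (z4 * (y1⁻¹ * a * y1⁻¹⁻¹)) * y2⁻¹) * y1⁻¹ := by
                rw [← mul_assoc y1⁻¹ z4 a, ← hZc z4 hz4 y1⁻¹]; group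
              _ = y1 * (y2 * (z4 * (z3 * a)) * y2⁻¹) * y1⁻¹ := by rw [e3]
              _ = y1 * ((z4 * z3) * (y2 * a * y2⁻¹)) * y1⁻¹ := by
                rw [← mul_assoc z4 z3 a, ← mul_assoc y2, ← hZc (z4 * z3) (mul_mem hz4 hz3) y2]
                group
              _ = y1 * ((z4 * z3) * (z2 * a)) * y1⁻¹ := by rw [e2]
              _ = (z4 * z3 * z2) * (y1 * a * y1⁻¹) := by
                rw [← mul_assoc (z4 * z3) z2 a, ← mul_assoc y1,
                  ← hZc (z4 * z3 * z2) (mul_mem (mul_mem hz4 hz3) hz2) y1]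
                group
              _ = (z4 * z3 * z2) * (z1 * a) := by rw [e1]
              _ = (z4 * z2) * (z3 * z1) * a := by
                rw [mul_assoc z4 z3 z2, hZc z3 hz3 z2]; group
              _ = a := by rw [f1, f2]; group
          exact (mul_inv_eq_iff_eq_mul.1 f3).symm
        rw [hN1, mem_bot, mul_inv_eq_one, mul_inv_eq_iff_eq_mul] at h3
        exact h3
      apply hBtop
      rw [eq_top_iff]
      -- the quotient by `Z` is abelian
      have hle : (⊤ : Subgroup H) ≤ B := by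
        rw [← hG1]
        refine sup_le ?_ hAB
        intro y hy
        rw [hB]
        -- `[y, h] ∈ Z` for all `h`
        let S : Subgroup H :=
          { carrier := {h | y * h * y⁻¹ * h⁻¹ ∈ Z}
            mul_mem' := by
              intro a b ha hb
              have ha' : y * a * y⁻¹ * a⁻¹ ∈ Z := ha
              have hb' : y * b * y⁻¹ * b⁻¹ ∈ Z := hb
              show y * (a * b) * y⁻¹ * (a * b)⁻¹ ∈ Z
              have e : y * (a * b) * y⁻¹ * (a * b)⁻¹
                  = (y * a * y⁻¹ * a⁻¹) * (a * (y * b * y⁻¹ * b⁻¹) * a⁻¹) := by group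
              rw [e]
              exact mul_mem ha' ((inferInstance : Z.Normal).conj_mem _ hb' a)
            one_mem' := by
              show y * 1 * y⁻¹ * 1⁻¹ ∈ Z
              have e : y * 1 * y⁻¹ * 1⁻¹ = 1 := by group
              rw [e]; exact one_mem _
            inv_mem' := by
              intro a ha
              have ha' : y * a * y⁻¹ * a⁻¹ ∈ Z := ha
              show y * a⁻¹ * y⁻¹ * a⁻¹⁻¹ ∈ Z
              have e : y * a⁻¹ * y⁻¹ * a⁻¹⁻¹ = a⁻¹ * (y * a * y⁻¹ * a⁻¹)⁻¹ * a⁻¹⁻¹ := by group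
              rw [e]
              exact (inferInstance : Z.Normal).conj_mem _ (inv_mem ha') a⁻¹ }
        have hS : (⊤ : Subgroup H) ≤ S := by
          rw [← hG1]
          refine sup_le ?_ ?_
          · intro b hb
            show y * b * y⁻¹ * b⁻¹ ∈ Z
            rw [hYab y hy b hb]
            have e : b * y * y⁻¹ * b⁻¹ = 1 := by group
            rw [e]; exact one_mem _
          · intro a ha
            show y * a * y⁻¹ * a⁻¹ ∈ Z
            have e : y * a * y⁻¹ * a⁻¹ = (a * y * a⁻¹ * y⁻¹)⁻¹ := by group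
            rw [e]; exact inv_mem (hcen a ha y)
        intro h
        exact hS (mem_top h)
      exact hle
    · -- induction applies to `Y A`
      apply hYA
      intro y hy
      rw [mem_centralizer_iff]
      intro a ha
      set K : Subgroup H := Y ⊔ A with hK
      have hKi : Inv x K := hYi.sup hAi
      have h1 : y ∈ DD x K := DD_mono le_sup_left (by rw [hYDD]; exact hy)
      have h2 : a ∈ DD x K := DD_mono (le_sup_right : A ≤ K) (by rw [hADD]; exact ha)
      have h3 : a * y * a⁻¹ * y⁻¹ ∈ DD x K :=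
        mul_mem (mul_mem (mul_mem h2 h1) (inv_mem h2)) (inv_mem h1)
      have h4 := hcen a ha y
      have h5 := hWZ' _ (C.ih1 K hKi hG1 ⟨h3, hZF h4⟩) h4
      rwa [mul_inv_eq_one, mul_inv_eq_iff_eq_mul] at h5

end Ctx

end Cfsg.Agent.H456
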