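import Cfsg.Agent.H456.CoprimeEnd3

/-!
# `C_{[H, x]}(x)` is generated by the `C_{[h, x]}(x)`: an invariant normal subgroup in `C_H(x)`
-/

set_option autoImplicit false

namespace Cfsg.Agent.H456

open Subgroup

open scoped commutatorElement

variable {H : Type*} [Group H]

/-- Elements of `N ⊔ K` when `K` normalizes `N`. -/
theorem mem_sup_of_normalizes {N K : Subgroup H} (h : ∀ k ∈ K, ∀ n ∈ N, k * n * k⁻¹ ∈ N) {g : H}
    (hg : g ∈ N ⊔ K) : ∃ n ∈ N, ∃ k ∈ K, g = n * k := by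
  let S : Subgroup H :=
    { carrier := {g | ∃ n ∈ N, ∃ k ∈ K, g = n * k}
      mul_mem' := by
        rintro a b ⟨n, hn, k, hk, rfl⟩ ⟨n', hn', k', hk', rfl⟩
        exact ⟨n * (k * n' * k⁻¹), mul_mem hn (h k hk n' hn'), k * k', mul_mem hk hk', by group⟩
      one_mem' := ⟨1, one_mem _, 1, one_mem _, by simp⟩
      inv_mem' := by
        rintro a ⟨n, hn, k, hk, rfl⟩
        refine ⟨k⁻¹ * n⁻¹ * k⁻¹⁻¹, h _ (inv_mem hk) _ (inv_mem hn), k⁻¹, inv_mem hk, by group⟩ }
  have hS : N ⊔ K ≤ S := by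
    refine sup_le ?_ ?_
    · intro n hn; exact ⟨n, hn, 1, one_mem _, by simp⟩
    · intro k hk; exact ⟨1, one_mem _, k, hk, by simp⟩
  exact hS hg

/-- A normal `t`-subgroup is contained in every Sylow `t`-subgroup. -/
theorem le_sylow_of_normal [Finite H] {t : ℕ} [Fact t.Prime] {V : Subgroup H} (hV : V.Normal)
    (hVt : IsPGroup t V) (T : Sylow t H) : V ≤ (T : Subgroup H) := by
  obtain ⟨S, hS⟩ := hVt.exists_le_sylow
  obtain ⟨g, hg⟩ := MulAction.exists_smul_eq H S T
  intro v hv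
  have h1 : g⁻¹ * v * g⁻¹⁻¹ ∈ V := hV.conj_mem v hv g⁻¹
  have h2 : g⁻¹ * v * g⁻¹⁻¹ ∈ (S : Subgroup H) := hS h1
  have h3 : (MulAut.conj g) (g⁻¹ * v * g⁻¹⁻¹) ∈ (g • S : Sylow t H) := ⟨_, h2, rfl⟩
  rw [hg] at h3
  have h4 : (MulAut.conj g) (g⁻¹ * v * g⁻¹⁻¹) = v := by rw [MulAut.conj_apply]; group
  rw [h4] at h3
  exact h3

namespace Ctx

variable {p : ℕ} {x : Monoid.End H} (C : Ctx p x) [Finite H] [hp : Fact p.Prime]
include C

/-- `H / H'` has no fixed points, so central fixed elements lie in `H'`. -/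
theorem mem_commutator_of_fixed {v : H} (hv : x v = v) : v ∈ _root_.commutator H := by
  set N : Subgroup H := _root_.commutator H with hN
  have hNi : Inv x N := by
    have : N ≤ N.comap (x : H →* H) := by
      rw [hN, _root_.commutator_def, Subgroup.commutator_le]
      intro a _ b _
      show x ⁅a, b⁆ ∈ ⁅(⊤ : Subgroup H), (⊤ : Subgroup H)⁆
      rw [map_commutatorElement]
      exact Subgroup.commutator_mem_commutator (H₁ := (⊤ : Subgroup H)) (H₂ := (⊤ : Subgroup H))
        (mem_top _) (mem_top _)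
    exact this
  have h1 : DD (quo x N hNi) ⊤ = ⊤ := by
    rw [← map_DD_quo x N hNi, C.htop, ← MonoidHom.range_eq_map, QuotientGroup.range_mk']
  have hcomm : ∀ a ∈ (⊤ : Subgroup (H ⧸ N)), ∀ b ∈ (⊤ : Subgroup (H ⧸ N)), a * b = b * a := by
    intro a _ b _
    obtain ⟨a, rfl⟩ := QuotientGroup.mk_surjective a
    obtain ⟨b, rfl⟩ := QuotientGroup.mk_surjective b
    rw [← QuotientGroup.mk_mul, ← QuotientGroup.mk_mul, QuotientGroup.eq]
    have e : (a * b)⁻¹ * (b * a) = ⁅b⁻¹, a⁻¹⁆ := by rw [commutatorElement_def]; group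
    rw [e, hN, _root_.commutator_def]
    exact Subgroup.commutator_mem_commutator (mem_top _) (mem_top _)
  have hpq : ¬ p ∣ Nat.card (⊤ : Subgroup (H ⧸ N)) := by
    intro h2
    exact C.hpH ((h2.trans (Subgroup.card_subgroup_dvd_card _)).trans
      (Subgroup.card_quotient_dvd_card N))
  have h2 : (v : H ⧸ N) = 1 := by
    refine DD_inf_Fx_of_comm (x := quo x N hNi) (quo_pow_eq_one x N hNi C.hx) hpq (inv_top _)
      hcomm (by rw [h1]; exact mem_top _) ?_
    rw [quo_mk, hv]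
  exact (QuotientGroup.eq_one_iff v).1 h2

/-- The case of an invariant normal subgroup contained in `C_H(x)`. -/
theorem central_case (hodd : p ≠ 2) {V : Subgroup H} (hV : V.Normal) (hV1 : V ≠ ⊥)
    (hVF : V ≤ Fx x) : Fx x ≤ WW x ⊤ := by
  classical
  by_contra hne
  have hx := C.hx
  have hpH := C.hpH
  -- an element of prime order
  obtain ⟨t, ht, v, hv, hvo⟩ : ∃ t : ℕ, t.Prime ∧ ∃ v ∈ V, orderOf v = t := by
    have h1 : Nat.card V ≠ 1 := by
      intro h2; exact hV1 (Subgroup.card_eq_one.1 h2)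
    obtain ⟨t, ht, htd⟩ := Nat.exists_prime_and_dvd h1
    have := Fact.mk ht
    obtain ⟨v, hv⟩ := exists_prime_orderOf_dvd_card' (G := V) t htd
    exact ⟨t, ht, v, v.2, by rw [Subgroup.orderOf_coe, hv]⟩
  have : Fact t.Prime := ⟨ht⟩
  have hvc : ∀ g : H, v * g = g * v := fun g => C.central_of_le_Fx hVF hv g
  have hvx : x v = v := hVF hv
  have hv1 : v ≠ 1 := by
    intro h; rw [h, orderOf_one] at hvo; exact ht.one_lt.ne hvo
  have hZn : (zpowers v).Normal := by
    constructor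
    rintro _ ⟨k, rfl⟩ g
    refine ⟨k, ?_⟩
    have h1 : Commute g v := (hvc g).symm
    have h2 := (h1.zpow_right k).eq
    show v ^ k = g * v ^ k * g⁻¹
    rw [h2]; group
  have hZi : Inv x (zpowers v) := by
    rintro _ ⟨k, rfl⟩
    exact ⟨k, by show v ^ k = x (v ^ k); rw [map_zpow, hvx]⟩
  have hZ1 : zpowers v ≠ ⊥ := by
    intro h; exact hv1 (zpowers_eq_bot.1 h)
  have hFle := C.ih2 _ hZn hZi hZ1
  have hvW : v ∉ WW x ⊤ := by
    intro h
    apply hne
    refine hFle.trans (sup_le le_rfl ?_)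
    rwa [zpowers_le]
  obtain ⟨T, hTi⟩ := exists_inv_sylow hpH hx t
  by_cases hTtop : (T : Subgroup H) = ⊤
  · have hH : IsPGroup t H := by
      have h1 := T.2
      have h2 : IsPGroup t (⊤ : Subgroup H) := by rw [← hTtop]; exact h1
      exact h2.of_equiv Subgroup.topEquiv
    exact hne (C.pgroup_case hodd hH)
  · have hvt : v ^ t = 1 := by rw [← hvo]; exact pow_orderOf_eq_one v
    have hZt : IsPGroup t (zpowers v) := by
      rw [IsPGroup.iff_card]
      exact ⟨1, by rw [Nat.card_zpowers, hvo, pow_one]⟩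
    have hvT : v ∈ (T : Subgroup H) := le_sylow_of_normal hZn hZt T (mem_zpowers v)
    set T0 : Subgroup H := DD x T ⊔ (WW x ⊤ ⊓ T) with hT0
    have hvT0 : v ∉ T0 := by
      intro h
      obtain ⟨d, hd, w, hw, e⟩ := mem_sup_of_normalizes
        (fun k hk n hn => conj_mem_DD' (Subgroup.mem_inf.1 hk).2 hn) h
      have h1 : d ∈ Fx x := by
        have : d = v * w⁻¹ := by rw [e]; group
        rw [this]
        exact mul_mem hvx (inv_mem (WW_le_Fx x ⊤ hw.1))
      have h2 := C.ih1 _ hTi hTtop ⟨hd, h1⟩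
      apply hvW
      rw [e]; exact mul_mem h2 hw.1
    have hTdec : ∀ τ ∈ (T : Subgroup H), ∃ s ∈ T0, ∃ k : ℤ, τ = s * v ^ k := by
      intro τ hτ
      obtain ⟨c, hc, d, hd, rfl⟩ := exists_fixed_mul hpH hx hTi hτ
      have h1 := hFle hc.2
      rw [← SetLike.mem_coe, Subgroup.mul_normal] at h1
      obtain ⟨w, hw, _, ⟨k, rfl⟩, rfl⟩ := h1
      have hwT : w ∈ (T : Subgroup H) := by
        have h2 : w * v ^ k * (v ^ k)⁻¹ ∈ (T : Subgroup H) :=
          mul_mem hc.1 (inv_mem (zpow_mem hvT k))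
        simpa using h2
      refine ⟨w * d, mul_mem ((le_sup_right : _ ≤ T0) ⟨hw, hwT⟩) ((le_sup_left : _ ≤ T0) hd), k, ?_⟩
      have h1 : Commute d v := (hvc d).symm
      have h2 := (h1.zpow_right k).eq
      show w * v ^ k * d = w * d * v ^ k
      rw [mul_assoc, ← h2, mul_assoc]
    have hcomT : ⁅(T : Subgroup H), (T : Subgroup H)⁆ ≤ T0 := by
      rw [Subgroup.commutator_le]
      intro a ha b hb
      obtain ⟨s, hs, k, rfl⟩ := hTdec a ha
      obtain ⟨s', hs', l, rfl⟩ := hTdec b hb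
      have c1 : ∀ g, ∀ m : ℤ, g * v ^ m = v ^ m * g := by
        intro g m
        have h1 : Commute g v := (hvc g).symm
        exact (h1.zpow_right m).eq
      have e : ⁅s * v ^ k, s' * v ^ l⁆ = ⁅s, s'⁆ := by
        rw [commutatorElement_def, commutatorElement_def]
        calc s * v ^ k * (s' * v ^ l) * (s * v ^ k)⁻¹ * (s' * v ^ l)⁻¹
            = s * v ^ k * (s' * v ^ l) * (v ^ k)⁻¹ * s⁻¹ * (v ^ l)⁻¹ * s'⁻¹ := by group
          _ = s * s' * s⁻¹ * s'⁻¹ := by
              have e1 : (v ^ k)⁻¹ = v ^ (-k) := (zpow_neg v k).symm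
              have e2 : (v ^ l)⁻¹ = v ^ (-l) := (zpow_neg v l).symm
              rw [e1, e2, c1 s' l, c1 s k]
              calc v ^ k * s * (v ^ l * s') * v ^ (-k) * s⁻¹ * v ^ (-l) * s'⁻¹
                  = v ^ k * (s * v ^ l) * (s' * v ^ (-k)) * (s⁻¹ * v ^ (-l)) * s'⁻¹ := by group
                _ = v ^ k * (v ^ l * s) * (v ^ (-k) * s') * (v ^ (-l) * s⁻¹) * s'⁻¹ := by
                    rw [c1 s l, c1 s' (-k), c1 s⁻¹ (-l)]
                _ = v ^ k * v ^ l * (s * v ^ (-k)) * (s' * v ^ (-l)) * s⁻¹ * s'⁻¹ := by group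
                _ = v ^ k * v ^ l * (v ^ (-k) * s) * (v ^ (-l) * s') * s⁻¹ * s'⁻¹ := by
                    rw [c1 s (-k), c1 s' (-l)]
                _ = v ^ k * v ^ l * v ^ (-k) * (s * v ^ (-l)) * s' * s⁻¹ * s'⁻¹ := by group
                _ = v ^ k * v ^ l * v ^ (-k) * (v ^ (-l) * s) * s' * s⁻¹ * s'⁻¹ := by
                    rw [c1 s (-l)]
                _ = s * s' * s⁻¹ * s'⁻¹ := by group
      rw [e, commutatorElement_def]
      exact mul_mem (mul_mem (mul_mem hs hs') (inv_mem hs)) (inv_mem hs')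
    -- transfer
    have h1 : v ∈ _root_.commutator H := C.mem_commutator_of_fixed hvx
    let ϕ : (T : Subgroup H) →* Abelianization (T : Subgroup H) := Abelianization.of
    have h2 : MonoidHom.transfer ϕ v = 1 := Abelianization.commutator_subset_ker _ h1
    have key : ∀ (k : ℕ) (g₀ : H), g₀⁻¹ * v ^ k * g₀ ∈ (T : Subgroup H) →
        g₀⁻¹ * v ^ k * g₀ = v ^ k := by
      intro k g₀ _
      have h1 : Commute g₀ v := (hvc g₀).symm
      have h3 := (h1.pow_right k).eq
      rw [mul_assoc, ← h3]; group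
    rw [MonoidHom.transfer_eq_pow ϕ v key] at h2
    have h3 : (⟨v ^ (T : Subgroup H).index, MonoidHom.transfer_eq_pow_aux v key⟩ : (T : Subgroup H))
        ∈ _root_.commutator (T : Subgroup H) := by
      rw [← Abelianization.ker_of]
      exact h2
    have h4 : v ^ (T : Subgroup H).index ∈ ⁅(T : Subgroup H), (T : Subgroup H)⁆ := by
      rw [← Subgroup.map_subtype_commutator]
      exact ⟨_, h3, rfl⟩
    have h5 : v ^ (T : Subgroup H).index ∈ T0 := hcomT h4
    -- the index is prime to `t`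
    have h6 : ¬ t ∣ (T : Subgroup H).index := Sylow.not_dvd_index T
    have h7 : (orderOf v).Coprime (T : Subgroup H).index := by
      rw [hvo]; exact (Nat.Prime.coprime_iff_not_dvd ht).2 h6
    apply hvT0
    have h8 : v ∈ zpowers (v ^ (T : Subgroup H).index) := by
      obtain ⟨m, hm⟩ := exists_pow_eq_self_of_coprime h7.symm
      exact ⟨m, by show (v ^ (T : Subgroup H).index) ^ (m : ℤ) = v; rw [zpow_natCast]; exact hm⟩
    exact (zpowers_le.2 h5) h8

end Ctx

end Cfsg.Agent.H456
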