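import Cfsg.Agent.H456.CoprimeEnd4

/-!
# `C_{[H, x]}(x)` is generated by the `C_{[h, x]}(x)`: the main case
-/

set_option autoImplicit false

namespace Cfsg.Agent.H456

open Subgroup

open scoped commutatorElement

variable {H : Type*} [Group H]

/-- If a Sylow subgroup for each prime lies in `K` then `K = H`. -/
theorem eq_top_of_sylow_le [Finite H] {K : Subgroup H}
    (h : ∀ u : ℕ, ∀ _ : Fact u.Prime, ∃ S : Sylow u H, (S : Subgroup H) ≤ K) : K = ⊤ := by
  rw [← Subgroup.index_eq_one]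
  by_contra h1
  obtain ⟨u, hu, hud⟩ := Nat.exists_prime_and_dvd h1
  have hu' : Fact u.Prime := ⟨hu⟩
  obtain ⟨S, hS⟩ := h u hu'
  have h2 : K.index ∣ (S : Subgroup H).index := Subgroup.index_dvd_of_le hS
  exact Sylow.not_dvd_index S (hud.trans h2)

theorem sq_fixed {p : ℕ} [hp : Fact p.Prime] (hodd : p ≠ 2) {x : Monoid.End H} (hx : x ^ p = 1)
    {h : H} (hh : (x ^ 2) h = h) : x h = h := by
  obtain ⟨m, hm⟩ := hp.out.odd_of_ne_two hodd
  have h1 : ∀ n : ℕ, (x ^ (2 * n)) h = h := by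
    intro n
    induction n with
    | zero => rw [mul_zero, pow_zero_apply]
    | succ n ih => rw [show 2 * (n + 1) = 2 + 2 * n by ring, pow_add_apply, ih, hh]
  have h2 := h1 (m + 1)
  rw [show 2 * (m + 1) = 1 + p by omega, pow_add_apply, hx, pow_one_apply] at h2
  exact h2

theorem comm_identity {a1 a2 b1 b2 : H} (h2 : a1 * b1 * (a2 * b2) = a2 * b2 * (a1 * b1))
    (h3 : b1 * b2 = b2 * b1) : a1 * (b1 * a2 * b1⁻¹) = a2 * (b2 * a1 * b2⁻¹) := by
  have e : b1 * (b2⁻¹ * b1⁻¹) = b2⁻¹ := by rw [← mul_inv_rev, h3]; group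
  calc a1 * (b1 * a2 * b1⁻¹) = (a1 * b1 * (a2 * b2)) * (b2⁻¹ * b1⁻¹) := by group
    _ = (a2 * b2 * (a1 * b1)) * (b2⁻¹ * b1⁻¹) := by rw [h2]
    _ = a2 * (b2 * a1 * (b1 * (b2⁻¹ * b1⁻¹))) := by group
    _ = a2 * (b2 * a1 * b2⁻¹) := by rw [e]

/-- The invariance of commutator subgroups. -/
theorem Inv.commutator {x : Monoid.End H} {K L : Subgroup H} (hK : Inv x K) (hL : Inv x L) :
    Inv x ⁅K, L⁆ := by
  rw [inv_iff_le_comap, Subgroup.commutator_le]
  intro a ha b hb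
  show x ⁅a, b⁆ ∈ ⁅K, L⁆
  rw [map_commutatorElement]
  exact Subgroup.commutator_mem_commutator (hK a ha) (hL b hb)

namespace Ctx

variable {p : ℕ} {x : Monoid.End H} (C : Ctx p x) [Finite H] [hp : Fact p.Prime]
include C

theorem main_case (hodd : p ≠ 2) {V : Subgroup H} (hVn : V.Normal) (hVi : Inv x V) (hV1 : V ≠ ⊥)
    (hmin : ∀ N : Subgroup H, N.Normal → Inv x N → N ≤ V → N = ⊥ ∨ N = V)
    (hcomm : ∀ a ∈ V, ∀ b ∈ V, a * b = b * a) {t : ℕ} [ht : Fact t.Prime]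
    (hexp : ∀ v ∈ V, v ^ t = 1) : Fx x ≤ WW x ⊤ := by
  classical
  by_contra hne
  have hx := C.hx
  have hpH := C.hpH
  have hppos := hp.out.pos
  -- `V` is not in `C_H(x)`, and not central
  have hVF : ¬ V ≤ Fx x := fun h => hne (C.central_case hodd hVn hV1 h)
  have hVZ : ¬ ∀ v ∈ V, ∀ g : H, v * g = g * v := by
    intro hc
    have hn : (V ⊓ Fx x).Normal := by
      constructor
      intro n hn g
      rw [← hc n hn.1 g]; simpa using hn
    rcases hmin _ hn (hVi.inf (inv_Fx x)) inf_le_left with h | h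
    · exact hne (C.Fx_le_of_inf_le hVn hVi hV1 (by rw [h]; exact bot_le))
    · exact hVF (inf_eq_left.1 h)
  have hnot : ¬ V ⊓ Fx x ≤ WW x ⊤ := fun h => hne (C.Fx_le_of_inf_le hVn hVi hV1 h)
  -- surjectivity on invariant subgroups
  have hsurj : ∀ K : Subgroup H, Inv x K → ∀ k ∈ K, ∃ k' ∈ K, x k' = k := by
    intro K hK k hk
    refine ⟨(x ^ (p - 1)) k, hK.pow _ hk, ?_⟩
    rw [← pow_succ_apply, Nat.sub_add_cancel hppos, hx]; rfl
  set E : Subgroup H := (WW x ⊤ ⊓ V) ⊔ DD x V with hE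
  have hEV : E ≤ V := sup_le inf_le_right (DD_le_self hVi)
  have hVE : ¬ V ≤ E := by
    intro h
    apply hnot
    refine (inf_Fx_le_of_le_sup hx (not_dvd_of_le hpH) hVi hcomm
      (inf_le_left.trans (WW_le_Fx x ⊤)) inf_le_right h).trans inf_le_left
  -- the subgroup acting trivially on `V / E`
  let GG : Subgroup H :=
    { carrier := {h | (∀ v ∈ V, v * h * v⁻¹ * h⁻¹ ∈ E) ∧ (∀ v ∈ V, v * h⁻¹ * v⁻¹ * h ∈ E)}
      mul_mem' := by
        rintro a b ⟨ha1, ha2⟩ ⟨hb1, hb2⟩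
        refine ⟨fun v hv => ?_, fun v hv => ?_⟩
        · have e : v * (a * b) * v⁻¹ * (a * b)⁻¹
              = (v * a * v⁻¹ * a⁻¹) * (a * (v * b * v⁻¹ * b⁻¹) * a⁻¹) := by group
          rw [e]
          refine mul_mem (ha1 v hv) ?_
          have h1 := hb1 v hv
          have h2 := ha1 _ (inv_mem (hEV h1))
          have e2 : a * (v * b * v⁻¹ * b⁻¹) * a⁻¹
              = (v * b * v⁻¹ * b⁻¹) * ((v * b * v⁻¹ * b⁻¹)⁻¹ * a * (v * b * v⁻¹ * b⁻¹)⁻¹⁻¹ * a⁻¹) := by
            group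
          rw [e2]
          exact mul_mem h1 h2
        · have e : v * (a * b)⁻¹ * v⁻¹ * (a * b)
              = (v * b⁻¹ * v⁻¹ * b) * (b⁻¹ * (v * a⁻¹ * v⁻¹ * a) * b) := by group
          rw [e]
          refine mul_mem (hb2 v hv) ?_
          have h1 := ha2 v hv
          have h2 := hb2 _ (inv_mem (hEV h1))
          have e2 : b⁻¹ * (v * a⁻¹ * v⁻¹ * a) * b
              = (v * a⁻¹ * v⁻¹ * a) * ((v * a⁻¹ * v⁻¹ * a)⁻¹ * b⁻¹ * (v * a⁻¹ * v⁻¹ * a)⁻¹⁻¹ * b) := by
            group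
          rw [e2]
          exact mul_mem h1 h2
      one_mem' := by
        refine ⟨fun v _ => ?_, fun v _ => ?_⟩
        · have e : v * 1 * v⁻¹ * 1⁻¹ = 1 := by group
          rw [e]; exact one_mem _
        · have e : v * 1⁻¹ * v⁻¹ * 1 = 1 := by group
          rw [e]; exact one_mem _
      inv_mem' := by
        rintro a ⟨ha1, ha2⟩
        refine ⟨fun v hv => ?_, fun v hv => ?_⟩
        · have := ha2 v hv
          rwa [inv_inv]
        · have := ha1 v hv
          rwa [inv_inv] }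
  have hleGG : ∀ R : Subgroup H, (∀ r ∈ R, ∀ v ∈ V, v * r * v⁻¹ * r⁻¹ ∈ E) → R ≤ GG := by
    intro R hR r hr
    refine ⟨fun v hv => hR r hr v hv, fun v hv => ?_⟩
    have := hR r⁻¹ (inv_mem hr) v hv
    rwa [inv_inv] at this
  have hVGG : V ≤ GG := by
    refine hleGG V fun r hr v hv => ?_
    rw [hcomm v hv r hr]
    have e : r * v * v⁻¹ * r⁻¹ = 1 := by group
    rw [e]; exact one_mem _
  have hWGG : WW x ⊤ ≤ GG := by
    refine hleGG _ fun w hw v hv => ?_
    obtain ⟨c, hc, d, hd, rfl⟩ := exists_fixed_mul hpH hx hVi hv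
    have hwx : x w = w := WW_le_Fx x ⊤ hw
    have hcx : x c = c := hc.2
    have h1 : w * d⁻¹ * w⁻¹ ∈ DD x V :=
      conj_mem_DD_of_fixed hwx (fun k hk => hVn.conj_mem k hk w) (inv_mem hd)
    have h2 : c * w * c⁻¹ * w⁻¹ ∈ WW x ⊤ ⊓ V := by
      refine Subgroup.mem_inf.2 ⟨mul_mem (conj_mem_WW hcx hw) (inv_mem hw), ?_⟩
      have e : c * w * c⁻¹ * w⁻¹ = c * (w * c⁻¹ * w⁻¹) := by group
      rw [e]
      exact mul_mem hc.1 (hVn.conj_mem _ (inv_mem hc.1) w)
    have h3 : d * (w * d⁻¹ * w⁻¹) ∈ DD x V := mul_mem hd h1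
    have h4 : c * (d * (w * d⁻¹ * w⁻¹)) = (d * (w * d⁻¹ * w⁻¹)) * c :=
      hcomm c hc.1 _ (DD_le_self hVi h3)
    have e : c * d * w * (c * d)⁻¹ * w⁻¹
        = c * (d * (w * d⁻¹ * w⁻¹)) * c⁻¹ * (c * w * c⁻¹ * w⁻¹) := by group
    have e2 : c * (d * (w * d⁻¹ * w⁻¹)) * c⁻¹ = d * (w * d⁻¹ * w⁻¹) := by rw [h4]; group
    rw [e, e2]
    exact mul_mem ((le_sup_right : _ ≤ E) h3) ((le_sup_left : _ ≤ E) h2)
  have hFGG : Fx x ≤ GG := (C.ih2 V hVn hVi hV1).trans (sup_le hWGG hVGG)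
  have hGGtop : GG ≠ ⊤ := by
    intro htop
    apply hVE
    have h1 : ⁅V, (⊤ : Subgroup H)⁆ ≤ E := by
      rw [Subgroup.commutator_le]
      intro v hv g _
      have : g ∈ GG := by rw [htop]; exact mem_top g
      have := this.1 v hv
      rwa [← commutatorElement_def] at this
    have h2 : ⁅V, (⊤ : Subgroup H)⁆.Normal := inferInstance
    have h3 : Inv x ⁅V, (⊤ : Subgroup H)⁆ := hVi.commutator (inv_top x)
    have h4 : ⁅V, (⊤ : Subgroup H)⁆ ≤ V := h1.trans hEV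
    rcases hmin _ h2 h3 h4 with h5 | h5
    · exfalso
      apply hVZ
      intro v hv g
      have h6 : ⁅v, g⁆ ∈ ⁅V, (⊤ : Subgroup H)⁆ :=
        Subgroup.commutator_mem_commutator hv (mem_top g)
      rw [h5, mem_bot, commutatorElement_eq_one_iff_mul_comm] at h6
      exact h6
    · rw [← h5]; exact h1
  -- good subgroups
  have hgood : ∀ R : Subgroup H, Inv x R → V ⊔ R ≠ ⊤ → DD x R ≤ GG := by
    intro R hR hVR
    set K : Subgroup H := V ⊔ R with hK
    have hKi : Inv x K := hVi.sup hR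
    have hRK : DD x R ≤ DD x K := DD_mono le_sup_right
    refine hleGG _ fun r hr v hv => ?_
    have h1 : v * r * v⁻¹ * r⁻¹ ∈ DD x K :=
      mul_mem (conj_mem_DD' ((le_sup_left : V ≤ K) hv) (hRK hr)) (inv_mem (hRK hr))
    have h2 : v * r * v⁻¹ * r⁻¹ ∈ V := by
      have e : v * r * v⁻¹ * r⁻¹ = v * (r * v⁻¹ * r⁻¹) := by group
      rw [e]; exact mul_mem hv (hVn.conj_mem _ (inv_mem hv) r)
    have hUi : Inv x (DD x K ⊓ V) := (inv_DD x K).inf hVi
    obtain ⟨c, hc, d, hd, e⟩ := exists_fixed_mul hpH hx hUi (Subgroup.mem_inf.2 ⟨h1, h2⟩)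
    rw [e]
    have hc1 := (Subgroup.mem_inf.1 hc.1)
    have h3 : c ∈ WW x ⊤ ⊓ V := Subgroup.mem_inf.2 ⟨C.ih1 K hKi hVR ⟨hc1.1, hc.2⟩, hc1.2⟩
    have h4 : d ∈ DD x V := DD_mono inf_le_right hd
    exact mul_mem ((le_sup_left : _ ≤ E) h3) ((le_sup_right : _ ≤ E) h4)
  have hgood' : ∀ R : Subgroup H, Inv x R → V ⊔ R ≠ ⊤ → R ≤ GG := by
    intro R hR hVR r hr
    obtain ⟨c, hc, d, hd, rfl⟩ := exists_fixed_mul hpH hx hR hr
    exact mul_mem (hFGG hc.2) (hgood R hR hVR hd)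
  -- the exceptional Sylow subgroup
  obtain ⟨u, hu, Q', hQi', hVQ'⟩ : ∃ u : ℕ, ∃ _ : Fact u.Prime, ∃ Q : Sylow u H,
      Inv x (Q : Subgroup H) ∧ V ⊔ (Q : Subgroup H) = ⊤ := by
    by_contra hno
    push Not at hno
    apply hGGtop
    apply eq_top_of_sylow_le
    intro u hu
    obtain ⟨S, hS⟩ := exists_inv_sylow hpH hx u
    exact ⟨S, hgood' _ hS (hno u hu S hS)⟩
  have hVt : IsPGroup t V := by
    intro v
    exact ⟨1, by rw [pow_one]; exact Subtype.ext (hexp v v.2)⟩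
  have hut : u ≠ t := by
    rintro rfl
    have h1 : V ≤ (Q' : Subgroup H) := le_sylow_of_normal hVn hVt Q'
    rw [sup_eq_right.2 h1] at hVQ'
    have hH : IsPGroup u H := by
      have h1 := Q'.2
      have h2 : IsPGroup u (⊤ : Subgroup H) := by rw [← hVQ']; exact h1
      exact h2.of_equiv Subgroup.topEquiv
    exact hne (C.pgroup_case hodd hH)
  have hQu : IsPGroup u (Q' : Subgroup H) := Q'.2
  generalize (Q' : Subgroup H) = Q at hQi' hVQ' hQu
  have hQi := hQi'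
  have hVQ := hVQ'
  have hcop : ∀ q ∈ Q, (orderOf q).Coprime t := by
    intro q hq
    obtain ⟨k, hk⟩ := (IsPGroup.iff_orderOf.1 hQu) ⟨q, hq⟩
    rw [Subgroup.orderOf_mk] at hk
    rw [hk]
    exact Nat.Coprime.pow_left k ((Nat.coprime_primes hu.out ht.out).2 hut)
  have hVinfQ : ∀ g, g ∈ V → g ∈ Q → g = 1 := by
    intro g hg hq
    have h1 := orderOf_dvd_of_pow_eq_one (hexp g hg)
    have h2 := hcop g hq
    exact orderOf_eq_one_iff.1 (Nat.Coprime.eq_one_of_dvd h2 h1)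
  have hdec : ∀ g : H, ∃ v ∈ V, ∃ q ∈ Q, g = v * q := by
    intro g
    have : g ∈ V ⊔ Q := by rw [hVQ]; exact mem_top g
    exact mem_sup_of_normalizes (fun k _ n hn => hVn.conj_mem n hn k) this
  -- normality criterion
  have hnormal : ∀ N : Subgroup H, (∀ v ∈ V, ∀ n ∈ N, v * n * v⁻¹ ∈ N) →
      (∀ q ∈ Q, ∀ n ∈ N, q * n * q⁻¹ ∈ N) → N.Normal := by
    intro N h1 h2
    constructor
    intro n hn g
    obtain ⟨v, hv, q, hq, rfl⟩ := hdec g
    have e : v * q * n * (v * q)⁻¹ = v * (q * n * q⁻¹) * v⁻¹ := by group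
    rw [e]
    exact h1 v hv _ (h2 q hq n hn)
  -- `Q` acts faithfully on `V`
  have hfaith : Q ⊓ centralizer (V : Set H) = ⊥ := by
    by_contra h0
    have hci : Inv x (Q ⊓ centralizer (V : Set H)) := by
      refine hQi.inf ?_
      intro c hc
      rw [mem_centralizer_iff] at hc ⊢
      intro v hv
      obtain ⟨v', hv', rfl⟩ := hsurj V hVi v hv
      rw [← map_mul, hc v' hv', map_mul]
    have hcn : (Q ⊓ centralizer (V : Set H)).Normal := by
      refine hnormal _ ?_ ?_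
      · intro v hv n hn
        have h1 := mem_centralizer_iff.1 (Subgroup.mem_inf.1 hn).2 v hv
        rw [h1]; simpa using hn
      · intro q hq n hn
        have hn' := Subgroup.mem_inf.1 hn
        refine Subgroup.mem_inf.2 ⟨mul_mem (mul_mem hq hn'.1) (inv_mem hq), ?_⟩
        rw [mem_centralizer_iff]
        intro v hv
        have h1 := mem_centralizer_iff.1 hn'.2 (q⁻¹ * v * q) (by
          have := hVn.conj_mem v hv q⁻¹
          rwa [inv_inv] at this)
        calc v * (q * n * q⁻¹) = q * ((q⁻¹ * v * q) * n) * q⁻¹ := by group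
          _ = q * (n * (q⁻¹ * v * q)) * q⁻¹ := by rw [h1]
          _ = q * n * q⁻¹ * v := by group
    apply hnot
    rintro v ⟨hv, hvx⟩
    obtain ⟨w, hw, q, hq, e⟩ := C.exists_decomp hcn hci h0 hvx
    have hq' := Subgroup.mem_inf.1 hq
    have hq'' := Subgroup.mem_inf.1 hq'.1
    have h1 : v * q = q * v := mem_centralizer_iff.1 hq''.2 v hv
    have h2 : w = v * q⁻¹ := by rw [e]; group
    obtain ⟨n, hn1, hn2⟩ := Nat.chineseRemainder (hcop q hq''.1).symm 1 0
    have h3 : w ^ n = v := by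
      have hc : Commute v q⁻¹ := (show Commute v q from h1).inv_right
      rw [h2, hc.mul_pow]
      have h4 : v ^ n = v := by
        have h5 : n ≡ 1 [MOD orderOf v] := hn1.of_dvd (orderOf_dvd_of_pow_eq_one (hexp v hv))
        have := (pow_eq_pow_iff_modEq (x := v)).2 h5
        rwa [pow_one] at this
      have h6 : q⁻¹ ^ n = 1 := by
        rw [inv_pow, inv_eq_one]
        exact orderOf_dvd_iff_pow_eq_one.1 ((Nat.modEq_zero_iff_dvd).1 hn2)
      rw [h4, h6, mul_one]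
    rw [← h3]
    exact pow_mem hw n
  -- an invariant subgroup of `GG ∩ Q` normal in `Q` is trivial
  have hQtriv : ∀ M : Subgroup H, Inv x M → M ≤ Q → M ≤ GG → (∀ q ∈ Q, ∀ n ∈ M, q * n * q⁻¹ ∈ M) →
      M = ⊥ := by
    intro M hMi hMQ hMG hMn
    by_contra h0
    have h1 : ⁅V, M⁆ ≤ E := by
      rw [Subgroup.commutator_le]
      intro v hv g hg
      have := (hMG hg).1 v hv
      rwa [← commutatorElement_def] at this
    have hn : ⁅V, M⁆.Normal := by
      refine hnormal _ ?_ ?_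
      · intro v hv n hn
        have h2 : n ∈ V := hEV (h1 hn)
        rw [hcomm v hv n h2]; simpa using hn
      · intro q hq n hn
        have : ⁅V, M⁆ ≤ ⁅V, M⁆.comap (MulAut.conj q).toMonoidHom := by
          rw [Subgroup.commutator_le]
          intro v hv m hm
          show (MulAut.conj q).toMonoidHom ⁅v, m⁆ ∈ ⁅V, M⁆
          rw [map_commutatorElement]
          refine Subgroup.commutator_mem_commutator ?_ ?_
          · simpa [MulAut.conj_apply] using hVn.conj_mem v hv q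
          · simpa [MulAut.conj_apply] using hMn q hq m hm
        have := this hn
        simpa [MulAut.conj_apply] using this
    rcases hmin _ hn (hVi.commutator hMi) (h1.trans hEV) with h5 | h5
    · apply h0
      rw [eq_bot_iff, ← hfaith]
      intro m hm
      refine Subgroup.mem_inf.2 ⟨hMQ hm, ?_⟩
      rw [mem_centralizer_iff]
      intro v hv
      have h6 : ⁅v, m⁆ ∈ ⁅V, M⁆ := Subgroup.commutator_mem_commutator hv hm
      rw [h5, mem_bot, commutatorElement_eq_one_iff_mul_comm] at h6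
      exact h6
    · exact hVE (by rw [← h5]; exact h1)
  have hprop : ∀ R : Subgroup H, Inv x R → R ≤ Q → R ≠ Q → R ≤ GG := by
    intro R hR hRQ hne'
    refine hgood' R hR ?_
    intro h1
    apply hne'
    refine le_antisymm hRQ ?_
    intro q hq
    have h2 : q ∈ V ⊔ R := by rw [h1]; exact mem_top q
    obtain ⟨v, hv, r, hr, e⟩ := mem_sup_of_normalizes (fun k _ n hn => hVn.conj_mem n hn k) h2
    have h3 : v = 1 := by
      refine hVinfQ v hv ?_
      have : v = q * r⁻¹ := by rw [e]; group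
      rw [this]; exact mul_mem hq (inv_mem (hRQ hr))
    rw [e, h3, one_mul]; exact hr
  have hQ1 : Q ≠ ⊥ := by
    intro h0
    apply hVZ
    intro v hv g
    obtain ⟨v', hv', q, hq, rfl⟩ := hdec g
    rw [h0, mem_bot] at hq
    rw [hq, mul_one]
    exact hcomm v hv v' hv'
  -- `Q` is abelian
  have hQab : ∀ a ∈ Q, ∀ b ∈ Q, a * b = b * a := by
    have h1 : ⁅Q, Q⁆ ≤ Q := Subgroup.commutator_le_self Q
    have h2 : ⁅Q, Q⁆ ≠ Q := by
      intro h3
      have h4 : Nontrivial Q := (Subgroup.nontrivial_iff_ne_bot Q).2 hQ1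
      have h5 : Group.IsNilpotent Q := hQu.isNilpotent
      have h6 : _root_.commutator Q < ⊤ := Group.IsSolvable.commutator_lt_top_of_nontrivial Q
      apply h6.ne
      have h7 := Subgroup.map_subtype_commutator Q
      rw [h3] at h7
      apply Subgroup.map_injective Q.subtype_injective
      rw [h7, ← MonoidHom.range_eq_map, Subgroup.range_subtype]
    have h3 : ⁅Q, Q⁆ = ⊥ := by
      refine hQtriv _ (hQi.commutator hQi) h1 (hprop _ (hQi.commutator hQi) h1 h2) ?_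
      intro q hq n hn
      have : q * n * q⁻¹ = (q * n * q⁻¹ * n⁻¹) * n := by group
      rw [this, ← commutatorElement_def]
      exact mul_mem (Subgroup.commutator_mem_commutator hq (h1 hn)) hn
    intro a ha b hb
    have h6 : ⁅a, b⁆ ∈ ⁅Q, Q⁆ := Subgroup.commutator_mem_commutator ha hb
    rw [h3, mem_bot, commutatorElement_eq_one_iff_mul_comm] at h6
    exact h6
  have hQirr : ∀ R : Subgroup H, Inv x R → R ≤ Q → R ≠ Q → R = ⊥ := by
    intro R hR hRQ hne'
    refine hQtriv R hR hRQ (hprop R hR hRQ hne') ?_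
    intro q hq n hn
    rw [hQab q hq n (hRQ hn)]; simpa using hn
  have hQF : ∀ q ∈ Q, x q = q → q = 1 := by
    have h1 : Q ⊓ Fx x ≠ Q := by
      intro h2
      have h3 : Q ≤ Fx x := inf_eq_left.1 h2
      apply hVZ
      have h4 : DD x ⊤ ≤ V := by
        refine DD_le fun k _ => cl_le_of_inv hVi ?_
        obtain ⟨v, hv, q, hq, rfl⟩ := hdec k
        have h5 : x q = q := h3 hq
        have e : (v * q)⁻¹ * x (v * q) = q⁻¹ * (v⁻¹ * x v) * q⁻¹⁻¹ := by
          rw [map_mul, h5]; group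
        rw [e]
        exact hVn.conj_mem _ (mul_mem (inv_mem hv) (hVi v hv)) q⁻¹
      rw [C.htop] at h4
      intro v hv g
      exact hcomm v hv g (h4 (mem_top g))
    have h2 := hQirr _ (hQi.inf (inv_Fx x)) inf_le_left h1
    intro q hq hqx
    have h3 : q ∈ Q ⊓ Fx x := Subgroup.mem_inf.2 ⟨hq, hqx⟩
    rwa [h2, mem_bot] at h3
  -- the key commutation
  have hkey : ∀ v ∈ V, ∀ h ∈ Q, ((v * h)⁻¹ * (x ^ 1) (v * h)) * ((v * h)⁻¹ * (x ^ 2) (v * h))
      = ((v * h)⁻¹ * (x ^ 2) (v * h)) * ((v * h)⁻¹ * (x ^ 1) (v * h)) := by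
    intro v hv h hh
    by_cases hh1 : h = 1
    · subst hh1
      simp only [mul_one]
      exact hcomm _ (mul_mem (inv_mem hv) (hVi.pow 1 hv)) _ (mul_mem (inv_mem hv) (hVi.pow 2 hv))
    · set Y : Subgroup H := cl x (v * h) with hY
      have hYi : Inv x Y := inv_cl x _
      have hYtop : Y ≠ ⊤ := by
        intro h1
        apply hne
        intro c hc
        exact inf_le_WW x (mem_top (v * h)) ⟨by rw [← hY, h1]; exact mem_top c, hc⟩
      have hclh : cl x h ≤ Y ⊔ V := by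
        refine cl_le_of_inv (hYi.sup hVi) ?_
        have e : h⁻¹ * x h = (h⁻¹ * (v⁻¹ * x v) * h⁻¹⁻¹)⁻¹ * ((v * h)⁻¹ * x (v * h)) := by
          rw [map_mul]; group
        rw [e]
        exact mul_mem ((le_sup_right : V ≤ Y ⊔ V) (inv_mem
          (hVn.conj_mem _ (mul_mem (inv_mem hv) (hVi v hv)) h⁻¹)))
          ((le_sup_left : Y ≤ Y ⊔ V) (mem_cl_one x (v * h)))
      have hclQ : cl x h = Q := by
        by_contra h2
        have h3 := hQirr _ (inv_cl x h) (cl_le_self hQi hh) h2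
        have h4 := mem_cl_one x h
        rw [h3, mem_bot, inv_mul_eq_one] at h4
        exact hh1 (hQF h hh h4.symm)
      have hYV : Y ⊔ V = ⊤ := by
        rw [eq_top_iff, ← hVQ]
        exact sup_le le_sup_right (hclQ ▸ hclh)
      have hYVn : (Y ⊓ V).Normal := by
        constructor
        intro n hn g
        have hg : g ∈ V ⊔ Y := by rw [sup_comm, hYV]; exact mem_top g
        obtain ⟨v', hv', y, hy, rfl⟩ :=
          mem_sup_of_normalizes (fun k _ n hn => hVn.conj_mem n hn k) hg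
        have hn' := Subgroup.mem_inf.1 hn
        have h1 : y * n * y⁻¹ ∈ Y ⊓ V :=
          Subgroup.mem_inf.2 ⟨mul_mem (mul_mem hy hn'.1) (inv_mem hy), hVn.conj_mem n hn'.2 y⟩
        have e : v' * y * n * (v' * y)⁻¹ = v' * (y * n * y⁻¹) * v'⁻¹ := by group
        rw [e, hcomm v' hv' _ (Subgroup.mem_inf.1 h1).2]
        simpa using h1
      have hYV1 : Y ⊓ V = ⊥ := by
        rcases hmin _ hYVn (hYi.inf hVi) inf_le_right with h1 | h1
        · exact h1
        · exfalso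
          apply hYtop
          have h2 : V ≤ Y := inf_eq_right.1 h1
          rw [← hYV, sup_eq_left.2 h2]
      set g1 := (v * h)⁻¹ * (x ^ 1) (v * h) with hg1
      set g2 := (v * h)⁻¹ * (x ^ 2) (v * h) with hg2
      have m1 : g1 ∈ Y := mem_cl x (v * h) 1
      have m2 : g2 ∈ Y := mem_cl x (v * h) 2
      have hmk : ∀ i : ℕ, (((v * h)⁻¹ * (x ^ i) (v * h) : H) : H ⧸ V)
          = ((h⁻¹ * (x ^ i) h : H) : H ⧸ V) := by
        intro i
        rw [QuotientGroup.eq]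
        have e : ((v * h)⁻¹ * (x ^ i) (v * h))⁻¹ * (h⁻¹ * (x ^ i) h)
            = ((x ^ i) h)⁻¹ * (v⁻¹ * (x ^ i) v)⁻¹ * ((x ^ i) h)⁻¹⁻¹ := by
          rw [map_mul]; group
        rw [e]
        exact hVn.conj_mem _ (inv_mem (mul_mem (inv_mem hv) (hVi.pow i hv))) _
      have h3 : g1 * g2 * g1⁻¹ * g2⁻¹ ∈ V := by
        rw [← QuotientGroup.eq_one_iff]
        rw [QuotientGroup.mk_mul, QuotientGroup.mk_mul, QuotientGroup.mk_mul,
          QuotientGroup.mk_inv, QuotientGroup.mk_inv, hg1, hg2, hmk 1, hmk 2]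
        rw [← QuotientGroup.mk_inv, ← QuotientGroup.mk_inv, ← QuotientGroup.mk_mul,
          ← QuotientGroup.mk_mul, ← QuotientGroup.mk_mul]
        have h4 := hQab (h⁻¹ * (x ^ 1) h) (mul_mem (inv_mem hh) (hQi.pow 1 hh))
          (h⁻¹ * (x ^ 2) h) (mul_mem (inv_mem hh) (hQi.pow 2 hh))
        rw [h4]
        have e : h⁻¹ * (x ^ 2) h * (h⁻¹ * (x ^ 1) h) * (h⁻¹ * (x ^ 1) h)⁻¹ * (h⁻¹ * (x ^ 2) h)⁻¹
            = 1 := by group
        rw [e]; rfl
      have h4 : g1 * g2 * g1⁻¹ * g2⁻¹ ∈ Y ⊓ V := Subgroup.mem_inf.2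
        ⟨mul_mem (mul_mem (mul_mem m1 m2) (inv_mem m1)) (inv_mem m2), h3⟩
      rw [hYV1, mem_bot, mul_inv_eq_one, mul_inv_eq_iff_eq_mul] at h4
      exact h4
  -- the identity in `V`
  have hid : ∀ v ∈ V, ∀ h ∈ Q,
      (v⁻¹ * x v) * ((h⁻¹ * (x ^ 1) h) * (v⁻¹ * (x ^ 2) v) * (h⁻¹ * (x ^ 1) h)⁻¹)
      = (v⁻¹ * (x ^ 2) v) * ((h⁻¹ * (x ^ 2) h) * (v⁻¹ * x v) * (h⁻¹ * (x ^ 2) h)⁻¹) := by
    intro v hv h hh
    have h1 := hkey v hv h hh
    have q1 : h⁻¹ * (x ^ 1) h ∈ Q := mul_mem (inv_mem hh) (hQi.pow 1 hh)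
    have q2 : h⁻¹ * (x ^ 2) h ∈ Q := mul_mem (inv_mem hh) (hQi.pow 2 hh)
    have e1 : ∀ i : ℕ, (x ^ i) h * h⁻¹ = h⁻¹ * (x ^ i) h := fun i =>
      hQab _ (hQi.pow i hh) _ (inv_mem hh)
    have e2 : ∀ i : ℕ, h * ((v * h)⁻¹ * (x ^ i) (v * h)) * h⁻¹
        = (v⁻¹ * (x ^ i) v) * (h⁻¹ * (x ^ i) h) := by
      intro i
      rw [map_mul, ← e1 i]; group
    have h2 : (h * ((v * h)⁻¹ * (x ^ 1) (v * h)) * h⁻¹) * (h * ((v * h)⁻¹ * (x ^ 2) (v * h)) * h⁻¹)
        = (h * ((v * h)⁻¹ * (x ^ 2) (v * h)) * h⁻¹) * (h * ((v * h)⁻¹ * (x ^ 1) (v * h)) * h⁻¹) := by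
      calc _ = h * (((v * h)⁻¹ * (x ^ 1) (v * h)) * ((v * h)⁻¹ * (x ^ 2) (v * h))) * h⁻¹ := by group
        _ = h * (((v * h)⁻¹ * (x ^ 2) (v * h)) * ((v * h)⁻¹ * (x ^ 1) (v * h))) * h⁻¹ := by rw [h1]
        _ = _ := by group
    rw [e2 1, e2 2] at h2
    have h3 := hQab _ q1 _ q2
    have h4 := comm_identity h2 h3
    rw [pow_one_apply x v] at h4
    exact h4
  -- sum over `Q`
  let hVcg : CommGroup V := { (inferInstance : Group V) with
    mul_comm := fun a b => Subtype.ext (hcomm a a.2 b b.2) }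
  have : Fintype Q := Fintype.ofFinite Q
  let cj : Q → V → V := fun q w => ⟨q * w * (q : H)⁻¹, hVn.conj_mem w w.2 q⟩
  let Nm : V → V := fun w => ∏ q : Q, cj q w
  have hcjmul : ∀ q : Q, ∀ a b : V, cj q (a * b) = cj q a * cj q b := by
    intro q a b
    apply Subtype.ext
    show (q : H) * (a * b) * (q : H)⁻¹ = (q * a * (q : H)⁻¹) * (q * b * (q : H)⁻¹)
    group
  have hcjprod : ∀ q : Q, ∀ f : Q → V, cj q (∏ r : Q, f r) = ∏ r : Q, cj q (f r) := by
    intro q f
    let φ : V →* V := MonoidHom.mk' (cj q) (hcjmul q)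
    exact map_prod φ f Finset.univ
  have hNm : ∀ w : V, Nm w = 1 := by
    intro w
    have h1 : ∀ q : Q, cj q (Nm w) = Nm w := by
      intro q
      show cj q (∏ r : Q, cj r w) = ∏ r : Q, cj r w
      rw [hcjprod]
      refine Fintype.prod_equiv (Equiv.mulLeft q) _ _ (fun r => ?_)
      apply Subtype.ext
      show (q : H) * (r * w * (r : H)⁻¹) * (q : H)⁻¹ = ((q : H) * r) * w * ((q : H) * r)⁻¹
      group
    -- fixed points of `Q` on `V` are trivial
    have hci : Inv x (V ⊓ centralizer (Q : Set H)) := by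
      refine hVi.inf ?_
      intro c hc
      rw [mem_centralizer_iff] at hc ⊢
      intro v hv
      obtain ⟨v', hv', rfl⟩ := hsurj Q hQi v hv
      rw [← map_mul, hc v' hv', map_mul]
    have hcn : (V ⊓ centralizer (Q : Set H)).Normal := by
      refine hnormal _ ?_ ?_
      · intro v hv n hn
        rw [hcomm v hv n (Subgroup.mem_inf.1 hn).1]; simpa using hn
      · intro q hq n hn
        have h1 := mem_centralizer_iff.1 (Subgroup.mem_inf.1 hn).2 q hq
        rw [h1]; simpa using hn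
    have hc1 : V ⊓ centralizer (Q : Set H) = ⊥ := by
      rcases hmin _ hcn hci inf_le_left with h2 | h2
      · exact h2
      · exfalso
        apply hQ1
        rw [eq_bot_iff, ← hfaith]
        intro q hq
        refine Subgroup.mem_inf.2 ⟨hq, ?_⟩
        rw [mem_centralizer_iff]
        intro v hv
        have h3 : v ∈ V ⊓ centralizer (Q : Set H) := by rw [h2]; exact hv
        exact (mem_centralizer_iff.1 (Subgroup.mem_inf.1 h3).2 q hq).symm
    have h2 : ((Nm w : V) : H) ∈ V ⊓ centralizer (Q : Set H) := by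
      refine Subgroup.mem_inf.2 ⟨(Nm w).2, ?_⟩
      rw [mem_centralizer_iff]
      intro q hq
      have h3 := congrArg Subtype.val (h1 ⟨q, hq⟩)
      have h4 : q * (Nm w : V) * q⁻¹ = (Nm w : V) := h3
      exact mul_inv_eq_iff_eq_mul.1 h4
    rw [hc1, mem_bot] at h2
    exact Subtype.ext h2
  apply hVF
  intro v hv
  -- bijections of `Q`
  have hinj : ∀ i : ℕ, (∀ q ∈ Q, (x ^ i) q = q → q = 1) → Function.Bijective
      (fun q : Q => (⟨(q : H)⁻¹ * (x ^ i) q, mul_mem (inv_mem q.2) (hQi.pow i q.2)⟩ : Q)) := by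
    intro i hi
    rw [← Finite.injective_iff_bijective]
    intro a b hab
    have h1 : (a : H)⁻¹ * (x ^ i) a = (b : H)⁻¹ * (x ^ i) b := congrArg Subtype.val hab
    have h2 : (x ^ i) ((a : H) * (b : H)⁻¹) = (a : H) * (b : H)⁻¹ := by
      rw [map_mul, map_inv]
      have h3 : (x ^ i) (a : H) = a * ((b : H)⁻¹ * (x ^ i) b) := by rw [← h1]; group
      rw [h3]; group
    have h4 := hi _ (mul_mem a.2 (inv_mem b.2)) h2
    exact Subtype.ext (mul_inv_eq_one.1 h4)
  have hb1 := hinj 1 (fun q hq h => hQF q hq (by rwa [pow_one_apply] at h))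
  have hb2 := hinj 2 (fun q hq h => hQF q hq (sq_fixed hodd hx h))
  let w1 : V := ⟨v⁻¹ * x v, mul_mem (inv_mem hv) (hVi v hv)⟩
  let w2 : V := ⟨v⁻¹ * (x ^ 2) v, mul_mem (inv_mem hv) (hVi.pow 2 hv)⟩
  have hprod1 : ∏ q : Q, (w1 * cj ⟨(q : H)⁻¹ * (x ^ 1) q,
      mul_mem (inv_mem q.2) (hQi.pow 1 q.2)⟩ w2) = w1 ^ Fintype.card Q := by
    rw [Finset.prod_mul_distrib]
    have h1 : ∏ q : Q, cj ⟨(q : H)⁻¹ * (x ^ 1) q, mul_mem (inv_mem q.2) (hQi.pow 1 q.2)⟩ w2
        = Nm w2 := by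
      refine Fintype.prod_bijective _ hb1 _ _ (fun q => rfl)
    rw [h1, hNm, mul_one, Finset.prod_const, Finset.card_univ]
  have hprod2 : ∏ q : Q, (w2 * cj ⟨(q : H)⁻¹ * (x ^ 2) q,
      mul_mem (inv_mem q.2) (hQi.pow 2 q.2)⟩ w1) = w2 ^ Fintype.card Q := by
    rw [Finset.prod_mul_distrib]
    have h1 : ∏ q : Q, cj ⟨(q : H)⁻¹ * (x ^ 2) q, mul_mem (inv_mem q.2) (hQi.pow 2 q.2)⟩ w1
        = Nm w1 := by
      refine Fintype.prod_bijective _ hb2 _ _ (fun q => rfl)
    rw [h1, hNm, mul_one, Finset.prod_const, Finset.card_univ]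
  have heq : w1 ^ Fintype.card Q = w2 ^ Fintype.card Q := by
    rw [← hprod1, ← hprod2]
    refine Finset.prod_congr rfl (fun q _ => ?_)
    apply Subtype.ext
    exact hid v hv q q.2
  have hw : w1 = w2 := by
    have h1 : (w1 * w2⁻¹) ^ Fintype.card Q = 1 := by
      rw [mul_pow, inv_pow, heq, mul_inv_cancel]
    have h2 : (w1 * w2⁻¹) ^ t = 1 := Subtype.ext (hexp _ (w1 * w2⁻¹).2)
    have h3 : (Fintype.card Q).Coprime t := by
      obtain ⟨n, hn⟩ := (IsPGroup.iff_card (p := u) (G := Q)).1 hQu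
      rw [← Nat.card_eq_fintype_card, hn]
      exact Nat.Coprime.pow_left n ((Nat.coprime_primes hu.out ht.out).2 hut)
    have h4 := pow_gcd_eq_one.2 ⟨h1, h2⟩
    rw [h3, pow_one] at h4
    exact mul_inv_eq_one.1 h4
  have hw' : v⁻¹ * x v = v⁻¹ * (x ^ 2) v := congrArg Subtype.val hw
  have h5 : x v = x (x v) := by
    have := mul_left_cancel hw'
    rwa [pow_succ_apply, pow_one_apply] at this
  exact (inj_of_pow hppos hx h5).symm

end Ctx

end Cfsg.Agent.H456
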