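import Cfsg.Agent.H456.CoprimeEnd5

/-!
# `C_{[H, x]}(x)` is generated by the `C_{[h, x]}(x)`, `x` of odd prime order acting coprimely on a
solvable group
-/

set_option autoImplicit false

namespace Cfsg.Agent.H456

open Subgroup

open scoped commutatorElement

universe u

/-- A minimal invariant normal subgroup of a solvable group is elementary abelian. -/
theorem exists_minimal {H : Type u} [Group H] [Finite H] [Group.IsSolvable H] [Nontrivial H]
    (x : Monoid.End H) :
    ∃ V : Subgroup H, V.Normal ∧ Inv x V ∧ V ≠ ⊥ ∧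
      (∀ N : Subgroup H, N.Normal → Inv x N → N ≤ V → N = ⊥ ∨ N = V) ∧
      (∀ a ∈ V, ∀ b ∈ V, a * b = b * a) ∧ ∃ t : ℕ, t.Prime ∧ ∀ v ∈ V, v ^ t = 1 := by
  classical
  have hne : {V : Subgroup H | V.Normal ∧ Inv x V ∧ V ≠ ⊥}.Nonempty :=
    ⟨⊤, inferInstance, inv_top x, top_ne_bot⟩
  obtain ⟨V, ⟨hVn, hVi, hV1⟩, hVmin⟩ := Set.exists_min_image _ (fun Y : Subgroup H => Nat.card Y)
    (Set.toFinite _) hne
  have hmin : ∀ N : Subgroup H, N.Normal → Inv x N → N ≤ V → N = ⊥ ∨ N = V := by
    intro N hn hi hle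
    by_cases h : N = ⊥
    · exact Or.inl h
    · exact Or.inr (Subgroup.eq_of_le_of_card_ge hle (hVmin N ⟨hn, hi, h⟩))
  have hcomm : ∀ a ∈ V, ∀ b ∈ V, a * b = b * a := by
    have h1 : ⁅V, V⁆ ≤ V := Subgroup.commutator_le_self V
    have h2 : ⁅V, V⁆ ≠ V := by
      intro h3
      have h4 : Nontrivial V := (Subgroup.nontrivial_iff_ne_bot V).2 hV1
      have h6 : _root_.commutator V < ⊤ := Group.IsSolvable.commutator_lt_top_of_nontrivial V
      apply h6.ne
      have h7 := Subgroup.map_subtype_commutator V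
      rw [h3] at h7
      apply Subgroup.map_injective V.subtype_injective
      rw [h7, ← MonoidHom.range_eq_map, Subgroup.range_subtype]
    rcases hmin _ inferInstance (hVi.commutator hVi) h1 with h3 | h3
    · intro a ha b hb
      have h6 : ⁅a, b⁆ ∈ ⁅V, V⁆ := Subgroup.commutator_mem_commutator ha hb
      rw [h3, mem_bot, commutatorElement_eq_one_iff_mul_comm] at h6
      exact h6
    · exact absurd h3 h2
  obtain ⟨t, ht, v, hv, hvo⟩ : ∃ t : ℕ, t.Prime ∧ ∃ v ∈ V, orderOf v = t := by
    have h1 : Nat.card V ≠ 1 := by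
      intro h2; exact hV1 (Subgroup.card_eq_one.1 h2)
    obtain ⟨t, ht, htd⟩ := Nat.exists_prime_and_dvd h1
    have := Fact.mk ht
    obtain ⟨v, hv⟩ := exists_prime_orderOf_dvd_card' (G := V) t htd
    exact ⟨t, ht, v, v.2, by rw [Subgroup.orderOf_coe, hv]⟩
  refine ⟨V, hVn, hVi, hV1, hmin, hcomm, t, ht, ?_⟩
  let O : Subgroup H :=
    { carrier := {g | g ∈ V ∧ g ^ t = 1}
      mul_mem' := by
        rintro a b ⟨ha, ha'⟩ ⟨hb, hb'⟩
        refine ⟨mul_mem ha hb, ?_⟩
        have : Commute a b := hcomm a ha b hb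
        rw [this.mul_pow, ha', hb', mul_one]
      one_mem' := ⟨one_mem _, one_pow _⟩
      inv_mem' := by
        rintro a ⟨ha, ha'⟩
        exact ⟨inv_mem ha, by rw [inv_pow, ha', inv_one]⟩ }
  have hOn : O.Normal := by
    constructor
    rintro n ⟨hn, hn'⟩ g
    refine ⟨hVn.conj_mem n hn g, ?_⟩
    rw [conj_pow, hn']; group
  have hOi : Inv x O := by
    rintro n ⟨hn, hn'⟩
    exact ⟨hVi n hn, by rw [← map_pow, hn', map_one]⟩
  have hOV : O ≤ V := fun g hg => hg.1
  rcases hmin O hOn hOi hOV with h | h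
  · exfalso
    have h1 : v ∈ O := ⟨hv, by rw [← hvo]; exact pow_orderOf_eq_one v⟩
    rw [h, mem_bot] at h1
    rw [h1, orderOf_one] at hvo
    exact ht.one_lt.ne hvo
  · intro w hw
    rw [← h] at hw
    exact hw.2

theorem main_aux (p : ℕ) [hp : Fact p.Prime] (hodd : p ≠ 2) (n : ℕ) :
    ∀ (H : Type u) [Group H] [Finite H] [Group.IsSolvable H] (x : Monoid.End H),
      Nat.card H = n → x ^ p = 1 → ¬ p ∣ Nat.card H → DD x ⊤ ⊓ Fx x ≤ WW x ⊤ := by
  induction n using Nat.strong_induction_on with
  | _ n IH =>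
    intro H _ _ _ x hn hx hpH
    have ih1 : ∀ K : Subgroup H, Inv x K → K ≠ ⊤ → DD x K ⊓ Fx x ≤ WW x K := by
      intro K hK hKtop
      refine inf_le_of_res hK ?_
      refine IH (Nat.card K) ?_ K (res x K hK) rfl (res_pow_eq_one hK hx)
        (not_dvd_of_le hpH)
      rw [← hn]
      refine lt_of_le_of_ne (Subgroup.card_le_card_group K) ?_
      intro h
      exact hKtop (Subgroup.eq_top_of_card_eq K h)
    by_cases htop : DD x ⊤ = ⊤
    · have C : Ctx p x :=
        { hx := hx
          hpH := hpH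
          htop := htop
          ih1 := fun K hK hKt => (ih1 K hK hKt).trans (WW_mono le_top)
          ih2 := by
            intro V hVn hVi hV1
            refine Fx_le_of_quo x V hVi hpH hx htop ?_
            refine IH (Nat.card (H ⧸ V)) ?_ (H ⧸ V) (quo x V hVi) rfl
              (quo_pow_eq_one x V hVi hx) ?_
            · rw [← hn]
              have h1 := Subgroup.card_eq_card_quotient_mul_card_subgroup V
              have h2 : 1 < Nat.card V := by
                have : Nontrivial V := (Subgroup.nontrivial_iff_ne_bot V).2 hV1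
                exact Finite.one_lt_card
              have h3 : 0 < Nat.card (H ⧸ V) := Nat.card_pos
              rw [h1]
              nlinarith
            · intro h
              exact hpH (h.trans (Subgroup.card_quotient_dvd_card V)) }
      refine inf_le_right.trans ?_
      by_cases hnt : Nontrivial H
      · obtain ⟨V, hVn, hVi, hV1, hmin, hcomm, t, ht, hexp⟩ := exists_minimal x
        have := Fact.mk ht
        exact C.main_case hodd hVn hVi hV1 hmin hcomm hexp
      · rw [not_nontrivial_iff_subsingleton] at hnt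
        intro c _
        rw [Subsingleton.elim c 1]; exact one_mem _
    · have h1 := ih1 (DD x ⊤) (inv_DD x ⊤) htop
      rw [DD_DD hpH hx (inv_top x)] at h1
      exact h1.trans (WW_mono le_top)

/-- **Main result**: for `x` an automorphism with `x ^ p = 1`, `p` odd prime, of a solvable
`p'`-group `H`, the fixed points of `x` in `[H, x]` are generated by the fixed points in the
`[h, x]`. -/
theorem main {H : Type u} [Group H] [Finite H] [Group.IsSolvable H] {p : ℕ} [hp : Fact p.Prime]
    (hodd : p ≠ 2) (hpH : ¬ p ∣ Nat.card H) (x : Monoid.End H) (hx : x ^ p = 1) :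
    DD x ⊤ ⊓ Fx x = ⨆ h : H, cl x h ⊓ Fx x := by
  apply le_antisymm
  · refine (main_aux p hodd (Nat.card H) H x rfl hx hpH).trans ?_
    exact iSup_le fun h => le_iSup (fun h : H => cl x h ⊓ Fx x) (h : H)
  · refine iSup_le fun h => ?_
    exact inf_le_inf_right _ (cl_le_DD x (mem_top h))

end Cfsg.Agent.H456
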