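import Mathlib
import Cfsg.Agent.H456.PrimTwoA
import Cfsg.Agent.Lib.PSL2Torus
import Cfsg.Agent.S0254
import Cfsg.Agent.Classification.PSLTwoEvenSylow

/-!
# Task 1105 (S3574): alternating groups and `PSL(2, q)`
-/

set_option autoImplicit false
set_option linter.unusedSectionVars false

namespace Cfsg.Agent.H456.PrimTwo

open Subgroup Cfsg Cfsg.Agent.H584.NC

universe u

/-- the conclusion -/
def Concl (S : Type u) [Group S] : Prop :=
  ∃ (F : Type) (_ : Field F) (_ : Fintype F),
    (Fintype.card F = 7 ∨ Fintype.card F = 9 ∨ Fintype.card F = 17 ∨ Fintype.card F = 31) ∧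
    Nonempty (S ≃* Matrix.ProjectiveSpecialLinearGroup (Fin 2) F)

section

variable {S : Type u} [Group S] [Finite S]

theorem CT.false_of_abelian (h : CT S) (hab : ∀ P : Sylow 2 S, ∀ x ∈ (P : Subgroup S), ∀ y ∈ (P : Subgroup S),
    x * y = y * x) : False := by
  obtain ⟨z, Q, hz, hc, hn⟩ := h.ex
  apply h.nonsol
  apply NC.solvable
  refine Cfsg.Agent.H161.L2Sub.nc_of_abelian Q (hab Q) (NC_of_isPGroup ?_)
  change IsPGroup 2 (normalizer ((Q : Subgroup S) : Set S))
  rw [hn]
  exact Q.isPGroup'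

theorem CT.false_of_four (h : CT S) (h4 : Nat.card S % 8 = 4) : False := by
  apply h.false_of_abelian
  intro P x hx y hy
  have hPc : Nat.card P = 2 ^ 2 := by
    rw [P.card_eq_multiplicity]
    congr 1
    have hpos : Nat.card S ≠ 0 := Nat.card_pos.ne'
    apply le_antisymm
    · by_contra hcon
      have h3 : 2 ^ 3 ∣ Nat.card S := (Nat.prime_two.pow_dvd_iff_le_factorization hpos).2 (by omega)
      omega
    · exact (Nat.prime_two.pow_dvd_iff_le_factorization hpos).1 (by omega)
  have h3 : IsMulCommutative P := IsPGroup.isMulCommutative_of_card_eq_prime_sq hPc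
  exact congrArg Subtype.val (h3.1.1 (⟨x, hx⟩ : P) ⟨y, hy⟩)

theorem CT.false_of_64 (h : CT S) {n : ℕ} (hn : Nat.card S = n) (h64 : 64 ∣ n) : False :=
  h.card (hn ▸ h64)

end

/-! ### `PSL(2, q)` -/

theorem not_field_fifteen {F : Type} [Field F] [Fintype F] : Fintype.card F ≠ 15 := by
  intro h
  have h1 : IsPrimePow (Fintype.card F) := Fintype.isPrimePow_card_of_field
  rw [h] at h1
  obtain ⟨p, k, hp, hk, hpk⟩ := h1
  have hp' := hp.nat_prime
  have h3 : 3 ∣ p ^ k := by rw [hpk]; norm_num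
  have h5 : 5 ∣ p ^ k := by rw [hpk]; norm_num
  have h3' := (Nat.prime_dvd_prime_iff_eq Nat.prime_three hp').1 (Nat.prime_three.dvd_of_dvd_pow h3)
  have h5' := (Nat.prime_dvd_prime_iff_eq Nat.prime_five hp').1 (Nat.prime_five.dvd_of_dvd_pow h5)
  omega

theorem not_field_33 {F : Type} [Field F] [Fintype F] : Fintype.card F ≠ 33 := by
  intro h
  have h1 : IsPrimePow (Fintype.card F) := Fintype.isPrimePow_card_of_field
  rw [h] at h1
  obtain ⟨p, k, hp, hk, hpk⟩ := h1
  have hp' := hp.nat_prime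
  have h3 : 3 ∣ p ^ k := by rw [hpk]; norm_num
  have h5 : 11 ∣ p ^ k := by rw [hpk]; norm_num
  have h3' := (Nat.prime_dvd_prime_iff_eq Nat.prime_three hp').1 (Nat.prime_three.dvd_of_dvd_pow h3)
  have h5' := (Nat.prime_dvd_prime_iff_eq (by norm_num) hp').1 ((by norm_num : Nat.Prime 11).dvd_of_dvd_pow h5)
  omega

theorem CT.psl2 {S : Type u} [Group S] [Finite S] (h : CT S) {F : Type} [Field F] [Fintype F]
    (hF : Odd (Fintype.card F)) (e : S ≃* Matrix.ProjectiveSpecialLinearGroup (Fin 2) F) : Concl S := by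
  obtain ⟨z, Q, hz, hc, hn⟩ := h.ex
  have hcS : Nat.card S * 2 = Fintype.card F * (Fintype.card F ^ 2 - 1) := by
    rw [Nat.card_congr e.toEquiv, Cfsg.Agent.ClassicalGeometry.PSL2Basic.card_PSL2_odd F hF]
  have h2 : (2 : F) ≠ 0 := Cfsg.Agent.ClassicalGeometry.PSL2Basic.two_ne_zero_iff_odd F |>.2 hF
  have hz1 : z ≠ 1 := by
    rintro rfl
    rw [orderOf_one] at hz
    omega
  have hzz : z * z = 1 := by rw [← pow_two, ← hz, pow_orderOf_eq_one]
  obtain ⟨T, m, hT, hm⟩ := Cfsg.Agent.Lib.PSL2Torus.exists_torus h2 e hz1 hzz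
  have hcc := hT.card_centralizer
  rw [hc, Q.card_eq_multiplicity] at hcc
  have hk : (Nat.card S).factorization 2 ≤ 5 := by
    by_contra hcon
    apply h.card
    have h3 : 2 ^ 6 ∣ Nat.card S := (Nat.prime_two.pow_dvd_iff_le_factorization Nat.card_pos.ne').2 (by omega)
    exact h3
  rw [Nat.card_eq_fintype_card] at hm
  generalize (Nat.card S).factorization 2 = k at *
  have h3 : Fintype.card F ≠ 3 := by
    intro h3
    rw [h3] at hcS
    exact h.false_of_four (by omega)
  have h5 : Fintype.card F ≠ 5 := by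
    intro h3
    rw [h3] at hcS
    exact h.false_of_four (by omega)
  have h15 := not_field_fifteen (F := F)
  have h33 := not_field_33 (F := F)
  have h1 : 1 < Fintype.card F := Fintype.one_lt_card
  refine ⟨F, inferInstance, inferInstance, ?_, ⟨e⟩⟩
  interval_cases k <;> omega

theorem CT.psl2_even {S : Type u} [Group S] [Finite S] (h : CT S) {F : Type} [Field F] [Fintype F] [CharP F 2]
    (e : S ≃* Matrix.ProjectiveSpecialLinearGroup (Fin 2) F) : False := by
  apply h.false_of_abelian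
  intro P x hx y hy
  have h3 := Cfsg.Agent.Classification.PSLTwoEvenSylow.sylow_comm e P
  exact congrArg Subtype.val (h3.1.1 (⟨x, hx⟩ : P) ⟨y, hy⟩)

/-! ### alternating groups -/

theorem seven (σ : Equiv.Perm (Fin 7)) (hσ : orderOf σ = 2) (hs : Equiv.Perm.sign σ = 1) :
    ∃ c : Equiv.Perm (Fin 7), Equiv.Perm.sign c = 1 ∧ orderOf c = 3 ∧ c * σ = σ * c := by
  obtain ⟨n, hn⟩ := Equiv.Perm.cycleType_prime_order (σ := σ) (by rw [hσ]; exact Nat.prime_two)
  rw [hσ] at hn
  have h1 := Equiv.Perm.sign_of_cycleType σ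
  rw [hn, hs, Multiset.sum_replicate, Multiset.card_replicate, smul_eq_mul] at h1
  have h2 := Equiv.Perm.sum_cycleType σ
  rw [hn, Multiset.sum_replicate, smul_eq_mul] at h2
  have h3 : σ.support.card ≤ 7 := (Finset.card_le_univ _).trans (by simp)
  have hn3 : n < 3 := by omega
  have hn1 : n = 1 := by
    interval_cases n
    · exfalso
      revert h1
      decide
    · rfl
    · exfalso
      revert h1
      decide
  subst hn1
  have h4 : (σ.supportᶜ : Finset (Fin 7)).card = 3 := by
    rw [Finset.card_compl, ← h2, Fintype.card_fin]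
  obtain ⟨a, b, d, hab, had, hbd, hcompl⟩ := Finset.card_eq_three.1 h4
  have hfix : ∀ x ∈ ({a, b, d} : Finset (Fin 7)), σ x = x := by
    intro x hx
    rw [← hcompl, Finset.mem_compl, Equiv.Perm.mem_support, not_not] at hx
    exact hx
  have ha := hfix a (by simp)
  have hb := hfix b (by simp)
  have hd := hfix d (by simp)
  refine ⟨Equiv.swap a b * Equiv.swap a d, ?_, ?_, ?_⟩
  · rw [map_mul, Equiv.Perm.sign_swap hab, Equiv.Perm.sign_swap had]
    rfl
  · exact (Equiv.Perm.isThreeCycle_swap_mul_swap_same hab had hbd).orderOf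
  · have e1 : σ * Equiv.swap a b = Equiv.swap a b * σ := by
      rw [Equiv.mul_swap_eq_swap_mul, ha, hb]
    have e2 : σ * Equiv.swap a d = Equiv.swap a d * σ := by
      rw [Equiv.mul_swap_eq_swap_mul, ha, hd]
    rw [mul_assoc, ← e2, ← mul_assoc, ← e1, mul_assoc]

theorem CT.alt {S : Type u} [Group S] [Finite S] (h : CT S) (hS : IsAlternating S) : Concl S := by
  obtain ⟨n, hn, ⟨e⟩⟩ := hS
  have hnt : Nontrivial (Fin n) := by
    rw [Fin.nontrivial_iff_two_le]; omega
  have hcard : 2 * Nat.card S = n.factorial := by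
    rw [Nat.card_congr e.toEquiv, two_mul_nat_card_alternatingGroup, Nat.card_perm, Nat.card_fin]
  rcases (show n = 5 ∨ n = 6 ∨ n = 7 ∨ 8 ≤ n by omega) with rfl | rfl | rfl | h8
  · exfalso
    have h1 : Nat.factorial 5 = 120 := by decide
    rw [h1] at hcard
    exact h.false_of_four (by omega)
  · have : Fact (Nat.Prime 3) := ⟨by norm_num⟩
    let _ := Fintype.ofFinite (GaloisField 3 2)
    have hc : Fintype.card (GaloisField 3 2) = 9 := by
      rw [← Nat.card_eq_fintype_card, GaloisField.card 3 2 (by norm_num)]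
      norm_num
    obtain ⟨e'⟩ := S0254.result hc
    exact ⟨GaloisField 3 2, inferInstance, inferInstance, Or.inr (Or.inl hc), ⟨e.trans e'.symm⟩⟩
  · exfalso
    obtain ⟨z, Q, hz, hc, -⟩ := h.ex
    have h1 : orderOf ((e z : alternatingGroup (Fin 7)) : Equiv.Perm (Fin 7)) = 2 := by
      rw [Subgroup.orderOf_coe, e.orderOf_eq, hz]
    obtain ⟨c, hcs, hc3, hcc⟩ := seven _ h1 (Equiv.Perm.mem_alternatingGroup.1 (e z).2)
    have h2 : e.symm ⟨c, Equiv.Perm.mem_alternatingGroup.2 hcs⟩ ∈ (Q : Subgroup S) := by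
      rw [← hc, mem_centralizer_singleton_iff]
      apply e.injective
      rw [map_mul, map_mul, e.apply_symm_apply]
      exact Subtype.ext hcc
    obtain ⟨j, hj⟩ := (IsPGroup.iff_orderOf.1 Q.isPGroup') ⟨_, h2⟩
    rw [Subgroup.orderOf_mk, e.symm.orderOf_eq, Subgroup.orderOf_mk, hc3] at hj
    rcases j with _ | j
    · omega
    · rw [pow_succ] at hj
      omega
  · exfalso
    apply h.card
    have h1 : Nat.factorial 8 ∣ n.factorial := Nat.factorial_dvd_factorial h8
    have h2 : Nat.factorial 8 = 128 * 315 := by decide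
    rw [h2, ← hcard] at h1
    obtain ⟨k, hk⟩ := h1
    exact ⟨315 * k, by omega⟩

end Cfsg.Agent.H456.PrimTwo
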